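import Mathlib
import Cfsg.Prelude.Def_Sporadic_a

set_option autoImplicit false
set_option linter.unusedSectionVars false
set_option linter.unusedVariables false

namespace Cfsg.Agent.Helper3

open Finset

section Steiner

variable {α : Type*} [Fintype α] [DecidableEq α]

theorem card_superset_powersetCard (s b : Finset α) (hsb : s ⊆ b) (t : ℕ) (ht : s.card ≤ t) :
    ((powersetCard t b).filter (fun u => s ⊆ u)).card =
      Nat.choose (b.card - s.card) (t - s.card) := by
  have h1 : (powersetCard t b).filter (fun u => s ⊆ u) =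
      (powersetCard (t - s.card) (b \ s)).image (fun u => u ∪ s) := by
    ext x
    simp only [mem_filter, mem_powersetCard, mem_image]
    constructor
    · rintro ⟨⟨hxb, hxc⟩, hsx⟩
      refine ⟨x \ s, ⟨?_, ?_⟩, ?_⟩
      · exact sdiff_subset_sdiff hxb (le_refl s)
      · rw [card_sdiff_of_subset hsx, hxc]
      · exact sdiff_union_of_subset hsx
    · rintro ⟨u, ⟨hub, huc⟩, rfl⟩
      have hdisj : Disjoint u s := disjoint_of_subset_left hub sdiff_disjoint
      refine ⟨⟨union_subset (hub.trans sdiff_subset) hsb, ?_⟩, subset_union_right⟩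
      rw [card_union_of_disjoint hdisj, huc]; omega
  rw [h1, card_image_of_injOn, card_powersetCard, card_sdiff_of_subset hsb]
  intro u hu v hv huv
  have hu1 : u ⊆ b \ s := (mem_powersetCard.1 hu).1
  have hv1 : v ⊆ b \ s := (mem_powersetCard.1 hv).1
  have hu' : Disjoint u s := disjoint_of_subset_left hu1 sdiff_disjoint
  have hv' : Disjoint v s := disjoint_of_subset_left hv1 sdiff_disjoint
  have huv' : u ∪ s = v ∪ s := huv
  calc u = (u ∪ s) \ s := (union_sdiff_cancel_right hu').symm
    _ = (v ∪ s) \ s := by rw [huv']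
    _ = v := union_sdiff_cancel_right hv'

/-- The number of blocks through a set `s` of at most `t` points. -/
theorem blocks_through {t k : ℕ} {B : Finset (Finset α)}
    (hB : Cfsg.IsSteinerSystem t k (B : Set (Finset α))) (s : Finset α) (hst : s.card ≤ t) :
    (B.filter (fun b => s ⊆ b)).card * Nat.choose (k - s.card) (t - s.card) =
      Nat.choose (Fintype.card α - s.card) (t - s.card) := by
  have h1 : (powersetCard t (univ : Finset α)).filter (fun u => s ⊆ u) =
      (B.filter (fun b => s ⊆ b)).biUnion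
        (fun b => (powersetCard t b).filter (fun u => s ⊆ u)) := by
    ext u
    simp only [mem_filter, mem_powersetCard, mem_biUnion, subset_univ, true_and]
    constructor
    · rintro ⟨huc, hsu⟩
      obtain ⟨b, ⟨hbB, hub⟩, -⟩ := hB.2 u huc
      exact ⟨b, ⟨hbB, hsu.trans hub⟩, ⟨hub, huc⟩, hsu⟩
    · rintro ⟨b, -, ⟨-, huc⟩, hsu⟩
      exact ⟨huc, hsu⟩
  have h2 := card_superset_powersetCard s univ (subset_univ s) t hst
  rw [h1, card_biUnion] at h2
  · rw [card_univ] at h2
    rw [← h2]
    rw [Finset.sum_congr rfl (fun b hb => by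
      rw [card_superset_powersetCard s b (mem_filter.1 hb).2 t hst,
        hB.1 b (mem_filter.1 hb).1]), sum_const, smul_eq_mul]
  · intro b hb c hc hbc
    rw [Function.onFun, Finset.disjoint_left]
    intro u hub huc
    simp only [mem_filter, mem_powersetCard] at hub huc
    obtain ⟨b0, -, huniq⟩ := hB.2 u hub.1.2
    exact hbc ((huniq b ⟨(mem_filter.1 hb).1, hub.1.1⟩).trans
      (huniq c ⟨(mem_filter.1 hc).1, huc.1.1⟩).symm)

/-- Double counting of (`j`-subset of `b`, block containing it). -/
theorem sum_choose_inter {B : Finset (Finset α)} (b : Finset α) (j : ℕ) (lam : ℕ)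
    (hlam : ∀ s : Finset α, s.card = j → (B.filter (fun c => s ⊆ c)).card = lam) :
    ∑ c ∈ B, Nat.choose (b ∩ c).card j = Nat.choose b.card j * lam := by
  have h := Finset.sum_card_bipartiteAbove_eq_sum_card_bipartiteBelow
    (s := powersetCard j b) (t := B) (r := fun s c => s ⊆ c)
  have h1 : ∀ s ∈ powersetCard j b, (B.bipartiteAbove (fun s c => s ⊆ c) s).card = lam := by
    intro s hs
    exact hlam s (mem_powersetCard.1 hs).2
  have h2 : ∀ c ∈ B, ((powersetCard j b).bipartiteBelow (fun s c => s ⊆ c) c).card =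
      Nat.choose (b ∩ c).card j := by
    intro c hc
    have e : (powersetCard j b).bipartiteBelow (fun s c => s ⊆ c) c = powersetCard j (b ∩ c) := by
      ext s
      simp only [Finset.bipartiteBelow, mem_filter, mem_powersetCard, subset_inter_iff]
      tauto
    rw [e, card_powersetCard]
  rw [Finset.sum_congr rfl h1, Finset.sum_congr rfl h2, sum_const, smul_eq_mul,
    card_powersetCard] at h
  exact h.symm

theorem sum_fiber_inter (B : Finset (Finset α)) (b : Finset α) (g : ℕ → ℕ) (K : ℕ)
    (hK : ∀ c ∈ B, (b ∩ c).card ≤ K) :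
    ∑ c ∈ B, g (b ∩ c).card =
      ∑ i ∈ range (K + 1), (B.filter (fun c => (b ∩ c).card = i)).card * g i := by
  rw [← Finset.sum_fiberwise_of_maps_to' (g := fun c => (b ∩ c).card) (t := range (K + 1))
    (fun c hc => mem_range.2 (Nat.lt_succ_of_le (hK c hc))) g]
  apply Finset.sum_congr rfl
  intro i _
  rw [sum_const, smul_eq_mul]

/-- Two blocks sharing at least `t` points coincide. -/
theorem block_eq_of_inter {t k : ℕ} {B : Set (Finset α)} (hB : Cfsg.IsSteinerSystem t k B)
    {b c : Finset α} (hb : b ∈ B) (hc : c ∈ B) (h : t ≤ (b ∩ c).card) : b = c := by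
  obtain ⟨s, hs, hsc⟩ := exists_subset_card_eq h
  obtain ⟨b0, -, huniq⟩ := hB.2 s hsc
  exact (huniq b ⟨hb, hs.trans inter_subset_left⟩).trans
    (huniq c ⟨hc, hs.trans inter_subset_right⟩).symm

/-- The number of blocks meeting `b` in exactly `b.card` points is one. -/
theorem card_filter_inter_self {t k : ℕ} {B : Finset (Finset α)}
    (hB : Cfsg.IsSteinerSystem t k (B : Set (Finset α))) {b : Finset α} (hb : b ∈ B)
    (i : ℕ) (hi : t ≤ i) :
    (B.filter (fun c => (b ∩ c).card = i)).card = if i = k then 1 else 0 := by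
  have hk := hB.1 b hb
  split_ifs with h
  · subst h
    have e : B.filter (fun c => (b ∩ c).card = i) = {b} := by
      ext c
      simp only [mem_filter, mem_singleton]
      constructor
      · rintro ⟨hc, hcard⟩
        exact (block_eq_of_inter hB hb hc (by rw [hcard]; exact hi)).symm
      · rintro rfl
        exact ⟨hb, by rw [inter_self, hk]⟩
    rw [e, card_singleton]
  · rw [card_eq_zero, filter_eq_empty_iff]
    intro c hc hcard
    have e := block_eq_of_inter hB hb hc (by rw [hcard]; exact hi)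
    subst e
    rw [inter_self, hk] at hcard
    exact h hcard.symm

theorem s5824 (hα : Fintype.card α = 24) {B : Finset (Finset α)}
    (hB : Cfsg.IsSteinerSystem 5 8 (B : Set (Finset α))) {b : Finset α} (hb : b ∈ B) :
    (B.filter (fun c => (b ∩ c).card = 0)).card = 30 ∧
    (B.filter (fun c => (b ∩ c).card = 1)).card = 0 ∧
    (B.filter (fun c => (b ∩ c).card = 3)).card = 0 := by
  have hk := hB.1 b hb
  have hle : ∀ c ∈ B, (b ∩ c).card ≤ 8 := fun c _ => by
    rw [← hk]; exact card_le_card inter_subset_left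
  have lam : ∀ (j : ℕ), j ≤ 5 → ∀ (s : Finset α), s.card = j →
      (B.filter (fun c => s ⊆ c)).card * Nat.choose (8 - j) (5 - j) =
        Nat.choose (24 - j) (5 - j) := by
    intro j hj s hs
    have h := blocks_through hB s (by omega)
    rwa [hs, hα] at h
  have e0 := sum_choose_inter (B := B) b 0 759 (fun s hs => by
    have h := lam 0 (by omega) s hs; norm_num [Nat.choose] at h; omega)
  have e1 := sum_choose_inter (B := B) b 1 253 (fun s hs => by
    have h := lam 1 (by omega) s hs; norm_num [Nat.choose] at h; omega)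
  have e2 := sum_choose_inter (B := B) b 2 77 (fun s hs => by
    have h := lam 2 (by omega) s hs; norm_num [Nat.choose] at h; omega)
  have e3 := sum_choose_inter (B := B) b 3 21 (fun s hs => by
    have h := lam 3 (by omega) s hs; norm_num [Nat.choose] at h; omega)
  have e4 := sum_choose_inter (B := B) b 4 5 (fun s hs => by
    have h := lam 4 (by omega) s hs; norm_num [Nat.choose] at h; omega)
  rw [sum_fiber_inter B b (fun i => Nat.choose i 0) 8 hle, hk] at e0
  rw [sum_fiber_inter B b (fun i => Nat.choose i 1) 8 hle, hk] at e1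
  rw [sum_fiber_inter B b (fun i => Nat.choose i 2) 8 hle, hk] at e2
  rw [sum_fiber_inter B b (fun i => Nat.choose i 3) 8 hle, hk] at e3
  rw [sum_fiber_inter B b (fun i => Nat.choose i 4) 8 hle, hk] at e4
  simp only [Finset.sum_range_succ, Finset.sum_range_zero] at e0 e1 e2 e3 e4
  have n5 : (B.filter (fun c => (b ∩ c).card = 5)).card = 0 := by
    rw [card_filter_inter_self hB hb 5 (le_refl 5), if_neg (by decide)]
  have n6 : (B.filter (fun c => (b ∩ c).card = 6)).card = 0 := by
    rw [card_filter_inter_self hB hb 6 (by omega), if_neg (by decide)]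
  have n7 : (B.filter (fun c => (b ∩ c).card = 7)).card = 0 := by
    rw [card_filter_inter_self hB hb 7 (by omega), if_neg (by decide)]
  have n8 : (B.filter (fun c => (b ∩ c).card = 8)).card = 1 := by
    rw [card_filter_inter_self hB hb 8 (by omega), if_pos rfl]
  generalize hm0 : (B.filter (fun c => (b ∩ c).card = 0)).card = m0 at e0 e1 e2 e3 e4 ⊢
  generalize hm1 : (B.filter (fun c => (b ∩ c).card = 1)).card = m1 at e0 e1 e2 e3 e4 ⊢
  generalize hm2 : (B.filter (fun c => (b ∩ c).card = 2)).card = m2 at e0 e1 e2 e3 e4 ⊢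
  generalize hm3 : (B.filter (fun c => (b ∩ c).card = 3)).card = m3 at e0 e1 e2 e3 e4 ⊢
  generalize hm4 : (B.filter (fun c => (b ∩ c).card = 4)).card = m4 at e0 e1 e2 e3 e4 ⊢
  generalize hm5 : (B.filter (fun c => (b ∩ c).card = 5)).card = m5 at e0 e1 e2 e3 e4 n5 n6 n7 n8 ⊢
  generalize hm6 : (B.filter (fun c => (b ∩ c).card = 6)).card = m6 at e0 e1 e2 e3 e4 n5 n6 n7 n8 ⊢
  generalize hm7 : (B.filter (fun c => (b ∩ c).card = 7)).card = m7 at e0 e1 e2 e3 e4 n5 n6 n7 n8 ⊢
  generalize hm8 : (B.filter (fun c => (b ∩ c).card = 8)).card = m8 at e0 e1 e2 e3 e4 n5 n6 n7 n8 ⊢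
  norm_num [Nat.choose] at e0 e1 e2 e3 e4
  omega

theorem s4723 (hα : Fintype.card α = 23) {B : Finset (Finset α)}
    (hB : Cfsg.IsSteinerSystem 4 7 (B : Set (Finset α))) {b : Finset α} (hb : b ∈ B) :
    (B.filter (fun c => (b ∩ c).card = 0)).card = 0 ∧
    (B.filter (fun c => (b ∩ c).card = 2)).card = 0 := by
  have hk := hB.1 b hb
  have hle : ∀ c ∈ B, (b ∩ c).card ≤ 7 := fun c _ => by
    rw [← hk]; exact card_le_card inter_subset_left
  have lam : ∀ (j : ℕ), j ≤ 4 → ∀ (s : Finset α), s.card = j →
      (B.filter (fun c => s ⊆ c)).card * Nat.choose (7 - j) (4 - j) =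
        Nat.choose (23 - j) (4 - j) := by
    intro j hj s hs
    have h := blocks_through hB s (by omega)
    rwa [hs, hα] at h
  have e0 := sum_choose_inter (B := B) b 0 253 (fun s hs => by
    have h := lam 0 (by omega) s hs; norm_num [Nat.choose] at h; omega)
  have e1 := sum_choose_inter (B := B) b 1 77 (fun s hs => by
    have h := lam 1 (by omega) s hs; norm_num [Nat.choose] at h; omega)
  have e2 := sum_choose_inter (B := B) b 2 21 (fun s hs => by
    have h := lam 2 (by omega) s hs; norm_num [Nat.choose] at h; omega)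
  have e3 := sum_choose_inter (B := B) b 3 5 (fun s hs => by
    have h := lam 3 (by omega) s hs; norm_num [Nat.choose] at h; omega)
  rw [sum_fiber_inter B b (fun i => Nat.choose i 0) 7 hle, hk] at e0
  rw [sum_fiber_inter B b (fun i => Nat.choose i 1) 7 hle, hk] at e1
  rw [sum_fiber_inter B b (fun i => Nat.choose i 2) 7 hle, hk] at e2
  rw [sum_fiber_inter B b (fun i => Nat.choose i 3) 7 hle, hk] at e3
  simp only [Finset.sum_range_succ, Finset.sum_range_zero] at e0 e1 e2 e3
  have n4 : (B.filter (fun c => (b ∩ c).card = 4)).card = 0 := by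
    rw [card_filter_inter_self hB hb 4 (le_refl 4), if_neg (by decide)]
  have n5 : (B.filter (fun c => (b ∩ c).card = 5)).card = 0 := by
    rw [card_filter_inter_self hB hb 5 (by omega), if_neg (by decide)]
  have n6 : (B.filter (fun c => (b ∩ c).card = 6)).card = 0 := by
    rw [card_filter_inter_self hB hb 6 (by omega), if_neg (by decide)]
  have n7 : (B.filter (fun c => (b ∩ c).card = 7)).card = 1 := by
    rw [card_filter_inter_self hB hb 7 (by omega), if_pos rfl]
  generalize hm0 : (B.filter (fun c => (b ∩ c).card = 0)).card = m0 at e0 e1 e2 e3 ⊢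
  generalize hm1 : (B.filter (fun c => (b ∩ c).card = 1)).card = m1 at e0 e1 e2 e3 ⊢
  generalize hm2 : (B.filter (fun c => (b ∩ c).card = 2)).card = m2 at e0 e1 e2 e3 ⊢
  generalize hm3 : (B.filter (fun c => (b ∩ c).card = 3)).card = m3 at e0 e1 e2 e3 ⊢
  generalize hm4 : (B.filter (fun c => (b ∩ c).card = 4)).card = m4 at e0 e1 e2 e3 n4 n5 n6 n7 ⊢
  generalize hm5 : (B.filter (fun c => (b ∩ c).card = 5)).card = m5 at e0 e1 e2 e3 n4 n5 n6 n7 ⊢
  generalize hm6 : (B.filter (fun c => (b ∩ c).card = 6)).card = m6 at e0 e1 e2 e3 n4 n5 n6 n7 ⊢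
  generalize hm7 : (B.filter (fun c => (b ∩ c).card = 7)).card = m7 at e0 e1 e2 e3 n4 n5 n6 n7 ⊢
  norm_num [Nat.choose] at e0 e1 e2 e3
  omega

theorem s3622 (hα : Fintype.card α = 22) {B : Finset (Finset α)}
    (hB : Cfsg.IsSteinerSystem 3 6 (B : Set (Finset α))) {b : Finset α} (hb : b ∈ B) :
    (B.filter (fun c => (b ∩ c).card = 1)).card = 0 := by
  have hk := hB.1 b hb
  have hle : ∀ c ∈ B, (b ∩ c).card ≤ 6 := fun c _ => by
    rw [← hk]; exact card_le_card inter_subset_left
  have lam : ∀ (j : ℕ), j ≤ 3 → ∀ (s : Finset α), s.card = j →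
      (B.filter (fun c => s ⊆ c)).card * Nat.choose (6 - j) (3 - j) =
        Nat.choose (22 - j) (3 - j) := by
    intro j hj s hs
    have h := blocks_through hB s (by omega)
    rwa [hs, hα] at h
  have e0 := sum_choose_inter (B := B) b 0 77 (fun s hs => by
    have h := lam 0 (by omega) s hs; norm_num [Nat.choose] at h; omega)
  have e1 := sum_choose_inter (B := B) b 1 21 (fun s hs => by
    have h := lam 1 (by omega) s hs; norm_num [Nat.choose] at h; omega)
  have e2 := sum_choose_inter (B := B) b 2 5 (fun s hs => by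
    have h := lam 2 (by omega) s hs; norm_num [Nat.choose] at h; omega)
  rw [sum_fiber_inter B b (fun i => Nat.choose i 0) 6 hle, hk] at e0
  rw [sum_fiber_inter B b (fun i => Nat.choose i 1) 6 hle, hk] at e1
  rw [sum_fiber_inter B b (fun i => Nat.choose i 2) 6 hle, hk] at e2
  simp only [Finset.sum_range_succ, Finset.sum_range_zero] at e0 e1 e2
  have n3 : (B.filter (fun c => (b ∩ c).card = 3)).card = 0 := by
    rw [card_filter_inter_self hB hb 3 (le_refl 3), if_neg (by decide)]
  have n4 : (B.filter (fun c => (b ∩ c).card = 4)).card = 0 := by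
    rw [card_filter_inter_self hB hb 4 (by omega), if_neg (by decide)]
  have n5 : (B.filter (fun c => (b ∩ c).card = 5)).card = 0 := by
    rw [card_filter_inter_self hB hb 5 (by omega), if_neg (by decide)]
  have n6 : (B.filter (fun c => (b ∩ c).card = 6)).card = 1 := by
    rw [card_filter_inter_self hB hb 6 (by omega), if_pos rfl]
  generalize hm0 : (B.filter (fun c => (b ∩ c).card = 0)).card = m0 at e0 e1 e2 ⊢
  generalize hm1 : (B.filter (fun c => (b ∩ c).card = 1)).card = m1 at e0 e1 e2 ⊢
  generalize hm2 : (B.filter (fun c => (b ∩ c).card = 2)).card = m2 at e0 e1 e2 ⊢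
  generalize hm3 : (B.filter (fun c => (b ∩ c).card = 3)).card = m3 at e0 e1 e2 n3 n4 n5 n6 ⊢
  generalize hm4 : (B.filter (fun c => (b ∩ c).card = 4)).card = m4 at e0 e1 e2 n3 n4 n5 n6 ⊢
  generalize hm5 : (B.filter (fun c => (b ∩ c).card = 5)).card = m5 at e0 e1 e2 n3 n4 n5 n6 ⊢
  generalize hm6 : (B.filter (fun c => (b ∩ c).card = 6)).card = m6 at e0 e1 e2 n3 n4 n5 n6 ⊢
  norm_num [Nat.choose] at e0 e1 e2
  omega

theorem s5612 (hα : Fintype.card α = 12) {B : Finset (Finset α)}
    (hB : Cfsg.IsSteinerSystem 5 6 (B : Set (Finset α))) {b : Finset α} (hb : b ∈ B) :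
    (B.filter (fun c => (b ∩ c).card = 0)).card = 1 := by
  have hk := hB.1 b hb
  have hle : ∀ c ∈ B, (b ∩ c).card ≤ 6 := fun c _ => by
    rw [← hk]; exact card_le_card inter_subset_left
  have lam : ∀ (j : ℕ), j ≤ 5 → ∀ (s : Finset α), s.card = j →
      (B.filter (fun c => s ⊆ c)).card * Nat.choose (6 - j) (5 - j) =
        Nat.choose (12 - j) (5 - j) := by
    intro j hj s hs
    have h := blocks_through hB s (by omega)
    rwa [hs, hα] at h
  have e0 := sum_choose_inter (B := B) b 0 132 (fun s hs => by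
    have h := lam 0 (by omega) s hs; norm_num [Nat.choose] at h; omega)
  have e1 := sum_choose_inter (B := B) b 1 66 (fun s hs => by
    have h := lam 1 (by omega) s hs; norm_num [Nat.choose] at h; omega)
  have e2 := sum_choose_inter (B := B) b 2 30 (fun s hs => by
    have h := lam 2 (by omega) s hs; norm_num [Nat.choose] at h; omega)
  have e3 := sum_choose_inter (B := B) b 3 12 (fun s hs => by
    have h := lam 3 (by omega) s hs; norm_num [Nat.choose] at h; omega)
  have e4 := sum_choose_inter (B := B) b 4 4 (fun s hs => by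
    have h := lam 4 (by omega) s hs; norm_num [Nat.choose] at h; omega)
  rw [sum_fiber_inter B b (fun i => Nat.choose i 0) 6 hle, hk] at e0
  rw [sum_fiber_inter B b (fun i => Nat.choose i 1) 6 hle, hk] at e1
  rw [sum_fiber_inter B b (fun i => Nat.choose i 2) 6 hle, hk] at e2
  rw [sum_fiber_inter B b (fun i => Nat.choose i 3) 6 hle, hk] at e3
  rw [sum_fiber_inter B b (fun i => Nat.choose i 4) 6 hle, hk] at e4
  simp only [Finset.sum_range_succ, Finset.sum_range_zero] at e0 e1 e2 e3 e4
  have n5 : (B.filter (fun c => (b ∩ c).card = 5)).card = 0 := by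
    rw [card_filter_inter_self hB hb 5 (le_refl 5), if_neg (by decide)]
  have n6 : (B.filter (fun c => (b ∩ c).card = 6)).card = 1 := by
    rw [card_filter_inter_self hB hb 6 (by omega), if_pos rfl]
  generalize hm0 : (B.filter (fun c => (b ∩ c).card = 0)).card = m0 at e0 e1 e2 e3 e4 ⊢
  generalize hm1 : (B.filter (fun c => (b ∩ c).card = 1)).card = m1 at e0 e1 e2 e3 e4 ⊢
  generalize hm2 : (B.filter (fun c => (b ∩ c).card = 2)).card = m2 at e0 e1 e2 e3 e4 ⊢
  generalize hm3 : (B.filter (fun c => (b ∩ c).card = 3)).card = m3 at e0 e1 e2 e3 e4 ⊢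
  generalize hm4 : (B.filter (fun c => (b ∩ c).card = 4)).card = m4 at e0 e1 e2 e3 e4 ⊢
  generalize hm5 : (B.filter (fun c => (b ∩ c).card = 5)).card = m5 at e0 e1 e2 e3 e4 n5 n6 ⊢
  generalize hm6 : (B.filter (fun c => (b ∩ c).card = 6)).card = m6 at e0 e1 e2 e3 e4 n5 n6 ⊢
  norm_num [Nat.choose] at e0 e1 e2 e3 e4
  omega

/-- Any finite set of finsets is the coercion of a finset. -/
theorem exists_finset_coe (B : Set (Finset α)) : ∃ Bf : Finset (Finset α), (Bf : Set (Finset α)) = B :=
  ⟨(Set.toFinite B).toFinset, Set.Finite.coe_toFinset _⟩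

end Steiner

end Cfsg.Agent.Helper3
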