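import Mathlib

set_option autoImplicit false

namespace Cfsg.Agent.Helper3

open scoped Pointwise

/-- The four-group generated by two commuting involutions. -/
def kleinOf {G : Type*} [Group G] (x y : G) (hx : x * x = 1) (hy : y * y = 1)
    (hxy : x * y = y * x) : Subgroup G where
  carrier := {1, x, y, x * y}
  one_mem' := by simp
  mul_mem' := by
    have e1 : x * (x * y) = y := by rw [← mul_assoc, hx, one_mul]
    have e2 : y * (x * y) = x := by rw [← mul_assoc, ← hxy, mul_assoc, hy, mul_one]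
    have e3 : x * y * x = y := by rw [hxy, mul_assoc, hx, mul_one]
    have e4 : x * y * y = x := by rw [mul_assoc, hy, mul_one]
    have e5 : x * y * (x * y) = 1 := by rw [← mul_assoc, e3, hy]
    have e6 : y * x = x * y := hxy.symm
    rintro a b (rfl | rfl | rfl | rfl) (rfl | rfl | rfl | rfl) <;>
      simp [hx, hy, e1, e2, e3, e4, e5, e6]
  inv_mem' := by
    have i1 : x⁻¹ = x := inv_eq_of_mul_eq_one_left hx
    have i2 : y⁻¹ = y := inv_eq_of_mul_eq_one_left hy
    have e6 : y * x = x * y := hxy.symm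
    rintro a (rfl | rfl | rfl | rfl) <;> simp [i1, i2, e6]

theorem mem_kleinOf {G : Type*} [Group G] (x y : G) (hx : x * x = 1) (hy : y * y = 1)
    (hxy : x * y = y * x) (z : G) :
    z ∈ kleinOf x y hx hy hxy ↔ z = 1 ∨ z = x ∨ z = y ∨ z = x * y := Iff.rfl

theorem card_kleinOf {G : Type*} [Group G] (x y : G) (hx : x * x = 1) (hy : y * y = 1)
    (hxy : x * y = y * x) (hx1 : x ≠ 1) (hy1 : y ≠ 1) (hne : x ≠ y) :
    Nat.card (kleinOf x y hx hy hxy) = 4 := by
  classical
  have hxy1 : x * y ≠ 1 := by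
    intro h
    apply hne
    have : x = y⁻¹ := eq_inv_of_mul_eq_one_left h
    rw [this, inv_eq_of_mul_eq_one_left hy]
  have hxxy : x ≠ x * y := by
    intro h
    apply hy1
    have := congrArg (fun z => x⁻¹ * z) h
    simpa using this.symm
  have hyxy : y ≠ x * y := by
    intro h
    apply hx1
    have := congrArg (fun z => z * y⁻¹) h
    simpa using this.symm
  have hset : ((kleinOf x y hx hy hxy : Subgroup G) : Set G) = {1, x, y, x * y} := rfl
  change Nat.card ((kleinOf x y hx hy hxy : Subgroup G) : Set G) = 4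
  rw [hset, Nat.card_coe_set_eq, Set.ncard_insert_of_notMem, Set.ncard_insert_of_notMem,
    Set.ncard_pair hyxy]
  · simp only [Set.mem_insert_iff, Set.mem_singleton_iff, not_or]
    exact ⟨hne, hxxy⟩
  · simp only [Set.mem_insert_iff, Set.mem_singleton_iff, not_or]
    exact ⟨Ne.symm hx1, Ne.symm hy1, Ne.symm hxy1⟩

theorem sq_kleinOf {G : Type*} [Group G] (x y : G) (hx : x * x = 1) (hy : y * y = 1)
    (hxy : x * y = y * x) (z : G) (hz : z ∈ kleinOf x y hx hy hxy) : z * z = 1 := by
  rcases hz with rfl | rfl | rfl | rfl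
  · simp
  · exact hx
  · exact hy
  · have e3 : x * y * x = y := by rw [hxy, mul_assoc, hx, mul_one]
    rw [← mul_assoc, e3, hy]

/-- In a group of order `4 * odd` containing two distinct commuting involutions, every Sylow
`2`-subgroup is a Klein four-group. -/
theorem sylow_klein {G : Type*} [Group G] [Finite G] (m : ℕ) (hm : Odd m)
    (hcard : Nat.card G = 4 * m) (x y : G) (hx : x * x = 1) (hy : y * y = 1)
    (hxy : x * y = y * x) (hx1 : x ≠ 1) (hy1 : y ≠ 1) (hne : x ≠ y) (P : Sylow 2 G) :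
    IsKleinFour (P : Subgroup G) := by
  haveI : Fact (Nat.Prime 2) := ⟨Nat.prime_two⟩
  have hm0 : m ≠ 0 := by
    rintro rfl
    simp at hm
  have hfac : (Nat.card G).factorization 2 = 2 := by
    rw [hcard, show (4 : ℕ) = 2 ^ 2 by norm_num, Nat.factorization_mul (by norm_num) hm0,
      Nat.factorization_pow]
    have h2 : m.factorization 2 = 0 := by
      apply Nat.factorization_eq_zero_of_not_dvd
      intro hd
      rcases hm with ⟨k, hk⟩
      omega
    simp [h2, Nat.Prime.factorization_self Nat.prime_two]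
  have hcardS : ∀ Q : Sylow 2 G, Nat.card Q = 4 := by
    intro Q
    rw [Sylow.card_eq_multiplicity, hfac]
    norm_num
  have hV := card_kleinOf x y hx hy hxy hx1 hy1 hne
  have hVp : IsPGroup 2 (kleinOf x y hx hy hxy) := IsPGroup.of_card (n := 2) (by rw [hV]; norm_num)
  obtain ⟨Q, hVQ⟩ := hVp.exists_le_sylow
  have hVQ' : kleinOf x y hx hy hxy = (Q : Subgroup G) :=
    Subgroup.eq_of_le_of_card_ge hVQ (by rw [hcardS Q, hV])
  obtain ⟨g, hg⟩ := MulAction.exists_smul_eq G Q P
  have hsq : ∀ z : (P : Subgroup G), z ^ 2 = 1 := by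
    rintro ⟨z, hz⟩
    have hz' : z ∈ ((g • Q : Sylow 2 G) : Subgroup G) := by rw [hg]; exact hz
    rw [Sylow.coe_subgroup_smul, Subgroup.mem_pointwise_smul_iff_inv_smul_mem] at hz'
    have hz'' : g⁻¹ * z * g ∈ kleinOf x y hx hy hxy := by
      rw [hVQ']
      simpa [MulAut.smul_def] using hz'
    have h1 := sq_kleinOf x y hx hy hxy _ hz''
    apply Subtype.ext
    show z ^ 2 = 1
    have : z * z = g * ((g⁻¹ * z * g) * (g⁻¹ * z * g)) * g⁻¹ := by group
    rw [pow_two, this, h1]
    group
  refine ⟨hcardS P, ?_⟩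
  have hdvd : Monoid.exponent (P : Subgroup G) ∣ 2 := Monoid.exponent_dvd_of_forall_pow_eq_one hsq
  rcases (Nat.dvd_prime Nat.prime_two).mp hdvd with h | h
  · exfalso
    rw [Monoid.exp_eq_one_iff] at h
    have := hcardS P
    rw [Nat.card_eq_one_iff_unique.mpr ⟨h, ⟨1⟩⟩] at this
    omega
  · exact h

end Cfsg.Agent.Helper3
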