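import Mathlib
import Cfsg.Prelude.Def_Classical
import Cfsg.Prelude.Def_ClassicalGeometry
import Cfsg.Agent.Helper14.OInv
import Cfsg.Agent.Helper6.Symp2

/-!
Siegel elements of the hyperbolic quadratic form over the field with two elements (piece (S3) of the
team proof of S2487).
-/

set_option autoImplicit false

namespace Cfsg.Agent.S2487P

open Matrix Cfsg.Agent.Helper6 Cfsg.Agent.Helper14.OInv

/-- The matrix of `x ↦ x + f(x,a) b + f(x,b) a`. -/
def h3_sieMat {F : Type*} [Field F] (m : ℕ) (a b : Fin m ⊕ Fin m → F) :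
    Matrix (Fin m ⊕ Fin m) (Fin m ⊕ Fin m) F :=
  1 + Matrix.vecMulVec b (Matrix.J (Fin m) F *ᵥ a) + Matrix.vecMulVec a (Matrix.J (Fin m) F *ᵥ b)

theorem h3_sieMat_mulVec {F : Type*} [Field F] (m : ℕ) (a b x : Fin m ⊕ Fin m → F) :
    h3_sieMat m a b *ᵥ x = x + Cfsg.sympForm m F x a • b + Cfsg.sympForm m F x b • a := by
  rw [h3_sieMat, Matrix.add_mulVec, Matrix.add_mulVec, Matrix.one_mulVec,
    Matrix.vecMulVec_mulVec, Matrix.vecMulVec_mulVec, Cfsg.sympForm, Cfsg.sympForm,
    dotProduct_comm x, dotProduct_comm x]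
  ext i
  simp only [Pi.add_apply, Pi.smul_apply, MulOpposite.smul_eq_mul_unop, MulOpposite.unop_op,
    smul_eq_mul]
  ring

theorem h3_charP {F : Type*} [Field F] [Fintype F] (hF : Fintype.card F = 2) : CharP F 2 := by
  obtain ⟨p, hp⟩ := CharP.exists F
  have := hp
  have : Fact p.Prime := ⟨CharP.char_is_prime F p⟩
  obtain ⟨n, hn1, hn2⟩ := FiniteField.card F p
  rw [hF] at hn2
  have h2 : p ∣ 2 := by
    rw [hn2]
    exact dvd_pow_self p (PNat.ne_zero n)
  have h3 : p = 2 := (Nat.prime_dvd_prime_iff_eq (CharP.char_is_prime F p) Nat.prime_two).1 h2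
  rw [← h3]
  exact hp

theorem h3_zero_or_one {F : Type*} [Field F] [Fintype F] (hF : Fintype.card F = 2) (x : F) :
    x = 0 ∨ x = 1 := by
  have h := FiniteField.pow_card x
  rw [hF] at h
  have h2 : x * (x - 1) = 0 := by ring_nf; ring_nf at h; linear_combination h
  rcases mul_eq_zero.1 h2 with h3 | h3
  · exact Or.inl h3
  · exact Or.inr (sub_eq_zero.1 h3)

theorem h3_siegel {F : Type*} [Field F] [Fintype F] (hF : Fintype.card F = 2) (m : ℕ)
    (a b : Fin m ⊕ Fin m → F) (ha : Cfsg.quadFormPlus m F a = 0)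
    (hb : Cfsg.quadFormPlus m F b = 0) (hab : Cfsg.sympForm m F a b = 0) (ha0 : a ≠ 0)
    (hb0 : b ≠ 0) (hne : a ≠ b) :
    ∃ g : Matrix.GeneralLinearGroup (Fin m ⊕ Fin m) F,
      g ∈ Cfsg.isometryGroup F (Cfsg.quadFormPlus m F) ∧ g ≠ 1 ∧
      ∀ x : Fin m ⊕ Fin m → F, Cfsg.sympForm m F x a = 0 → Cfsg.sympForm m F x b = 0 →
        (g : Matrix (Fin m ⊕ Fin m) (Fin m ⊕ Fin m) F) *ᵥ x = x := by
  classical
  have : CharP F 2 := h3_charP hF
  have hba : Cfsg.sympForm m F b a = 0 := by rw [sf_symm, hab]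
  have h2 : ∀ c : F, c + c = 0 := fun c => CharTwo.add_self_eq_zero c
  -- the involution property
  have hinv : ∀ x, h3_sieMat m a b *ᵥ (h3_sieMat m a b *ᵥ x) = x := by
    intro x
    rw [h3_sieMat_mulVec, h3_sieMat_mulVec]
    simp only [sf_add_left, sf_smul_left, sf_self, hab, hba, mul_zero, add_zero]
    ext i
    simp only [Pi.add_apply, Pi.smul_apply, smul_eq_mul]
    linear_combination (b i) * h2 (Cfsg.sympForm m F x a) + (a i) * h2 (Cfsg.sympForm m F x b)
  have hmul : h3_sieMat m a b * h3_sieMat m a b = 1 := by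
    apply Matrix.mulVec_injective
    funext x
    rw [← Matrix.mulVec_mulVec, hinv, Matrix.one_mulVec]
  let g : Matrix.GeneralLinearGroup (Fin m ⊕ Fin m) F :=
    ⟨h3_sieMat m a b, h3_sieMat m a b, hmul, hmul⟩
  have hg : (g : Matrix (Fin m ⊕ Fin m) (Fin m ⊕ Fin m) F) = h3_sieMat m a b := rfl
  refine ⟨g, ?_, ?_, ?_⟩
  · rw [mem_isom_iff]
    intro u
    rw [hg, h3_sieMat_mulVec, add_assoc, Q_add, Q_add, Q_smul, Q_smul, ha, hb,
      sf_add_right, sf_smul_right, sf_smul_right, sf_smul_left, sf_smul_right, hba]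
    linear_combination h2 (Cfsg.sympForm m F u a * Cfsg.sympForm m F u b)
  · intro h1
    have hall : ∀ x, h3_sieMat m a b *ᵥ x = x := by
      intro x
      rw [← hg, h1]
      simp
    -- find x with f(x, a) ≠ 0
    have hex : ∃ x, Cfsg.sympForm m F x a ≠ 0 := by
      by_contra hcon
      push Not at hcon
      apply ha0
      funext j
      rcases j with i | i
      · have := hcon (Pi.single (Sum.inr i) 1)
        rw [sf_symm, sf_single_inr] at this
        simpa using this
      · have := hcon (Pi.single (Sum.inl i) 1)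
        rw [sf_symm, sf_single_inl] at this
        simpa using this
    obtain ⟨x, hx⟩ := hex
    have hx1 : Cfsg.sympForm m F x a = 1 := by
      rcases h3_zero_or_one hF (Cfsg.sympForm m F x a) with h | h
      · exact absurd h hx
      · exact h
    have hA := hall x
    rw [h3_sieMat_mulVec, hx1, one_smul] at hA
    rcases h3_zero_or_one hF (Cfsg.sympForm m F x b) with h | h
    · rw [h, zero_smul, add_zero] at hA
      apply hb0
      have : x + b = x + 0 := by rw [hA, add_zero]
      exact add_left_cancel this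
    · rw [h, one_smul] at hA
      apply hne
      have h3 : b + a = 0 := by
        have : x + (b + a) = x + 0 := by rw [← add_assoc, hA, add_zero]
        exact add_left_cancel this
      funext j
      have h4 := congrFun h3 j
      simp only [Pi.add_apply, Pi.zero_apply] at h4
      linear_combination h4 - h2 (b j)
  · intro x hxa hxb
    rw [hg, h3_sieMat_mulVec, hxa, hxb, zero_smul, zero_smul, add_zero, add_zero]

end Cfsg.Agent.S2487P
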