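import Mathlib
import Cfsg.Prelude.Def_Classical
import Cfsg.Prelude.Def_ClassicalGeometry
import Cfsg.Agent.Helper14.OInv
import Cfsg.Agent.Helper6.Symp2
import Cfsg.Agent.Helper3.S2487C

/-!
An isometry of the hyperbolic quadratic form over the field with two elements that fixes
`e_1, ..., e_n` (in dimension `2 (n + 1)`) has order dividing `8` (piece (S1) of the team proof of
S2487).
-/

set_option autoImplicit false

namespace Cfsg.Agent.S2487P

open Matrix Cfsg.Agent.Helper6 Cfsg.Agent.Helper14.OInv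

section

variable {F : Type*} [Field F]

/-- `W0⊥`: the vectors whose `inr i.castSucc` coordinates vanish. -/
def h3_Wp (n : ℕ) (u : Fin (n + 1) ⊕ Fin (n + 1) → F) : Prop :=
  ∀ i : Fin n, u (Sum.inr i.castSucc) = 0

/-- `W0`: the span of the `e_i`. -/
def h3_W (n : ℕ) (u : Fin (n + 1) ⊕ Fin (n + 1) → F) : Prop :=
  h3_Wp n u ∧ u (Sum.inl (Fin.last n)) = 0 ∧ u (Sum.inr (Fin.last n)) = 0

theorem h3_W_decomp (n : ℕ) (w : Fin (n + 1) ⊕ Fin (n + 1) → F) (hw : h3_W n w) :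
    w = ∑ i : Fin n, w (Sum.inl i.castSucc) •
      (Pi.single (Sum.inl i.castSucc) 1 : Fin (n + 1) ⊕ Fin (n + 1) → F) := by
  classical
  obtain ⟨h1, h2, h3⟩ := hw
  funext j
  rw [Finset.sum_apply]
  rcases j with j | j
  · refine Fin.lastCases ?_ (fun k => ?_) j
    · rw [h2]
      symm
      apply Finset.sum_eq_zero
      intro i _
      have hne : (Sum.inl (Fin.last n) : Fin (n + 1) ⊕ Fin (n + 1)) ≠ Sum.inl i.castSucc := by
        intro h
        have h' := Sum.inl.inj h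
        exact (Fin.castSucc_lt_last i).ne h'.symm
      simp [hne]
    · rw [Finset.sum_eq_single k]
      · simp
      · intro i _ hik
        have hne : (Sum.inl k.castSucc : Fin (n + 1) ⊕ Fin (n + 1)) ≠ Sum.inl i.castSucc := by
          intro h
          have h' := Sum.inl.inj h
          exact hik (Fin.castSucc_injective n h').symm
        simp [hne]
      · intro h
        exact absurd (Finset.mem_univ k) h
  · have hz : w (Sum.inr j) = 0 := by
      refine Fin.lastCases ?_ (fun k => ?_) j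
      · exact h3
      · exact h1 k
    rw [hz]
    symm
    apply Finset.sum_eq_zero
    intro i _
    simp

theorem h3_Q_of_Wp (n : ℕ) (u : Fin (n + 1) ⊕ Fin (n + 1) → F) (hu : h3_Wp n u) :
    Cfsg.quadFormPlus (n + 1) F u = u (Sum.inl (Fin.last n)) * u (Sum.inr (Fin.last n)) := by
  rw [Cfsg.quadFormPlus, Fin.sum_univ_castSucc]
  have : ∑ i : Fin n, u (Sum.inl i.castSucc) * u (Sum.inr i.castSucc) = 0 := by
    apply Finset.sum_eq_zero
    intro i _
    rw [hu i, mul_zero]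
  rw [this, zero_add]

end

theorem h3_pow_eight {F : Type*} [Field F] [Fintype F] (hF : Fintype.card F = 2) (n : ℕ)
    (g : Matrix.GeneralLinearGroup (Fin (n + 1) ⊕ Fin (n + 1)) F)
    (hg : g ∈ Cfsg.isometryGroup F (Cfsg.quadFormPlus (n + 1) F))
    (hfix : ∀ i : Fin n,
      (g : Matrix (Fin (n + 1) ⊕ Fin (n + 1)) (Fin (n + 1) ⊕ Fin (n + 1)) F) *ᵥ
        (Pi.single (Sum.inl i.castSucc) 1) = Pi.single (Sum.inl i.castSucc) 1) :
    g ^ 8 = 1 := by
  classical
  have hchar : CharP F 2 := h3_charP hF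
  have h2 : ∀ c : F, c + c = 0 := fun c => CharTwo.add_self_eq_zero c
  have h01 := h3_zero_or_one hF
  set A : Matrix (Fin (n + 1) ⊕ Fin (n + 1)) (Fin (n + 1) ⊕ Fin (n + 1)) F :=
    (g : Matrix (Fin (n + 1) ⊕ Fin (n + 1)) (Fin (n + 1) ⊕ Fin (n + 1)) F) with hA
  have hQ : ∀ u, Cfsg.quadFormPlus (n + 1) F (A *ᵥ u) = Cfsg.quadFormPlus (n + 1) F u :=
    (mem_isom_iff g).1 hg
  have hf : ∀ u v, Cfsg.sympForm (n + 1) F (A *ᵥ u) (A *ᵥ v) = Cfsg.sympForm (n + 1) F u v := by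
    intro u v
    have h1 := Q_add (A *ᵥ u) (A *ᵥ v)
    rw [← Matrix.mulVec_add, hQ, hQ, hQ, Q_add] at h1
    exact (add_left_cancel h1).symm
  -- the `inr i.castSucc` coordinates are preserved
  have hb : ∀ u (i : Fin n), (A *ᵥ u) (Sum.inr i.castSucc) = u (Sum.inr i.castSucc) := by
    intro u i
    have := hf u (Pi.single (Sum.inl i.castSucc) 1)
    rw [hfix i, sf_single_inl, sf_single_inl] at this
    exact this
  -- `A` fixes `W0` pointwise
  have hW : ∀ w, h3_W n w → A *ᵥ w = w := by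
    intro w hw
    have hd := h3_W_decomp n w hw
    have : A *ᵥ (∑ i : Fin n, w (Sum.inl i.castSucc) •
        (Pi.single (Sum.inl i.castSucc) 1 : Fin (n + 1) ⊕ Fin (n + 1) → F))
        = ∑ i : Fin n, w (Sum.inl i.castSucc) •
        (Pi.single (Sum.inl i.castSucc) 1 : Fin (n + 1) ⊕ Fin (n + 1) → F) := by
      rw [Matrix.mulVec_sum]
      apply Finset.sum_congr rfl
      intro i _
      rw [Matrix.mulVec_smul, hfix i]
    rw [← hd] at this
    exact this
  -- the two special vectors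
  set e : Fin (n + 1) ⊕ Fin (n + 1) → F := Pi.single (Sum.inl (Fin.last n)) 1 with he
  set f0 : Fin (n + 1) ⊕ Fin (n + 1) → F := Pi.single (Sum.inr (Fin.last n)) 1 with hf0
  have he_l : e (Sum.inl (Fin.last n)) = 1 := by simp [he]
  have he_r : e (Sum.inr (Fin.last n)) = 0 := by simp [he]
  have hf_l : f0 (Sum.inl (Fin.last n)) = 0 := by simp [hf0]
  have hf_r : f0 (Sum.inr (Fin.last n)) = 1 := by simp [hf0]
  have he_b : ∀ i : Fin n, e (Sum.inr i.castSucc) = 0 := by intro i; simp [he]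
  have hf_b : ∀ i : Fin n, f0 (Sum.inr i.castSucc) = 0 := by
    intro i
    have hne : (Sum.inr i.castSucc : Fin (n + 1) ⊕ Fin (n + 1)) ≠ Sum.inr (Fin.last n) := by
      intro h
      exact (Fin.castSucc_lt_last i).ne (Sum.inr.inj h)
    simp [hf0, hne]
  have heWp : h3_Wp n e := he_b
  have hfWp : h3_Wp n f0 := hf_b
  have hWp_A : ∀ u, h3_Wp n u → h3_Wp n (A *ᵥ u) := by
    intro u hu i
    rw [hb, hu i]
  have hWp_add : ∀ u v : Fin (n + 1) ⊕ Fin (n + 1) → F,
      h3_Wp n u → h3_Wp n v → h3_Wp n (u + v) := by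
    intro u v hu hv i
    rw [Pi.add_apply, hu i, hv i, add_zero]
  have hpWp := hWp_A e heWp
  have hqWp := hWp_A f0 hfWp
  -- the form on `W0⊥`
  have hfWp2 : ∀ u v, h3_Wp n u → h3_Wp n v → Cfsg.sympForm (n + 1) F u v
      = u (Sum.inl (Fin.last n)) * v (Sum.inr (Fin.last n))
        + v (Sum.inl (Fin.last n)) * u (Sum.inr (Fin.last n)) := by
    intro u v hu hv
    have h1 := Q_add u v
    rw [h3_Q_of_Wp n _ (hWp_add u v hu hv), h3_Q_of_Wp n u hu, h3_Q_of_Wp n v hv] at h1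
    simp only [Pi.add_apply] at h1
    linear_combination -h1
  -- constraints on the coordinates of p, q
  have c1 : (A *ᵥ e) (Sum.inl (Fin.last n)) * (A *ᵥ e) (Sum.inr (Fin.last n)) = 0 := by
    rw [← h3_Q_of_Wp n _ hpWp, hQ, h3_Q_of_Wp n e heWp, he_r, mul_zero]
  have c2 : (A *ᵥ f0) (Sum.inl (Fin.last n)) * (A *ᵥ f0) (Sum.inr (Fin.last n)) = 0 := by
    rw [← h3_Q_of_Wp n _ hqWp, hQ, h3_Q_of_Wp n f0 hfWp, hf_l, zero_mul]
  have c3 : (A *ᵥ e) (Sum.inl (Fin.last n)) * (A *ᵥ f0) (Sum.inr (Fin.last n))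
      + (A *ᵥ f0) (Sum.inl (Fin.last n)) * (A *ᵥ e) (Sum.inr (Fin.last n)) = 1 := by
    rw [← hfWp2 _ _ hpWp hqWp, hf, hfWp2 e f0 heWp hfWp, he_l, hf_r, hf_l, he_r]
    ring
  -- action on `W0⊥`
  have hact : ∀ u, h3_Wp n u →
      (A *ᵥ u) (Sum.inl (Fin.last n)) = u (Sum.inl (Fin.last n)) * (A *ᵥ e) (Sum.inl (Fin.last n))
        + u (Sum.inr (Fin.last n)) * (A *ᵥ f0) (Sum.inl (Fin.last n)) ∧
      (A *ᵥ u) (Sum.inr (Fin.last n)) = u (Sum.inl (Fin.last n)) * (A *ᵥ e) (Sum.inr (Fin.last n))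
        + u (Sum.inr (Fin.last n)) * (A *ᵥ f0) (Sum.inr (Fin.last n)) := by
    intro u hu
    set w : Fin (n + 1) ⊕ Fin (n + 1) → F :=
      u - u (Sum.inl (Fin.last n)) • e - u (Sum.inr (Fin.last n)) • f0 with hw
    have hwW : h3_W n w := by
      refine ⟨?_, ?_, ?_⟩
      · intro i
        simp only [hw, Pi.sub_apply, Pi.smul_apply, smul_eq_mul, hu i, he_b i, hf_b i]
        ring
      · simp only [hw, Pi.sub_apply, Pi.smul_apply, smul_eq_mul, he_l, hf_l]
        ring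
      · simp only [hw, Pi.sub_apply, Pi.smul_apply, smul_eq_mul, he_r, hf_r]
        ring
    have hu' : u = w + u (Sum.inl (Fin.last n)) • e + u (Sum.inr (Fin.last n)) • f0 := by
      rw [hw]; abel
    have hAu : A *ᵥ u = w + u (Sum.inl (Fin.last n)) • (A *ᵥ e)
        + u (Sum.inr (Fin.last n)) • (A *ᵥ f0) := by
      conv_lhs => rw [hu']
      rw [Matrix.mulVec_add, Matrix.mulVec_add, Matrix.mulVec_smul, Matrix.mulVec_smul, hW w hwW]
    constructor
    · rw [hAu]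
      simp only [Pi.add_apply, Pi.smul_apply, smul_eq_mul, hwW.2.1, zero_add]
    · rw [hAu]
      simp only [Pi.add_apply, Pi.smul_apply, smul_eq_mul, hwW.2.2, zero_add]
  -- `A * A` fixes the last two coordinates on `W0⊥`
  have hact2 : ∀ u, h3_Wp n u →
      (A *ᵥ (A *ᵥ u)) (Sum.inl (Fin.last n)) = u (Sum.inl (Fin.last n)) ∧
      (A *ᵥ (A *ᵥ u)) (Sum.inr (Fin.last n)) = u (Sum.inr (Fin.last n)) := by
    intro u hu
    obtain ⟨a1, a2⟩ := hact u hu
    obtain ⟨b1, b2⟩ := hact (A *ᵥ u) (hWp_A u hu)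
    rw [b1, b2, a1, a2]
    rcases h01 ((A *ᵥ e) (Sum.inl (Fin.last n))) with h1 | h1 <;>
    rcases h01 ((A *ᵥ e) (Sum.inr (Fin.last n))) with h2' | h2' <;>
    rcases h01 ((A *ᵥ f0) (Sum.inl (Fin.last n))) with h3 | h3 <;>
    rcases h01 ((A *ᵥ f0) (Sum.inr (Fin.last n))) with h4 | h4 <;>
    simp only [h1, h2', h3, h4, mul_zero, zero_mul, mul_one, one_mul, add_zero, zero_add,
      zero_ne_one, one_ne_zero, and_self] at c1 c2 c3 ⊢
  -- the nilpotent part
  set N : Matrix (Fin (n + 1) ⊕ Fin (n + 1)) (Fin (n + 1) ⊕ Fin (n + 1)) F := A * A - 1 with hN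
  have hNv : ∀ u, N *ᵥ u = A *ᵥ (A *ᵥ u) - u := by
    intro u
    rw [hN, Matrix.sub_mulVec, Matrix.one_mulVec, Matrix.mulVec_mulVec]
  have s1 : ∀ u, h3_Wp n (N *ᵥ u) := by
    intro u i
    rw [hNv, Pi.sub_apply, hb, hb, sub_self]
  have s2 : ∀ u, h3_Wp n u → h3_W n (N *ᵥ u) := by
    intro u hu
    refine ⟨s1 u, ?_, ?_⟩
    · rw [hNv, Pi.sub_apply, (hact2 u hu).1, sub_self]
    · rw [hNv, Pi.sub_apply, (hact2 u hu).2, sub_self]
  have s3 : ∀ w, h3_W n w → N *ᵥ w = 0 := by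
    intro w hw
    rw [hNv, hW w hw, hW w hw, sub_self]
  have hN3 : N * N * N = 0 := by
    apply Matrix.mulVec_injective
    funext u
    rw [← Matrix.mulVec_mulVec, ← Matrix.mulVec_mulVec, Matrix.zero_mulVec]
    exact s3 _ (s2 _ (s1 u))
  have hXX : ∀ X : Matrix (Fin (n + 1) ⊕ Fin (n + 1)) (Fin (n + 1) ⊕ Fin (n + 1)) F,
      X + X = 0 := by
    intro X
    ext i j
    simp only [Matrix.add_apply, Matrix.zero_apply]
    exact h2 _
  have hM : A * A = 1 + N := by rw [hN]; abel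
  have e1 : (1 + N) * (1 + N) = 1 + N * N := by
    have : (1 + N) * (1 + N) = 1 + (N + N) + N * N := by
      rw [mul_add, add_mul, add_mul, one_mul, one_mul, mul_one]; abel
    rw [this, hXX, add_zero]
  have e2 : (1 + N * N) * (1 + N * N) = 1 := by
    have : (1 + N * N) * (1 + N * N) = 1 + (N * N + N * N) + N * N * N * N := by
      rw [mul_add, add_mul, add_mul, one_mul, one_mul, mul_one, ← mul_assoc]; abel
    rw [this, hXX, add_zero, hN3, zero_mul, add_zero]
  have hA8 : A ^ 8 = 1 := by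
    have : A ^ 8 = ((A * A) * (A * A)) * ((A * A) * (A * A)) := by
      simp only [pow_succ, pow_zero, one_mul, mul_assoc]
    rw [this, hM, e1, e2]
  apply Units.ext
  rw [Units.val_pow_eq_pow_val, Units.val_one]
  exact hA8

end Cfsg.Agent.S2487P
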