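import Mathlib

set_option autoImplicit false
set_option linter.unusedSectionVars false
set_option linter.style.haveILetI false
set_option linter.unusedSimpArgs false
set_option linter.unusedVariables false
set_option linter.deprecated false

namespace Cfsg.Agent.Helper3

open scoped Classical

noncomputable section

section RepCore

variable {F : Type*} [Field F] [Fintype F] {V : Type*} [AddCommGroup V] [Module ℂ V]

/-- the hypotheses on a family of operators coming from a representation of the Borel subgroup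
of a Suzuki group -/
structure HeisData (σ : F →+* F) (Tz Tu : F → Module.End ℂ V) : Prop where
  z0 : Tz 0 = 1
  zadd : ∀ b b', Tz (b + b') = Tz b * Tz b'
  u0 : Tu 0 = 1
  comm : ∀ a b, Tz b * Tu a = Tu a * Tz b
  umul : ∀ a c, Tu a * Tu c = Tu (a + c) * Tz (σ a * c)
  tor : ∀ c : F, c ≠ 0 → ∃ D D' : Module.End ℂ V, D * D' = 1 ∧ D' * D = 1 ∧
    ∀ b, D * Tz b = Tz (c * b) * D
  ne : ∃ b₀, Tz b₀ ≠ 1

/-- the isotypic projection -/
def zP (Tz : F → Module.End ℂ V) (ψ : AddChar F ℂ) : Module.End ℂ V :=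
  ((Fintype.card F : ℂ)⁻¹) • ∑ b, ψ b • Tz b

variable {σ : F →+* F} {Tz Tu : F → Module.End ℂ V} (H : HeisData σ Tz Tu) (h2 : (2 : F) = 0)

include h2 in
theorem char_sq (ψ : AddChar F ℂ) (c : F) : ψ c * ψ c = 1 := by
  rw [← AddChar.map_add_eq_mul, show c + c = 0 by linear_combination c * h2,
    AddChar.map_zero_eq_one]

theorem cardF_ne : (Fintype.card F : ℂ) ≠ 0 := Nat.cast_ne_zero.mpr Fintype.card_ne_zero

include H h2 in
theorem Tz_mul_zP (ψ : AddChar F ℂ) (c : F) : Tz c * zP Tz ψ = ψ c • zP Tz ψ := by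
  have key : Tz c * ∑ b, ψ b • Tz b = ψ c • ∑ b, ψ b • Tz b := by
    rw [Finset.mul_sum, Finset.smul_sum,
      ← Equiv.sum_comp (Equiv.addLeft c) (fun b => ψ c • ψ b • Tz b)]
    apply Finset.sum_congr rfl
    intro b _
    simp only [Equiv.coe_addLeft]
    rw [mul_smul_comm, H.zadd, smul_smul, AddChar.map_add_eq_mul, ← mul_assoc, char_sq h2,
      one_mul]
  unfold zP
  rw [mul_smul_comm, key, smul_comm]

theorem zP_mul (ψ : AddChar F ℂ) (X : Module.End ℂ V) :
    zP Tz ψ * X = ((Fintype.card F : ℂ)⁻¹) • ∑ b, ψ b • (Tz b * X) := by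
  unfold zP
  rw [smul_mul_assoc, Finset.sum_mul]
  simp only [smul_mul_assoc]

include H h2 in
theorem zP_idem (ψ : AddChar F ℂ) : zP Tz ψ * zP Tz ψ = zP Tz ψ := by
  rw [zP_mul]
  have h : ∀ b, ψ b • (Tz b * zP Tz ψ) = zP Tz ψ := by
    intro b
    rw [Tz_mul_zP H h2, smul_smul, char_sq h2, one_smul]
  simp_rw [h]
  rw [Finset.sum_const, Finset.card_univ, ← Nat.cast_smul_eq_nsmul ℂ, smul_smul,
    inv_mul_cancel₀ cardF_ne, one_smul]

include H in
theorem sum_zP : ∑ ψ : AddChar F ℂ, zP Tz ψ = 1 := by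
  unfold zP
  rw [← Finset.smul_sum, Finset.sum_comm]
  simp_rw [← Finset.sum_smul, AddChar.sum_apply_eq_ite]
  rw [Finset.sum_eq_single (0 : F)]
  · rw [if_pos rfl, H.z0, smul_smul, inv_mul_cancel₀ cardF_ne, one_smul]
  · intro b _ hb
    rw [if_neg hb, zero_smul]
  · intro h; exact absurd (Finset.mem_univ _) h

include H in
theorem Tu_comm_zP (ψ : AddChar F ℂ) (a : F) : Tu a * zP Tz ψ = zP Tz ψ * Tu a := by
  unfold zP
  rw [mul_smul_comm, smul_mul_assoc, Finset.mul_sum, Finset.sum_mul]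
  congr 1
  apply Finset.sum_congr rfl
  intro b _
  rw [mul_smul_comm, smul_mul_assoc, H.comm]

theorem conj_zP (ψ : AddChar F ℂ) (c : F) (hc : c ≠ 0) (D : Module.End ℂ V)
    (hD : ∀ b, D * Tz b = Tz (c * b) * D) :
    D * zP Tz ψ = zP Tz (ψ.mulShift c⁻¹) * D := by
  unfold zP
  rw [mul_smul_comm, smul_mul_assoc, Finset.mul_sum, Finset.sum_mul]
  congr 1
  rw [← Equiv.sum_comp (Equiv.mulLeft₀ c hc) (fun b => (ψ.mulShift c⁻¹) b • Tz b * D)]
  apply Finset.sum_congr rfl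
  intro b _
  simp only [Equiv.mulLeft₀_apply, AddChar.mulShift_apply]
  rw [mul_smul_comm, hD, smul_mul_assoc, inv_mul_cancel_left₀ hc]

include H in
theorem trace_zP_shift [FiniteDimensional ℂ V] (ψ : AddChar F ℂ) (c : F) (hc : c ≠ 0) :
    LinearMap.trace ℂ V (zP Tz ψ) = LinearMap.trace ℂ V (zP Tz (ψ.mulShift c⁻¹)) := by
  obtain ⟨D, D', h1, h2', h3⟩ := H.tor c hc
  have e : zP Tz ψ = D' * (zP Tz (ψ.mulShift c⁻¹) * D) := by
    rw [← conj_zP ψ c hc D h3, ← mul_assoc, h2', one_mul]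
  rw [e, LinearMap.trace_mul_comm, mul_assoc, h1, mul_one]

include H h2 in
theorem trace_zP [FiniteDimensional ℂ V] (ψ : AddChar F ℂ) :
    LinearMap.trace ℂ V (zP Tz ψ) = (Module.finrank ℂ (LinearMap.range (zP Tz ψ)) : ℂ) :=
  (LinearMap.IsIdempotentElem.isProj_range _ (zP_idem H h2 ψ)).trace

include H h2 in
theorem finrank_eq_sum [FiniteDimensional ℂ V] :
    Module.finrank ℂ V = ∑ ψ : AddChar F ℂ, Module.finrank ℂ (LinearMap.range (zP Tz ψ)) := by
  have h : (Module.finrank ℂ V : ℂ) =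
      ((∑ ψ : AddChar F ℂ, Module.finrank ℂ (LinearMap.range (zP Tz ψ)) : ℕ) : ℂ) := by
    rw [← LinearMap.trace_one (R := ℂ) (M := V), ← sum_zP H, map_sum, Nat.cast_sum]
    apply Finset.sum_congr rfl
    intro ψ _
    exact trace_zP H h2 ψ
  exact_mod_cast h

include H h2 in
theorem exists_nontrivial : ∃ ψ : AddChar F ℂ, (∃ b, ψ b ≠ 1) ∧ zP Tz ψ ≠ 0 := by
  by_contra hcon
  push Not at hcon
  obtain ⟨b₀, hb₀⟩ := H.ne
  apply hb₀
  calc Tz b₀ = Tz b₀ * ∑ ψ : AddChar F ℂ, zP Tz ψ := by rw [sum_zP H, mul_one]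
    _ = ∑ ψ : AddChar F ℂ, zP Tz ψ := by
      rw [Finset.mul_sum]
      apply Finset.sum_congr rfl
      intro ψ _
      rw [Tz_mul_zP H h2]
      by_cases hψ : ψ b₀ = 1
      · rw [hψ, one_smul]
      · rw [hcon ψ ⟨b₀, hψ⟩, smul_zero]
    _ = 1 := sum_zP H

include h2 in
theorem mulShift_inj' (ψ : AddChar F ℂ) (hψ : ∃ b, ψ b ≠ 1) (c c' : F)
    (h : ψ.mulShift c = ψ.mulShift c') : c = c' := by
  by_contra hne
  obtain ⟨b, hb⟩ := hψ
  apply hb
  have hd : c + c' ≠ 0 := by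
    intro h0
    apply hne
    linear_combination h0 - c' * h2
  have h1 := DFunLike.congr_fun h ((c + c')⁻¹ * b)
  simp only [AddChar.mulShift_apply] at h1
  have h3 : b = c * ((c + c')⁻¹ * b) + c' * ((c + c')⁻¹ * b) := by field_simp
  rw [h3, AddChar.map_add_eq_mul, h1, char_sq h2]

include H h2 in
theorem finrank_ge [FiniteDimensional ℂ V] (ψ₀ : AddChar F ℂ) (hψ : ∃ b, ψ₀ b ≠ 1) :
    (Fintype.card F - 1) * Module.finrank ℂ (LinearMap.range (zP Tz ψ₀)) ≤
      Module.finrank ℂ V := by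
  rw [finrank_eq_sum H h2]
  have hT : ∑ ψ ∈ (Finset.univ.filter (fun c : F => c ≠ 0)).image (fun c => ψ₀.mulShift c),
      Module.finrank ℂ (LinearMap.range (zP Tz ψ)) =
      (Fintype.card F - 1) * Module.finrank ℂ (LinearMap.range (zP Tz ψ₀)) := by
    rw [Finset.sum_image (fun c _ c' _ h => mulShift_inj' h2 ψ₀ hψ c c' h)]
    rw [Finset.sum_congr rfl (g := fun _ => Module.finrank ℂ (LinearMap.range (zP Tz ψ₀)))]
    · rw [Finset.sum_const, smul_eq_mul, Finset.filter_ne',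
        Finset.card_erase_of_mem (Finset.mem_univ _), Finset.card_univ]
    · intro c hc
      have hc0 : c ≠ 0 := (Finset.mem_filter.mp hc).2
      have := trace_zP_shift H ψ₀ c⁻¹ (inv_ne_zero hc0)
      rw [inv_inv, trace_zP H h2, trace_zP H h2] at this
      exact_mod_cast this.symm
  rw [← hT]
  exact Finset.sum_le_sum_of_subset (Finset.subset_univ _)

include H h2 in
theorem Tz_sq (x : F) : Tz x * Tz x = 1 := by
  rw [← H.zadd, show x + x = 0 by linear_combination x * h2, H.z0]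

include H h2 in
theorem Tu_swap (a c : F) : Tu a * Tu c = Tu c * Tu a * Tz (σ a * c + σ c * a) := by
  rw [H.umul c a, mul_assoc, ← H.zadd, H.umul a c, add_comm c a]
  congr 2
  linear_combination (-(σ c * a)) * h2

include H h2 in
theorem Tu_inv (a : F) : Tu a * (Tu a * Tz (σ a * a)) = 1 := by
  rw [← mul_assoc, H.umul, show a + a = 0 by linear_combination a * h2, H.u0, one_mul,
    Tz_sq H h2]

include H h2 in
theorem Tu_inv' (a : F) : (Tu a * Tz (σ a * a)) * Tu a = 1 := by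
  rw [mul_assoc, H.comm, Tu_inv H h2]

include H h2 in
theorem conj_TuP (ψ : AddChar F ℂ) (a c : F) :
    Tu c * (Tu a * zP Tz ψ) * (Tu c * Tz (σ c * c)) =
      ψ (σ c * a + σ a * c) • (Tu a * zP Tz ψ) := by
  have e1 : Tu c * (Tu a * zP Tz ψ) = ψ (σ c * a + σ a * c) • (Tu a * zP Tz ψ * Tu c) := by
    rw [← mul_assoc, Tu_swap H h2 c a, mul_assoc (Tu a * Tu c), Tz_mul_zP H h2, mul_smul_comm,
      mul_assoc (Tu a), Tu_comm_zP H, ← mul_assoc]
  rw [e1, smul_mul_assoc, mul_assoc (Tu a * zP Tz ψ), Tu_inv H h2, mul_one]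

include h2 in
theorem sum_chi (ψ : AddChar F ℂ) (e : F) (h : ∃ c, ψ (σ c * e + σ e * c) ≠ 1) :
    ∑ c : F, ψ (σ c * e + σ e * c) = 0 := by
  obtain ⟨c₁, hc₁⟩ := h
  have h1 : ∑ c : F, ψ (σ c * e + σ e * c) =
      ψ (σ c₁ * e + σ e * c₁) * ∑ c : F, ψ (σ c * e + σ e * c) := by
    rw [Finset.mul_sum, ← Equiv.sum_comp (Equiv.addLeft c₁) (fun c => ψ (σ c * e + σ e * c))]
    apply Finset.sum_congr rfl
    intro c _
    simp only [Equiv.coe_addLeft]
    rw [← AddChar.map_add_eq_mul]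
    congr 1
    rw [map_add]; ring
  have h3 : (1 - ψ (σ c₁ * e + σ e * c₁)) * ∑ c : F, ψ (σ c * e + σ e * c) = 0 := by
    linear_combination h1
  rcases mul_eq_zero.mp h3 with h4 | h4
  · exact absurd (sub_eq_zero.mp h4).symm hc₁
  · exact h4

include H h2 in
theorem TuP_indep (ψ : AddChar F ℂ) (hP : zP Tz ψ ≠ 0) (S : Finset F)
    (hS : ∀ a ∈ S, ∀ a' ∈ S, a ≠ a' → ∃ c, ψ (σ c * (a + a') + σ (a + a') * c) ≠ 1)
    (x : F → ℂ) (hx : ∑ a ∈ S, x a • (Tu a * zP Tz ψ) = 0) : ∀ a ∈ S, x a = 0 := by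
  intro a₀ ha₀
  have h1 : ∀ c, ∑ a ∈ S, (x a * ψ (σ c * a + σ a * c)) • (Tu a * zP Tz ψ) = 0 := by
    intro c
    have := congrArg (fun X => Tu c * X * (Tu c * Tz (σ c * c))) hx
    simp only [Finset.mul_sum, Finset.sum_mul, mul_zero, zero_mul] at this
    rw [← this]
    apply Finset.sum_congr rfl
    intro a _
    rw [mul_smul_comm, smul_mul_assoc, conj_TuP H h2, smul_smul]
  have h2' : ∑ c : F, ψ (σ c * a₀ + σ a₀ * c) •
      ∑ a ∈ S, (x a * ψ (σ c * a + σ a * c)) • (Tu a * zP Tz ψ) = 0 := by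
    apply Finset.sum_eq_zero; intro c _; rw [h1 c, smul_zero]
  simp_rw [Finset.smul_sum, smul_smul] at h2'
  rw [Finset.sum_comm] at h2'
  simp_rw [← Finset.sum_smul] at h2'
  rw [Finset.sum_eq_single a₀] at h2'
  · have h3 : ∑ c : F, ψ (σ c * a₀ + σ a₀ * c) * (x a₀ * ψ (σ c * a₀ + σ a₀ * c)) =
        (Fintype.card F : ℂ) * x a₀ := by
      have : ∀ c : F, ψ (σ c * a₀ + σ a₀ * c) * (x a₀ * ψ (σ c * a₀ + σ a₀ * c)) = x a₀ := by
        intro c
        rw [mul_comm (x a₀), ← mul_assoc, char_sq h2, one_mul]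
      simp_rw [this]
      rw [Finset.sum_const, Finset.card_univ, nsmul_eq_mul]
    rw [h3] at h2'
    rcases smul_eq_zero.mp h2' with h4 | h4
    · exact (mul_eq_zero.mp h4).resolve_left cardF_ne
    · exfalso
      apply hP
      have := congrArg (fun X => (Tu a₀ * Tz (σ a₀ * a₀)) * X) h4
      simp only [mul_zero] at this
      rwa [← mul_assoc, Tu_inv' H h2, one_mul] at this
  · intro a ha hne
    obtain ⟨c₁, hc₁⟩ := hS a ha a₀ ha₀ hne
    have h5 : ∑ c : F, ψ (σ c * a₀ + σ a₀ * c) * (x a * ψ (σ c * a + σ a * c)) = 0 := by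
      have : ∀ c : F, ψ (σ c * a₀ + σ a₀ * c) * (x a * ψ (σ c * a + σ a * c)) =
          x a * ψ (σ c * (a + a₀) + σ (a + a₀) * c) := by
        intro c
        rw [mul_comm, mul_assoc, ← AddChar.map_add_eq_mul]
        congr 2
        rw [map_add]; ring
      simp_rw [this]
      rw [← Finset.mul_sum, sum_chi h2 ψ (a + a₀) ⟨c₁, hc₁⟩, mul_zero]
    rw [h5, zero_smul]
  · intro h; exact absurd ha₀ h

include H h2 in
theorem card_le_sq [FiniteDimensional ℂ V] (ψ : AddChar F ℂ) (hP : zP Tz ψ ≠ 0) (S : Finset F)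
    (hS : ∀ a ∈ S, ∀ a' ∈ S, a ≠ a' → ∃ c, ψ (σ c * (a + a') + σ (a + a') * c) ≠ 1) :
    S.card ≤ Module.finrank ℂ (LinearMap.range (zP Tz ψ)) *
      Module.finrank ℂ (LinearMap.range (zP Tz ψ)) := by
  let Φ : Module.End ℂ V →ₗ[ℂ] Module.End ℂ (LinearMap.range (zP Tz ψ)) :=
    { toFun := fun X => (zP Tz ψ).rangeRestrict ∘ₗ X ∘ₗ (LinearMap.range (zP Tz ψ)).subtype
      map_add' := fun X Y => by ext w; simp
      map_smul' := fun c X => by ext w; simp }
  have hΦ : ∀ (X : Module.End ℂ V) (w : LinearMap.range (zP Tz ψ)),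
      ((Φ X) w : V) = zP Tz ψ (X w.1) := fun X w => rfl
  have hli : LinearIndependent ℂ (fun a : S => Φ (Tu a.1 * zP Tz ψ)) := by
    rw [Fintype.linearIndependent_iff]
    intro g hg a
    have hX1 : (∑ a : S, g a • (Tu a.1 * zP Tz ψ)) * zP Tz ψ =
        ∑ a : S, g a • (Tu a.1 * zP Tz ψ) := by
      rw [Finset.sum_mul]
      apply Finset.sum_congr rfl
      intro a _
      rw [smul_mul_assoc, mul_assoc, zP_idem H h2]
    have hX2 : zP Tz ψ * (∑ a : S, g a • (Tu a.1 * zP Tz ψ)) =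
        ∑ a : S, g a • (Tu a.1 * zP Tz ψ) := by
      rw [Finset.mul_sum]
      apply Finset.sum_congr rfl
      intro a _
      rw [mul_smul_comm, ← mul_assoc, ← Tu_comm_zP H, mul_assoc, zP_idem H h2]
    have hg' : Φ (∑ a : S, g a • (Tu a.1 * zP Tz ψ)) = 0 := by
      rw [map_sum]
      simp_rw [map_smul]
      exact hg
    have hX0 : ∑ a : S, g a • (Tu a.1 * zP Tz ψ) = 0 := by
      ext v
      have e1 := LinearMap.congr_fun hg' ⟨zP Tz ψ v, LinearMap.mem_range_self (zP Tz ψ) v⟩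
      have e2 : zP Tz ψ ((∑ a : S, g a • (Tu a.1 * zP Tz ψ)) (zP Tz ψ v)) = 0 := by
        have := congrArg Subtype.val e1
        rw [hΦ] at this
        simpa using this
      have e3 : (∑ a : S, g a • (Tu a.1 * zP Tz ψ)) v =
          zP Tz ψ ((∑ a : S, g a • (Tu a.1 * zP Tz ψ)) (zP Tz ψ v)) := by
        rw [← Module.End.mul_apply, ← Module.End.mul_apply, hX2, hX1]
      rw [e3, e2]
      rfl
    have key := TuP_indep H h2 ψ hP S hS (fun a => if h : a ∈ S then g ⟨a, h⟩ else 0) (by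
      rw [← Finset.sum_coe_sort, ← hX0]
      apply Finset.sum_congr rfl
      intro a _
      simp) a.1 a.2
    simpa using key
  have h3 := hli.fintype_card_le_finrank
  rw [Module.finrank_linearMap, Fintype.card_coe] at h3
  exact h3

include h2 in
theorem radical_unique (hσs : Function.Surjective σ) (hσ2 : ∀ x, σ (σ x) = x ^ 2)
    (ψ : AddChar F ℂ) (hψ : ∃ b, ψ b ≠ 1) (a a' : F) (ha : a ≠ 0) (ha' : a' ≠ 0)
    (hR : ∀ c, ψ (σ c * a + σ a * c) = 1) (hR' : ∀ c, ψ (σ c * a' + σ a' * c) = 1) :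
    a = a' := by
  have e1 : ∀ c, ψ (σ c * a) = ψ (σ a * c) := by
    intro c
    have := hR c
    rw [AddChar.map_add_eq_mul] at this
    calc ψ (σ c * a) = ψ (σ c * a) * (ψ (σ a * c) * ψ (σ a * c)) := by
          rw [char_sq h2, mul_one]
      _ = ψ (σ a * c) := by rw [← mul_assoc, this, one_mul]
  have e2 : ∀ c, ψ (σ c * a') = ψ (σ a' * c) := by
    intro c
    have := hR' c
    rw [AddChar.map_add_eq_mul] at this
    calc ψ (σ c * a') = ψ (σ c * a') * (ψ (σ a' * c) * ψ (σ a' * c)) := by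
          rw [char_sq h2, mul_one]
      _ = ψ (σ a' * c) := by rw [← mul_assoc, this, one_mul]
  obtain ⟨s, hs⟩ := hσs (a' / a)
  have hσa : σ a ≠ 0 := (map_ne_zero σ).mpr ha
  have e3 : ∀ c, ψ (σ a * (s + σ (a' / a)) * c) = 1 := by
    intro c
    have h1 : ψ (σ a * s * c) = ψ (σ a' * c) := by
      rw [← e2 c, show σ a * s * c = σ a * (c * s) by ring, ← e1 (c * s)]
      congr 1
      rw [map_mul, hs]
      field_simp
    have h3 : σ a' = σ a * σ (a' / a) := by
      rw [← map_mul]; congr 1; field_simp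
    rw [show σ a * (s + σ (a' / a)) * c = σ a * s * c + σ a' * c by rw [h3]; ring,
      AddChar.map_add_eq_mul, h1, char_sq h2]
  have e4 : σ a * (s + σ (a' / a)) = 0 := by
    by_contra hne
    obtain ⟨b, hb⟩ := hψ
    apply hb
    have := e3 ((σ a * (s + σ (a' / a)))⁻¹ * b)
    rwa [mul_inv_cancel_left₀ hne] at this
  have e5 : s = σ (a' / a) := by
    have := (mul_eq_zero.mp e4).resolve_left hσa
    linear_combination this - σ (a' / a) * h2
  have e6 : (a' / a) ^ 2 = a' / a := by rw [← hσ2, ← e5, hs]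
  have ht0 : a' / a ≠ 0 := div_ne_zero ha' ha
  have ht1 : a' / a = 1 := by
    have : (a' / a) * (a' / a - 1) = 0 := by linear_combination e6
    rcases mul_eq_zero.mp this with h | h
    · exact absurd h ht0
    · exact sub_eq_zero.mp h
  exact ((div_eq_one_iff_eq ha).mp ht1).symm

/-- the radical of the commutator pairing twisted by `ψ` -/
def radSub (σ : F →+* F) (ψ : AddChar F ℂ) : AddSubgroup F where
  carrier := {e | ∀ c, ψ (σ c * e + σ e * c) = 1}
  zero_mem' := by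
    intro c
    simp
  add_mem' := by
    intro a b ha hb c
    have : σ c * (a + b) + σ (a + b) * c = (σ c * a + σ a * c) + (σ c * b + σ b * c) := by
      rw [map_add]; ring
    rw [this, AddChar.map_add_eq_mul, ha c, hb c, one_mul]
  neg_mem' := by
    intro a ha c
    have : σ c * (-a) + σ (-a) * c = -(σ c * a + σ a * c) := by
      rw [map_neg]; ring
    rw [this, AddChar.map_neg_eq_inv, ha c, inv_one]

theorem mem_radSub (ψ : AddChar F ℂ) (e : F) :
    e ∈ radSub σ ψ ↔ ∀ c, ψ (σ c * e + σ e * c) = 1 := Iff.rfl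

include h2 in
theorem card_radSub (hσs : Function.Surjective σ) (hσ2 : ∀ x, σ (σ x) = x ^ 2)
    (ψ : AddChar F ℂ) (hψ : ∃ b, ψ b ≠ 1) : Nat.card (radSub σ ψ) ≤ 2 := by
  have key : ∃ r : F, r ≠ 0 ∧ ((radSub σ ψ : AddSubgroup F) : Set F) ⊆ {0, r} := by
    by_cases h : ∃ r ∈ radSub σ ψ, r ≠ 0
    · obtain ⟨r, hr, hr0⟩ := h
      refine ⟨r, hr0, ?_⟩
      intro e he
      by_cases he0 : e = 0
      · left; exact he0
      · right
        exact radical_unique h2 hσs hσ2 ψ hψ e r he0 hr0 he hr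
    · push Not at h
      refine ⟨1, one_ne_zero, ?_⟩
      intro e he
      left
      exact h e he
  obtain ⟨r, hr0, hsub⟩ := key
  have h1 : Nat.card (radSub σ ψ) = ((radSub σ ψ : AddSubgroup F) : Set F).ncard :=
    Nat.card_coe_set_eq _
  rw [h1]
  calc ((radSub σ ψ : AddSubgroup F) : Set F).ncard ≤ ({0, r} : Set F).ncard :=
        Set.ncard_le_ncard hsub (Set.toFinite _)
    _ = 2 := Set.ncard_pair hr0.symm

include H h2 in
theorem rank_sq_ge [FiniteDimensional ℂ V] (hσs : Function.Surjective σ)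
    (hσ2 : ∀ x, σ (σ x) = x ^ 2) (ψ : AddChar F ℂ) (hψ : ∃ b, ψ b ≠ 1) (hP : zP Tz ψ ≠ 0) :
    Fintype.card F ≤ 2 * (Module.finrank ℂ (LinearMap.range (zP Tz ψ)) *
      Module.finrank ℂ (LinearMap.range (zP Tz ψ))) := by
  have hinj : Function.Injective (fun x : F ⧸ radSub σ ψ => (Quotient.out x : F)) := by
    intro x y hxy
    simp only at hxy
    rw [← Quotient.out_eq x, ← Quotient.out_eq y, hxy]
  have hS : ∀ a ∈ Finset.univ.image (fun x : F ⧸ radSub σ ψ => (Quotient.out x : F)),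
      ∀ a' ∈ Finset.univ.image (fun x : F ⧸ radSub σ ψ => (Quotient.out x : F)), a ≠ a' →
      ∃ c, ψ (σ c * (a + a') + σ (a + a') * c) ≠ 1 := by
    intro a ha a' ha' hne
    by_contra hcon
    push Not at hcon
    obtain ⟨x, -, rfl⟩ := Finset.mem_image.mp ha
    obtain ⟨y, -, rfl⟩ := Finset.mem_image.mp ha'
    apply hne
    have hmem : -(Quotient.out x : F) + Quotient.out y ∈ radSub σ ψ := by
      have e : -(Quotient.out x : F) + Quotient.out y = Quotient.out x + Quotient.out y := by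
        linear_combination (-(Quotient.out x : F)) * h2
      rw [e]
      exact hcon
    have hxy : x = y := by
      have := (QuotientAddGroup.eq (s := radSub σ ψ)).mpr hmem
      rw [← QuotientAddGroup.out_eq' x, ← QuotientAddGroup.out_eq' y]
      exact this
    rw [hxy]
  have h1 := card_le_sq H h2 ψ hP _ hS
  rw [Finset.card_image_of_injective _ hinj, Finset.card_univ] at h1
  have h3 := AddSubgroup.card_eq_card_quotient_mul_card_addSubgroup (radSub σ ψ)
  have h4 := card_radSub h2 hσs hσ2 ψ hψ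
  rw [Nat.card_eq_fintype_card, Nat.card_eq_fintype_card] at h3
  rw [h3]
  calc Fintype.card (F ⧸ radSub σ ψ) * Nat.card (radSub σ ψ)
      ≤ Fintype.card (F ⧸ radSub σ ψ) * 2 := Nat.mul_le_mul_left _ h4
    _ ≤ _ := by rw [mul_comm]; exact Nat.mul_le_mul_left _ h1

include H h2 in
/-- the abstract degree bound -/
theorem heis_bound [FiniteDimensional ℂ V] (hσs : Function.Surjective σ)
    (hσ2 : ∀ x, σ (σ x) = x ^ 2) (m : ℕ) (hF : Fintype.card F = 2 ^ (2 * m + 1)) :
    2 ^ m * (2 ^ (2 * m + 1) - 1) ≤ Module.finrank ℂ V := by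
  obtain ⟨ψ, hψ, hP⟩ := exists_nontrivial H h2
  have h1 := finrank_ge H h2 ψ hψ
  have h3 := rank_sq_ge H h2 hσs hσ2 ψ hψ hP
  rw [hF] at h1 h3
  have h4 : 2 ^ m ≤ Module.finrank ℂ (LinearMap.range (zP Tz ψ)) := by
    by_contra hlt
    push Not at hlt
    have h5 := Nat.mul_self_lt_mul_self hlt
    have h6 : 2 ^ (2 * m + 1) = 2 * (2 ^ m * 2 ^ m) := by ring
    omega
  calc 2 ^ m * (2 ^ (2 * m + 1) - 1) ≤
      Module.finrank ℂ (LinearMap.range (zP Tz ψ)) * (2 ^ (2 * m + 1) - 1) :=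
        Nat.mul_le_mul_right _ h4
    _ = (2 ^ (2 * m + 1) - 1) * Module.finrank ℂ (LinearMap.range (zP Tz ψ)) := mul_comm _ _
    _ ≤ _ := h1

end RepCore

end

end Cfsg.Agent.Helper3
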