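import Mathlib
import Cfsg.Agent.Helper3.SuzukiMax2
import Cfsg.Agent.Helper3.SuzukiRep

set_option autoImplicit false
set_option linter.unusedSectionVars false
set_option linter.style.haveILetI false
set_option linter.unusedSimpArgs false
set_option linter.unusedVariables false
set_option linter.deprecated false

namespace Cfsg.Agent.Helper3

open scoped Classical Pointwise
open Cfsg Matrix

noncomputable section

theorem trivial_rep_not_irred {G : Type*} [Group G] (k : ℕ) (hk : 2 ≤ k)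
    (ρ : Representation ℂ G (Fin k → ℂ)) (h : ∀ g, ρ g = 1) : ¬ ρ.IsIrreducible := by
  intro hirr
  let W : Subrepresentation ρ :=
    { toSubmodule :=
        LinearMap.ker (LinearMap.proj (R := ℂ) (φ := fun _ : Fin k => ℂ) ⟨0, by omega⟩)
      apply_mem_toSubmodule := fun g v hv => by rw [h g]; exact hv }
  rcases hirr.eq_bot_or_eq_top W with hW | hW
  · have h1 : (Pi.single (⟨1, by omega⟩ : Fin k) (1 : ℂ) : Fin k → ℂ) ∈ W.toSubmodule := by
      simp [W, LinearMap.mem_ker]
    rw [hW] at h1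
    have h2 : (Pi.single (⟨1, by omega⟩ : Fin k) (1 : ℂ) : Fin k → ℂ) = 0 :=
      (Submodule.mem_bot ℂ).mp h1
    have := congrFun h2 ⟨1, by omega⟩
    simp at this
  · have h1 : (Pi.single (⟨0, by omega⟩ : Fin k) (1 : ℂ) : Fin k → ℂ) ∈ W.toSubmodule := by
      rw [hW]; trivial
    simp [W, LinearMap.mem_ker] at h1

section

variable {F : Type*} [Field F] [Fintype F] {m : ℕ} (σ τ : F →+* F)
  (hσ : ∀ x, σ x = x ^ (2 ^ (m + 1)))
  (hσ2 : ∀ x, σ (σ x) = x ^ 2) (hτ : ∀ x, τ x ^ 2 = σ x) (h2 : (2 : F) = 0)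

include hσ hσ2 hτ h2 in
theorem Sz_rep_bound (hm : 1 ≤ m) (hF : Fintype.card F = 2 ^ (2 * m + 1))
    {V : Type*} [AddCommGroup V] [Module ℂ V] [FiniteDimensional ℂ V]
    (ρ : Sz F m →* Module.End ℂ V) (hne : ∃ g, ρ g ≠ 1) :
    2 ^ m * (2 ^ (2 * m + 1) - 1) ≤ Module.finrank ℂ V := by
  haveI := Sz_simple σ τ hσ hσ2 hτ h2 hm hF
  have hker : ρ.ker = ⊥ := by
    rcases (MonoidHom.normal_ker ρ).eq_bot_or_eq_top with h | h
    · exact h
    · exfalso
      obtain ⟨g, hg⟩ := hne
      apply hg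
      have : g ∈ ρ.ker := by rw [h]; trivial
      exact MonoidHom.mem_ker.mp this
  have H : HeisData σ (fun b => ρ (uG σ hσ hσ2 h2 0 b)) (fun a => ρ (uG σ hσ hσ2 h2 a 0)) :=
    { z0 := by rw [uG_zero, map_one]
      zadd := fun b b' => by
        rw [← map_mul, uG_mul]
        simp
      u0 := by rw [uG_zero, map_one]
      comm := fun a b => by
        rw [← map_mul, ← map_mul, uG_mul, uG_mul]
        simp
      umul := fun a c => by
        rw [← map_mul, ← map_mul, uG_mul, uG_mul]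
        simp
      tor := fun c hc => by
        obtain ⟨l, hl⟩ := norm_surj σ hσ2 c
        simp only at hl
        have hl0 : l ≠ 0 := by
          rintro rfl
          simp at hl
          exact hc hl.symm
        refine ⟨ρ (dG σ τ hσ hσ2 hτ (Units.mk0 l hl0)),
          ρ (dG σ τ hσ hσ2 hτ (Units.mk0 l hl0))⁻¹, ?_, ?_, ?_⟩
        · rw [← map_mul, mul_inv_cancel, map_one]
        · rw [← map_mul, inv_mul_cancel, map_one]
        · intro b
          rw [← map_mul, ← map_mul, dG_uG]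
          simp only [Units.val_mk0, mul_zero, hl]
      ne := by
        by_contra hcon
        push Not at hcon
        have h1 : uG σ hσ hσ2 h2 0 1 ∈ ρ.ker := MonoidHom.mem_ker.mpr (hcon 1)
        rw [hker, Subgroup.mem_bot] at h1
        have := (uG_inj σ hσ hσ2 h2 _ _ _ _ (h1.trans (uG_zero σ hσ hσ2 h2).symm)).2
        exact one_ne_zero this }
  have hσs : Function.Surjective σ := Finite.surjective_of_injective σ.injective
  exact heis_bound H h2 hσs hσ2 m hF

end

theorem lieSz_rep_bound {F : Type*} [Field F] [Fintype F] (m : ℕ) (hm : 1 ≤ m)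
    (hF : Fintype.card F = 2 ^ (2 * m + 1)) (k : ℕ)
    (ρ : Representation ℂ (Cfsg.Lie.Sz F (2 ^ (m + 1))) (Fin k → ℂ))
    (hirr : ρ.IsIrreducible) (hk : 2 ≤ k) : 2 ^ m * (2 ^ (2 * m + 1) - 1) ≤ k := by
  obtain ⟨σ, τ, hσ, hσ2, hτ, h2⟩ := sz_ctx hF
  obtain ⟨e⟩ := Sz_lie_iso' (F := F) hm hF
  have hne : ∃ g, (ρ.comp e.toMonoidHom) g ≠ 1 := by
    by_contra hcon
    push Not at hcon
    apply trivial_rep_not_irred k hk ρ _ hirr
    intro g
    have := hcon (e.symm g)
    simpa using this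
  have := Sz_rep_bound σ τ hσ hσ2 hτ h2 hm hF (ρ.comp e.toMonoidHom) hne
  rwa [Module.finrank_fin_fun] at this

end

end Cfsg.Agent.Helper3
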