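import Mathlib
import Cfsg.Agent.Helper3.SuzukiMax3

set_option autoImplicit false
set_option linter.unusedSectionVars false
set_option linter.style.haveILetI false
set_option linter.unusedSimpArgs false
set_option linter.unusedVariables false
set_option linter.deprecated false

namespace Cfsg.Agent.Helper3

open scoped Classical Pointwise
open Cfsg Matrix

noncomputable section

section absSol

variable {G : Type*} [Group G]

/-- solvability of the subgroup generated by two elements is invariant under isomorphisms -/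
theorem sol_equiv {A B : Type*} [Group A] [Group B] (e : A ≃* B) (x y : A) :
    Group.IsSolvable (Subgroup.closure ({e x, e y} : Set B)) ↔
      Group.IsSolvable (Subgroup.closure ({x, y} : Set A)) := by
  have hmap : Subgroup.closure ({e x, e y} : Set B) =
      (Subgroup.closure ({x, y} : Set A)).map e.toMonoidHom := by
    rw [MonoidHom.map_closure, Set.image_pair]
    rfl
  rw [hmap]
  let φ := Subgroup.equivMapOfInjective (Subgroup.closure ({x, y} : Set A)) e.toMonoidHom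
    e.injective
  constructor
  · intro h
    exact Group.isSolvable_of_isSolvable_injective (f := φ.toMonoidHom) φ.injective
  · intro h
    exact Group.isSolvable_of_isSolvable_injective (f := φ.symm.toMonoidHom) φ.symm.injective

theorem card_sol_equiv {A B : Type*} [Group A] [Group B] (e : A ≃* B) (x : A) :
    Nat.card {y : B // Group.IsSolvable (Subgroup.closure ({e x, y} : Set B))} =
      Nat.card {y : A // Group.IsSolvable (Subgroup.closure ({x, y} : Set A))} := by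
  apply Nat.card_congr
  symm
  refine Equiv.subtypeEquiv e.toEquiv (fun y => ?_)
  exact (sol_equiv e x y).symm

/-- a subgroup with a solvable subgroup containing all its commutators is solvable -/
theorem solvable_of_comm_mem (H K : Subgroup G) (hKH : K ≤ H) (hK : Group.IsSolvable K)
    (hc : ∀ a ∈ H, ∀ b ∈ H, a * b * a⁻¹ * b⁻¹ ∈ K) : Group.IsSolvable H := by
  apply Group.isSolvable_of_ker_le_range (Subgroup.inclusion hKH)
    (Abelianization.of : H →* Abelianization H)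
  rw [Abelianization.ker_of, commutator_eq_closure, Subgroup.closure_le]
  rintro z ⟨a, b, rfl⟩
  refine ⟨⟨(a * b * a⁻¹ * b⁻¹ : H).1, hc a.1 a.2 b.1 b.2⟩, ?_⟩
  apply Subtype.ext
  rfl

/-- a subgroup conjugate into a solvable subgroup is solvable -/
theorem solvable_of_conj_le (H M : Subgroup G) (hH : Group.IsSolvable H) (c : G)
    (h : ∀ x ∈ M, c⁻¹ * x * c ∈ H) : Group.IsSolvable M := by
  let φ : M →* H :=
    { toFun := fun x => ⟨c⁻¹ * x.1 * c, h x.1 x.2⟩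
      map_one' := Subtype.ext (by show c⁻¹ * 1 * c = 1; group)
      map_mul' := fun x y => Subtype.ext (by
        show c⁻¹ * (x.1 * y.1) * c = c⁻¹ * x.1 * c * (c⁻¹ * y.1 * c)
        group) }
  apply Group.isSolvable_of_isSolvable_injective (f := φ)
  intro a b hab
  have h1 : c⁻¹ * a.1 * c = c⁻¹ * b.1 * c := congrArg Subtype.val hab
  exact Subtype.ext (mul_left_cancel (mul_right_cancel h1))

theorem solvable_of_le (H M : Subgroup G) (hH : Group.IsSolvable H) (h : M ≤ H) :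
    Group.IsSolvable M :=
  solvable_of_conj_le H M hH 1 (fun x hx => by simpa using h hx)

/-- two elements normalising a cyclic subgroup induce commuting automorphisms -/
theorem norm_cyclic_comm (T : Subgroup G) (hT : IsCyclic T) (n n' : G)
    (hn : n ∈ Subgroup.normalizer (T : Set G)) (hn' : n' ∈ Subgroup.normalizer (T : Set G))
    (t : G) (ht : t ∈ T) : (n * n') * t * (n * n')⁻¹ = (n' * n) * t * (n' * n)⁻¹ := by
  obtain ⟨g, hg⟩ := hT.exists_generator
  have hgen : ∀ t ∈ T, ∃ i : ℤ, t = g.1 ^ i := by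
    intro t ht
    obtain ⟨i, hi⟩ := Subgroup.mem_zpowers_iff.mp (hg ⟨t, ht⟩)
    exact ⟨i, by rw [← Subgroup.coe_zpow, hi]⟩
  obtain ⟨a, ha⟩ := hgen _ ((Subgroup.mem_normalizer_iff.mp hn g.1).mp g.2)
  obtain ⟨b, hb⟩ := hgen _ ((Subgroup.mem_normalizer_iff.mp hn' g.1).mp g.2)
  have e1 : (n * n') * g.1 * (n * n')⁻¹ = g.1 ^ (a * b) := by
    calc (n * n') * g.1 * (n * n')⁻¹ = n * (n' * g.1 * n'⁻¹) * n⁻¹ := by group
      _ = n * g.1 ^ b * n⁻¹ := by rw [hb]
      _ = (n * g.1 * n⁻¹) ^ b := by rw [conj_zpow]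
      _ = (g.1 ^ a) ^ b := by rw [ha]
      _ = _ := by rw [← _root_.zpow_mul]
  have e2 : (n' * n) * g.1 * (n' * n)⁻¹ = g.1 ^ (a * b) := by
    calc (n' * n) * g.1 * (n' * n)⁻¹ = n' * (n * g.1 * n⁻¹) * n'⁻¹ := by group
      _ = n' * g.1 ^ a * n'⁻¹ := by rw [ha]
      _ = (n' * g.1 * n'⁻¹) ^ a := by rw [conj_zpow]
      _ = (g.1 ^ b) ^ a := by rw [hb]
      _ = _ := by rw [← _root_.zpow_mul, mul_comm]
  obtain ⟨i, rfl⟩ := hgen t ht
  rw [← conj_zpow, ← conj_zpow, e1, e2]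

/-- the normaliser of a cyclic centraliser is solvable -/
theorem norm_cent_solvable (h : G) (hcyc : IsCyclic (Subgroup.centralizer ({h} : Set G))) :
    Group.IsSolvable (Subgroup.normalizer ((Subgroup.centralizer ({h} : Set G) : Subgroup G) :
      Set G)) := by
  have hK : Group.IsSolvable (Subgroup.centralizer ({h} : Set G)) := by
    letI := IsCyclic.commGroup (α := Subgroup.centralizer ({h} : Set G))
    exact Group.isSolvable_of_comm (fun a b => mul_comm a b)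
  apply solvable_of_comm_mem _ _ Subgroup.le_normalizer hK
  intro a ha b hb
  have hba : b * a ∈ Subgroup.normalizer ((Subgroup.centralizer ({h} : Set G) : Subgroup G) :
      Set G) := Subgroup.mul_mem _ hb ha
  have hh : h ∈ Subgroup.centralizer ({h} : Set G) :=
    Subgroup.mem_centralizer_singleton_iff.mpr rfl
  have ht : (b * a)⁻¹ * h * (b * a) ∈ Subgroup.centralizer ({h} : Set G) := by
    have := (Subgroup.mem_normalizer_iff.mp (Subgroup.inv_mem _ hba) h).mp hh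
    rwa [inv_inv] at this
  have key := norm_cyclic_comm _ hcyc a b ha hb _ ht
  rw [Subgroup.mem_centralizer_singleton_iff]
  have e1 : a * b * a⁻¹ * b⁻¹ * h = (a * b) * ((b * a)⁻¹ * h * (b * a)) * (a * b)⁻¹ *
      (a * b * a⁻¹ * b⁻¹) := by group
  rw [e1, key]
  group

end absSol

section solC

variable {F : Type*} [Field F] [Fintype F] {m : ℕ} (σ τ : F →+* F)
  (hσ : ∀ x, σ x = x ^ (2 ^ (m + 1)))
  (hσ2 : ∀ x, σ (σ x) = x ^ 2) (hτ : ∀ x, τ x ^ 2 = σ x) (h2 : (2 : F) = 0)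

theorem szU_solvable (hF : Fintype.card F = 2 ^ (2 * m + 1)) :
    Group.IsSolvable (szU σ hσ hσ2 h2) := by
  haveI : Fact (Nat.Prime 2) := ⟨Nat.prime_two⟩
  have hcard : Nat.card (szU σ hσ hσ2 h2) = 2 ^ (2 * (2 * m + 1)) := by
    rw [card_szU, hF]
    ring
  haveI : Finite (szU σ hσ hσ2 h2) :=
    Nat.finite_of_card_ne_zero (by rw [hcard]; positivity)
  have hp : IsPGroup 2 (szU σ hσ hσ2 h2) := IsPGroup.of_card hcard
  haveI := hp.isNilpotent
  infer_instance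

include hσ hσ2 hτ h2 in
theorem szB_solvable (hm : 1 ≤ m) (hF : Fintype.card F = 2 ^ (2 * m + 1)) :
    Group.IsSolvable (szB (F := F) m) := by
  apply solvable_of_comm_mem _ (szU σ hσ hσ2 h2) (szU_le_szB σ hσ hσ2 h2)
    (szU_solvable σ hσ hσ2 h2 hF)
  intro a ha b hb
  obtain ⟨a₁, b₁, κ₁, rfl⟩ := (mem_szB_iff' σ τ hσ hσ2 hτ h2 hm hF a).mp ha
  obtain ⟨a₂, b₂, κ₂, rfl⟩ := (mem_szB_iff' σ τ hσ hσ2 hτ h2 hm hF b).mp hb
  have e : uG σ hσ hσ2 h2 a₁ b₁ * dG σ τ hσ hσ2 hτ κ₁ *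
      (uG σ hσ hσ2 h2 a₂ b₂ * dG σ τ hσ hσ2 hτ κ₂) *
      (uG σ hσ hσ2 h2 a₁ b₁ * dG σ τ hσ hσ2 hτ κ₁)⁻¹ *
      (uG σ hσ hσ2 h2 a₂ b₂ * dG σ τ hσ hσ2 hτ κ₂)⁻¹ =
      uG σ hσ hσ2 h2 a₁ b₁ *
        (dG σ τ hσ hσ2 hτ κ₁ * uG σ hσ hσ2 h2 a₂ b₂ * (dG σ τ hσ hσ2 hτ κ₁)⁻¹) *
        (dG σ τ hσ hσ2 hτ κ₁ * dG σ τ hσ hσ2 hτ κ₂ * (dG σ τ hσ hσ2 hτ κ₁)⁻¹ *
          (dG σ τ hσ hσ2 hτ κ₂)⁻¹) *
        (dG σ τ hσ hσ2 hτ κ₂ * (uG σ hσ hσ2 h2 a₁ b₁)⁻¹ * (dG σ τ hσ hσ2 hτ κ₂)⁻¹) *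
        (uG σ hσ hσ2 h2 a₂ b₂)⁻¹ := by group
  rw [e]
  have hd : dG σ τ hσ hσ2 hτ κ₁ * dG σ τ hσ hσ2 hτ κ₂ * (dG σ τ hσ hσ2 hτ κ₁)⁻¹ *
      (dG σ τ hσ hσ2 hτ κ₂)⁻¹ = 1 := by
    rw [← dG_mul, mul_comm κ₁ κ₂, dG_mul]
    group
  rw [hd, mul_one]
  have hU : ∀ a b, uG σ hσ hσ2 h2 a b ∈ szU σ hσ hσ2 h2 :=
    fun a b => (mem_szU_iff σ hσ hσ2 h2 _).mpr ⟨a, b, rfl⟩
  have hc : ∀ (κ : Fˣ) (a b : F), dG σ τ hσ hσ2 hτ κ * uG σ hσ hσ2 h2 a b *
      (dG σ τ hσ hσ2 hτ κ)⁻¹ ∈ szU σ hσ hσ2 h2 := by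
    intro κ a b
    rw [dG_uG, mul_inv_cancel_right]
    exact hU _ _
  refine Subgroup.mul_mem _ (Subgroup.mul_mem _ (Subgroup.mul_mem _ (hU _ _) (hc _ _ _)) ?_)
    (Subgroup.inv_mem _ (hU _ _))
  rw [uG_inv]
  exact hc _ _ _

include hσ2 hτ h2 in
theorem sol_of_fix (hm : 1 ≤ m) (hF : Fintype.card F = 2 ^ (2 * m + 1)) (x y : Sz F m)
    (o : Option (F × F)) (hx : sact σ hσ x o = o) (hy : sact σ hσ y o = o) :
    Group.IsSolvable (Subgroup.closure ({x, y} : Set (Sz F m))) := by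
  obtain ⟨g, hg, -, hgo⟩ := Sz_trans σ hσ hσ2 h2 o
  obtain ⟨c, hc⟩ : ∃ c : Sz F m, c = ⟨g, hg⟩ := ⟨_, rfl⟩
  have hco : sact σ hσ c none = o := by
    rw [sact_eq_iff, hc]
    exact hgo
  have hco' : sact σ hσ c⁻¹ o = none := (sact_inv σ hσ c o none).mpr hco
  apply solvable_of_conj_le (szB (F := F) m) _ (szB_solvable σ τ hσ hσ2 hτ h2 hm hF) c
  have hle : Subgroup.closure ({x, y} : Set (Sz F m)) ≤
      (szB (F := F) m).comap (MulAut.conj c⁻¹).toMonoidHom := by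
    rw [Subgroup.closure_le]
    rintro z (rfl | rfl)
    · show (MulAut.conj c⁻¹) z ∈ szB (F := F) m
      rw [MulAut.conj_apply, inv_inv, mem_szB_sact σ hσ, sact_mul, sact_mul, hco, hx, hco']
    · show (MulAut.conj c⁻¹) z ∈ szB (F := F) m
      rw [MulAut.conj_apply, inv_inv, mem_szB_sact σ hσ, sact_mul, sact_mul, hco, hy, hco']
  intro z hz
  have h3 : (MulAut.conj c⁻¹) z ∈ szB (F := F) m := hle hz
  rwa [MulAut.conj_apply, inv_inv] at h3

include hσ hσ2 hτ h2 in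
theorem sol_of_tor (hm : 1 ≤ m) (hF : Fintype.card F = 2 ^ (2 * m + 1)) (x y h : Sz F m)
    (hh1 : h ≠ 1) (hhU : h ∉ tiSet (szU σ hσ hσ2 h2))
    (hx : x ∈ Subgroup.normalizer ((Subgroup.centralizer ({h} : Set (Sz F m)) :
      Subgroup (Sz F m)) : Set (Sz F m)))
    (hy : y ∈ Subgroup.normalizer ((Subgroup.centralizer ({h} : Set (Sz F m)) :
      Subgroup (Sz F m)) : Set (Sz F m))) :
    Group.IsSolvable (Subgroup.closure ({x, y} : Set (Sz F m))) := by
  have hcyc := (toral σ τ hσ hσ2 hτ h2 hm hF h hh1 hhU).1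
  refine solvable_of_le _ _ (norm_cent_solvable h hcyc) ?_
  rw [Subgroup.closure_le]
  rintro z (rfl | rfl)
  · exact hx
  · exact hy

include hσ hσ2 hτ h2 in
theorem Sz_not_solvable (hm : 1 ≤ m) (hF : Fintype.card F = 2 ^ (2 * m + 1)) :
    ¬ Group.IsSolvable (Sz F m) := by
  intro hsol
  haveI := Sz_simple σ τ hσ hσ2 hτ h2 hm hF
  have hcomm := IsSimpleGroup.comm_iff_isSolvable.mpr hsol
  obtain ⟨ζ, hζ⟩ := exists_unit_ne_one (F := F) hm hF
  have h1 := hcomm (dG σ τ hσ hσ2 hτ ζ) (uG σ hσ hσ2 h2 1 0)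
  rw [dG_uG] at h1
  have h3 := (uG_inj σ hσ hσ2 h2 _ _ _ _ (mul_right_cancel h1)).1
  apply hζ
  ext
  simpa using h3

include hσ hσ2 hτ h2 in
/-- two elements generate a solvable subgroup exactly when they fix a common point of the ovoid
or normalise a common torus (the degree of the field being prime) -/
theorem sol_iff (hm : 1 ≤ m) (hp : (2 * m + 1).Prime) (hF : Fintype.card F = 2 ^ (2 * m + 1))
    (x y : Sz F m) :
    Group.IsSolvable (Subgroup.closure ({x, y} : Set (Sz F m))) ↔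
      (∃ o, sact σ hσ x o = o ∧ sact σ hσ y o = o) ∨
      (∃ h : Sz F m, h ≠ 1 ∧ h ∉ tiSet (szU σ hσ hσ2 h2) ∧
        x ∈ Subgroup.normalizer ((Subgroup.centralizer ({h} : Set (Sz F m)) :
          Subgroup (Sz F m)) : Set (Sz F m)) ∧
        y ∈ Subgroup.normalizer ((Subgroup.centralizer ({h} : Set (Sz F m)) :
          Subgroup (Sz F m)) : Set (Sz F m))) := by
  have hxm : x ∈ Subgroup.closure ({x, y} : Set (Sz F m)) :=
    Subgroup.subset_closure (by simp)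
  have hym : y ∈ Subgroup.closure ({x, y} : Set (Sz F m)) :=
    Subgroup.subset_closure (by simp)
  constructor
  · intro hsol
    have hne : Subgroup.closure ({x, y} : Set (Sz F m)) ≠ ⊤ := by
      intro htop
      apply Sz_not_solvable σ τ hσ hσ2 hτ h2 hm hF
      rw [htop] at hsol
      exact Group.isSolvable_of_surjective
        (f := (Subgroup.topEquiv : (⊤ : Subgroup (Sz F m)) ≃* Sz F m).toMonoidHom)
        Subgroup.topEquiv.surjective
    rcases Sz_good σ τ hσ hσ2 hτ h2 hm hF _ hne with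
      ⟨P, hP⟩ | ⟨h, hh1, hhU, hle⟩ | ⟨K, iK, iK', k, hk, hkm, hK, hdiv, -⟩
    · left
      obtain ⟨o, ho⟩ := (mem_ovoid_iff σ hσ P.1).mp P.2
      refine ⟨o, ?_, ?_⟩
      · rw [sact_eq_iff, ← ho]
        exact congrArg Subtype.val (hP x hxm)
      · rw [sact_eq_iff, ← ho]
        exact congrArg Subtype.val (hP y hym)
    · right
      exact ⟨h, hh1, hhU, hle hxm, hle hym⟩
    · exfalso
      rcases (Nat.dvd_prime hp).mp hdiv with h1 | h1 <;> omega
  · rintro (⟨o, hx, hy⟩ | ⟨h, hh1, hhU, hx, hy⟩)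
    · exact sol_of_fix σ τ hσ hσ2 hτ h2 hm hF x y o hx hy
    · exact sol_of_tor σ τ hσ hσ2 hτ h2 hm hF x y h hh1 hhU hx hy

end solC

end

end Cfsg.Agent.Helper3
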