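import Mathlib
import Cfsg.Agent.Helper3.SuzukiSol

set_option autoImplicit false
set_option linter.unusedSectionVars false
set_option linter.style.haveILetI false
set_option linter.unusedSimpArgs false
set_option linter.unusedVariables false
set_option linter.deprecated false

namespace Cfsg.Agent.Helper3

open scoped Classical Pointwise
open Cfsg Matrix

noncomputable section

section absTor

theorem nc_conj_iff {G : Type*} [Group G] (c h y : G) :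
    y ∈ Subgroup.normalizer ((Subgroup.centralizer ({c * h * c⁻¹} : Set G) : Subgroup G) :
      Set G) ↔
      c⁻¹ * y * c ∈ Subgroup.normalizer ((Subgroup.centralizer ({h} : Set G) : Subgroup G) :
        Set G) := by
  rw [cent_conj_map, ← Subgroup.map_equiv_normalizer_eq]
  have h1 := mem_conj_map c (c⁻¹ * y * c)
    (Subgroup.normalizer ((Subgroup.centralizer ({h} : Set G) : Subgroup G) : Set G))
  have e : c * (c⁻¹ * y * c) * c⁻¹ = y := by group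
  rw [e] at h1
  exact h1

theorem norm_of_cent_conj_eq {G : Type*} [Group G] (h g₀ g : G)
    (he : Subgroup.centralizer ({g₀ * h * g₀⁻¹} : Set G) =
      Subgroup.centralizer ({g * h * g⁻¹} : Set G)) :
    g₀⁻¹ * g ∈ Subgroup.normalizer ((Subgroup.centralizer ({h} : Set G) : Subgroup G) :
      Set G) := by
  rw [Subgroup.mem_normalizer_iff]
  intro t
  rw [cent_conj_iff g h t, ← he, cent_conj_iff g₀ h (g₀⁻¹ * g * t * (g₀⁻¹ * g)⁻¹)]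
  have e : g₀ * (g₀⁻¹ * g * t * (g₀⁻¹ * g)⁻¹) * g₀⁻¹ = g * t * g⁻¹ := by group
  rw [e]

theorem pow_four_odd {G : Type*} [Group G] (t : G) (k : ℕ) (hk : Odd k) (h4 : t ^ 4 = 1)
    (hk' : t ^ k = 1) : t = 1 := by
  have h1 : orderOf t ∣ 4 := orderOf_dvd_of_pow_eq_one h4
  have h2 : orderOf t ∣ k := orderOf_dvd_of_pow_eq_one hk'
  have h3 : Nat.Coprime 4 k := by
    have h5 : Nat.Coprime 2 k := Nat.coprime_two_left.mpr hk
    have h6 := Nat.Coprime.pow_left 2 h5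
    norm_num at h6
    exact h6
  have h4' : orderOf t ∣ Nat.gcd 4 k := Nat.dvd_gcd h1 h2
  rw [h3] at h4'
  exact orderOf_eq_one_iff.mp (Nat.dvd_one.mp h4')

theorem mem_norm_of_conj {G : Type*} [Group G] (T : Subgroup G) (n : G)
    (h1 : ∀ t ∈ T, n * t * n⁻¹ ∈ T) (h2 : ∀ t ∈ T, n⁻¹ * t * n ∈ T) :
    n ∈ Subgroup.normalizer (T : Set G) := by
  rw [Subgroup.mem_normalizer_iff]
  intro t
  constructor
  · exact h1 t
  · intro ht
    have := h2 _ ht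
    have e : n⁻¹ * (n * t * n⁻¹) * n = t := by group
    rwa [e] at this

end absTor

section torS

variable {F : Type*} [Field F] [Fintype F] {m : ℕ} (σ τ : F →+* F)
  (hσ : ∀ x, σ x = x ^ (2 ^ (m + 1)))
  (hσ2 : ∀ x, σ (σ x) = x ^ 2) (hτ : ∀ x, τ x ^ 2 = σ x) (h2 : (2 : F) = 0)

/-- conjugates of toral elements are toral -/
theorem tor_conj (h c : (Sz F m)) (hh1 : h ≠ 1) (hhU : h ∉ tiSet (szU σ hσ hσ2 h2)) :
    c * h * c⁻¹ ≠ 1 ∧ c * h * c⁻¹ ∉ tiSet (szU σ hσ hσ2 h2) := by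
  refine ⟨fun e => hh1 (conj_eq_one_iff.mp e), ?_⟩
  rintro ⟨-, g, hg⟩
  apply hhU
  refine ⟨hh1, g * c, ?_⟩
  have e : g * c * h * (g * c)⁻¹ = g * (c * h * c⁻¹) * g⁻¹ := by group
  rw [e]
  exact hg

include hσ hσ2 hτ h2 in
/-- a `2`-subgroup meeting `szU` nontrivially fixes the point at infinity -/
theorem two_le_B (hm : 1 ≤ m) (hF : Fintype.card F = 2 ^ (2 * m + 1)) (K : Subgroup (Sz F m)) (hK : IsPGroup 2 K) (x : (Sz F m)) (hxK : x ∈ K)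
    (hxU : x ∈ (szU σ hσ hσ2 h2)) (hx1 : x ≠ 1) : K ≤ (szB (F := F) m) := by
  haveI := Sz_finite σ τ hσ hσ2 hτ h2 hm hF
  haveI : Fact (Nat.Prime 2) := ⟨Nat.prime_two⟩
  obtain ⟨P, hP⟩ := hK.exists_le_sylow
  obtain ⟨c, hc⟩ := (sylow2_conj σ τ hσ hσ2 hτ h2 hm hF).1 P
  have hcB : c ∈ (szB (F := F) m) := szU_ti σ τ hσ hσ2 hτ h2 hm hF c x hxU hx1 ((hc x).mp (hP hxK))
  intro k hk
  have h1 : c * k * c⁻¹ ∈ (szB (F := F) m) := szU_le_szB σ hσ hσ2 h2 ((hc k).mp (hP hk))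
  have e : k = c⁻¹ * (c * k * c⁻¹) * c := by group
  rw [e]
  exact Subgroup.mul_mem _ (Subgroup.mul_mem _ (Subgroup.inv_mem _ hcB) h1) hcB

include hσ hσ2 hτ h2 in
theorem tor_card_odd (hm : 1 ≤ m) (hF : Fintype.card F = 2 ^ (2 * m + 1)) (h : (Sz F m)) (hh1 : h ≠ 1) (hhU : h ∉ tiSet (szU σ hσ hσ2 h2)) :
    Odd (Nat.card (Subgroup.centralizer ({h} : Set (Sz F m)))) := by
  have hc := (toral σ τ hσ hσ2 hτ h2 hm hF h hh1 hhU).2.1
  have hq : 2 ^ (2 * m + 1) = 2 * 2 ^ (2 * m) := by ring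
  have hr : 2 ^ (m + 1) = 2 * 2 ^ m := by ring
  have hle : 2 ^ m ≤ 2 ^ (2 * m) := Nat.pow_le_pow_right (by norm_num) (by omega)
  have hpos : 0 < 2 ^ m := by positivity
  obtain ⟨A, hA⟩ : ∃ A, 2 ^ (2 * m) = A := ⟨_, rfl⟩
  obtain ⟨R, hR⟩ : ∃ R, 2 ^ m = R := ⟨_, rfl⟩
  rw [hq, hr, hA, hR] at hc
  rw [hA, hR] at hle
  rw [hR] at hpos
  rw [Nat.odd_iff]
  simp only [Set.mem_insert_iff, Set.mem_singleton_iff] at hc
  rcases hc with hc | hc | hc <;> omega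

include hσ hσ2 hτ h2 in
theorem tor_inter_U (hm : 1 ≤ m) (hF : Fintype.card F = 2 ^ (2 * m + 1)) (h : (Sz F m)) (hh1 : h ≠ 1) (hhU : h ∉ tiSet (szU σ hσ hσ2 h2)) (t : (Sz F m))
    (ht : t ∈ (Subgroup.centralizer ({h} : Set (Sz F m)))) (htU : t ∈ (szU σ hσ hσ2 h2)) : t = 1 := by
  haveI := Sz_finite σ τ hσ hσ2 hτ h2 hm hF
  have hodd := tor_card_odd σ τ hσ hσ2 hτ h2 hm hF h hh1 hhU
  have h4 : t ^ 4 = 1 := by
    have := szU_pow_four σ hσ hσ2 h2 ⟨t, htU⟩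
    exact congrArg Subtype.val this
  have hk : t ^ Nat.card (Subgroup.centralizer ({h} : Set (Sz F m))) = 1 := by
    have := pow_card_eq_one' (G := (Subgroup.centralizer ({h} : Set (Sz F m)))) (x := ⟨t, ht⟩)
    exact congrArg Subtype.val this
  exact pow_four_odd t _ hodd h4 hk

include hσ hσ2 hτ h2 in
theorem J_pow4 (hm : 1 ≤ m) (hF : Fintype.card F = 2 ^ (2 * m + 1)) (h : (Sz F m)) (hh1 : h ≠ 1) (hhU : h ∉ tiSet (szU σ hσ hσ2 h2)) (x : (Sz F m)) (hxU : x ∈ (szU σ hσ hσ2 h2))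
    (hx1 : x ≠ 1) (hxN : x ∈ (Subgroup.normalizer ((Subgroup.centralizer ({h} : Set (Sz F m)) : Subgroup (Sz F m)) : Set (Sz F m)))) (j : (Sz F m)) (hjN : j ∈ (Subgroup.normalizer ((Subgroup.centralizer ({h} : Set (Sz F m)) : Subgroup (Sz F m)) : Set (Sz F m)))) (hjB : j ∈ (szB (F := F) m)) :
    j ^ 4 = 1 := by
  obtain ⟨-, -, hC, h4⟩ := toral σ τ hσ hσ2 hτ h2 hm hF h hh1 hhU
  have hn : j ^ 4 ∈ (Subgroup.centralizer ({h} : Set (Sz F m))) := h4 j hjN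
  have hnB : j ^ 4 ∈ (szB (F := F) m) := Subgroup.pow_mem _ hjB 4
  by_contra hne
  have hc1 : x * j ^ 4 * x⁻¹ * (j ^ 4)⁻¹ ∈ (Subgroup.centralizer ({h} : Set (Sz F m))) :=
    Subgroup.mul_mem _ ((Subgroup.mem_normalizer_iff.mp hxN _).mp hn) (Subgroup.inv_mem _ hn)
  have hc2 : x * j ^ 4 * x⁻¹ * (j ^ 4)⁻¹ ∈ (szU σ hσ hσ2 h2) := by
    have h3 : j ^ 4 * x⁻¹ * (j ^ 4)⁻¹ ∈ (szU σ hσ hσ2 h2) :=
      (Subgroup.mem_normalizer_iff.mp (szB_le_normalizer σ τ hσ hσ2 hτ h2 hm hF hnB) _).mp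
        (Subgroup.inv_mem _ hxU)
    have e : x * j ^ 4 * x⁻¹ * (j ^ 4)⁻¹ = x * (j ^ 4 * x⁻¹ * (j ^ 4)⁻¹) := by group
    rw [e]
    exact Subgroup.mul_mem _ hxU h3
  have hc3 := tor_inter_U σ τ hσ hσ2 hτ h2 hm hF h hh1 hhU _ hc1 hc2
  have hcomm : x * j ^ 4 = j ^ 4 * x := mul_inv_eq_iff_eq_mul.mp (mul_inv_eq_one.mp hc3)
  have hxC : x ∈ (Subgroup.centralizer ({j ^ 4} : Set (Sz F m))) := Subgroup.mem_centralizer_singleton_iff.mpr hcomm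
  rw [hC _ hn hne] at hxC
  exact hx1 (tor_inter_U σ τ hσ hσ2 hτ h2 hm hF h hh1 hhU x hxC hxU)

include hσ hσ2 hτ h2 in
/-- the normaliser of a torus meets the Borel subgroup in a Sylow `2`-subgroup of the normaliser,
as soon as it contains a nonidentity element of `szU` -/
theorem norm_inter_B (hm : 1 ≤ m) (hF : Fintype.card F = 2 ^ (2 * m + 1)) (h : (Sz F m)) (hh1 : h ≠ 1) (hhU : h ∉ tiSet (szU σ hσ hσ2 h2)) (j k : ℕ) (hk : Odd k)
    (hN : Nat.card (Subgroup.normalizer ((Subgroup.centralizer ({h} : Set (Sz F m)) : Subgroup (Sz F m)) : Set (Sz F m))) = 2 ^ j * k) (x : (Sz F m)) (hxU : x ∈ (szU σ hσ hσ2 h2)) (hx1 : x ≠ 1)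
    (hxN : x ∈ (Subgroup.normalizer ((Subgroup.centralizer ({h} : Set (Sz F m)) : Subgroup (Sz F m)) : Set (Sz F m)))) :
    Nat.card ((Subgroup.normalizer ((Subgroup.centralizer ({h} : Set (Sz F m)) : Subgroup (Sz F m)) : Set (Sz F m))) ⊓ (szB (F := F) m) : Subgroup (Sz F m)) = 2 ^ j := by
  haveI := Sz_finite σ τ hσ hσ2 hτ h2 hm hF
  haveI : Fact (Nat.Prime 2) := ⟨Nat.prime_two⟩
  obtain ⟨N, hNdef⟩ : ∃ N : Subgroup (Sz F m), N = (Subgroup.normalizer ((Subgroup.centralizer ({h} : Set (Sz F m)) : Subgroup (Sz F m)) : Set (Sz F m))) := ⟨_, rfl⟩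
  have hxN' : x ∈ N := by rw [hNdef]; exact hxN
  have hN' : Nat.card N = 2 ^ j * k := by rw [hNdef]; exact hN
  rw [← hNdef]
  have hJ : IsPGroup 2 ((szB (F := F) m).subgroupOf N) := by
    intro g
    refine ⟨2, ?_⟩
    apply Subtype.ext
    apply Subtype.ext
    show ((g.1 : N) : (Sz F m)) ^ 2 ^ 2 = 1
    have hg1 : ((g.1 : N) : (Sz F m)) ∈ (Subgroup.normalizer ((Subgroup.centralizer ({h} : Set (Sz F m)) : Subgroup (Sz F m)) : Set (Sz F m))) := by rw [← hNdef]; exact g.1.2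
    exact J_pow4 σ τ hσ hσ2 hτ h2 hm hF h hh1 hhU x hxU hx1 hxN g.1.1 hg1 (Subgroup.mem_subgroupOf.mp g.2)
  obtain ⟨Q, hQ⟩ := hJ.exists_le_sylow
  have hQcard : Nat.card Q = 2 ^ j := by
    rw [Sylow.card_eq_multiplicity, hN', fact_two j k hk]
  have hQle : (Q : Subgroup N) ≤ (szB (F := F) m).subgroupOf N := by
    have hK : IsPGroup 2 ((Q : Subgroup N).map N.subtype) := Q.isPGroup'.map _
    have hxK : x ∈ (Q : Subgroup N).map N.subtype :=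
      ⟨⟨x, hxN'⟩, hQ (Subgroup.mem_subgroupOf.mpr (szU_le_szB σ hσ hσ2 h2 hxU)), rfl⟩
    have hKB := two_le_B σ τ hσ hσ2 hτ h2 hm hF _ hK x hxK hxU hx1
    intro q hq
    rw [Subgroup.mem_subgroupOf]
    exact hKB ⟨q, hq, rfl⟩
  have heq : (szB (F := F) m).subgroupOf N = (Q : Subgroup N) := le_antisymm hQ hQle
  have e1 : Nat.card (N ⊓ (szB (F := F) m) : Subgroup (Sz F m)) = Nat.card ((szB (F := F) m).subgroupOf N) := by
    rw [inf_comm, ← Subgroup.inf_subgroupOf_right]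
    exact (Nat.card_congr (Subgroup.subgroupOfEquivOfLe inf_le_right).toEquiv).symm
  rw [e1, heq]
  exact hQcard

include hσ hσ2 hτ h2 in
/-- two tori whose normalisers share a nonidentity element of `szU` and an element outside the
Borel subgroup coincide -/
theorem tor_unique (hm : 1 ≤ m) (hF : Fintype.card F = 2 ^ (2 * m + 1)) (h h' : (Sz F m)) (hh1 : h ≠ 1) (hhU : h ∉ tiSet (szU σ hσ hσ2 h2)) (hh1' : h' ≠ 1)
    (hhU' : h' ∉ tiSet (szU σ hσ hσ2 h2)) (x : (Sz F m)) (hxU : x ∈ (szU σ hσ hσ2 h2)) (hx1 : x ≠ 1) (hxN : x ∈ (Subgroup.normalizer ((Subgroup.centralizer ({h} : Set (Sz F m)) : Subgroup (Sz F m)) : Set (Sz F m))))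
    (hxN' : x ∈ (Subgroup.normalizer ((Subgroup.centralizer ({h'} : Set (Sz F m)) : Subgroup (Sz F m)) : Set (Sz F m)))) (y : (Sz F m)) (hyN : y ∈ (Subgroup.normalizer ((Subgroup.centralizer ({h} : Set (Sz F m)) : Subgroup (Sz F m)) : Set (Sz F m)))) (hyN' : y ∈ (Subgroup.normalizer ((Subgroup.centralizer ({h'} : Set (Sz F m)) : Subgroup (Sz F m)) : Set (Sz F m)))) (hyB : y ∉ (szB (F := F) m)) :
    (Subgroup.centralizer ({h} : Set (Sz F m))) = (Subgroup.centralizer ({h'} : Set (Sz F m))) := by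
  obtain ⟨-, -, hC, h4⟩ := toral σ τ hσ hσ2 hτ h2 hm hF h hh1 hhU
  obtain ⟨-, -, hC', h4'⟩ := toral σ τ hσ hσ2 hτ h2 hm hF h' hh1' hhU'
  by_contra hne
  have hK : IsPGroup 2 ((Subgroup.normalizer ((Subgroup.centralizer ({h} : Set (Sz F m)) : Subgroup (Sz F m)) : Set (Sz F m))) ⊓ (Subgroup.normalizer ((Subgroup.centralizer ({h'} : Set (Sz F m)) : Subgroup (Sz F m)) : Set (Sz F m))) : Subgroup (Sz F m)) := by
    intro g
    refine ⟨2, ?_⟩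
    apply Subtype.ext
    show (g.1 : (Sz F m)) ^ 2 ^ 2 = 1
    by_contra hg
    have e4 : (2 : ℕ) ^ 2 = 4 := by norm_num
    rw [e4] at hg
    have h1 := h4 g.1 g.2.1
    have h1' := h4' g.1 g.2.2
    exact hne ((hC _ h1 hg).symm.trans (hC' _ h1' hg))
  have hle := two_le_B σ τ hσ hσ2 hτ h2 hm hF _ hK x ⟨hxN, hxN'⟩ hxU hx1
  exact hyB (hle ⟨hyN, hyN'⟩)

include hσ hσ2 hτ h2 in
theorem tor_class (hm : 1 ≤ m) (hF : Fintype.card F = 2 ^ (2 * m + 1)) (ζ : Fˣ) (hζ : ζ ≠ 1) (z₁ z₂ : (Sz F m)) (hz₁ : z₁ ∈ szS0 F m)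
    (hz₂ : z₂ ∈ szS0 F m) (hunion : szS0 F m = tiSet (Subgroup.centralizer ({z₁} : Set (Sz F m))) ∪ tiSet (Subgroup.centralizer ({z₂} : Set (Sz F m))))
    (h : (Sz F m)) (hh1 : h ≠ 1) (hhU : h ∉ tiSet (szU σ hσ hσ2 h2)) :
    ∃ c : (Sz F m), (Subgroup.centralizer ({c * h * c⁻¹} : Set (Sz F m))) = (Subgroup.centralizer ({dG σ τ hσ hσ2 hτ ζ} : Set (Sz F m))) ∨ (Subgroup.centralizer ({c * h * c⁻¹} : Set (Sz F m))) = (Subgroup.centralizer ({z₁} : Set (Sz F m))) ∨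
      (Subgroup.centralizer ({c * h * c⁻¹} : Set (Sz F m))) = (Subgroup.centralizer ({z₂} : Set (Sz F m))) := by
  by_cases hS : h ∈ szS0 F m
  · rw [hunion] at hS
    rcases hS with ⟨-, c, hc⟩ | ⟨-, c, hc⟩
    · exact ⟨c, Or.inr (Or.inl
        (S0_cent σ τ hσ hσ2 hτ h2 hm hF z₁ hz₁ _ hc (fun e => hh1 (conj_eq_one_iff.mp e))).2)⟩
    · exact ⟨c, Or.inr (Or.inr
        (S0_cent σ τ hσ hσ2 hτ h2 hm hF z₂ hz₂ _ hc (fun e => hh1 (conj_eq_one_iff.mp e))).2)⟩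
  · rw [szS0_eq σ τ hσ hσ2 hτ h2 hm hF, Set.mem_compl_iff, not_not] at hS
    rcases hS with (hS | hS) | hS
    · exact absurd hS hh1
    · exact absurd hS hhU
    · obtain ⟨-, c, hc⟩ := hS
      obtain ⟨κ, hκ⟩ := (mem_szD_iff σ τ hσ hσ2 hτ _).mp hc
      have hκ1 : κ ≠ 1 := by
        rintro rfl
        rw [dG_one] at hκ
        exact hh1 (conj_eq_one_iff.mp hκ)
      refine ⟨c, Or.inl ?_⟩
      rw [hκ, cent_dG σ τ hσ hσ2 hτ h2 hm hF κ hκ1, cent_dG σ τ hσ hσ2 hτ h2 hm hF ζ hζ]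

include hσ hσ2 hτ h2 in
theorem norm_szD (hm : 1 ≤ m) (hF : Fintype.card F = 2 ^ (2 * m + 1)) : Subgroup.normalizer (((szD σ τ hσ hσ2 hτ) : Subgroup (Sz F m)) : Set (Sz F m)) = (szND (m := m) σ) := by
  apply le_antisymm
  · intro n hn
    obtain ⟨ζ, hζ⟩ := exists_unit_ne_one (F := F) hm hF
    have h1 : n * dG σ τ hσ hσ2 hτ ζ * n⁻¹ ∈ (szD σ τ hσ hσ2 hτ) :=
      (Subgroup.mem_normalizer_iff.mp hn _).mp ((mem_szD_iff σ τ hσ hσ2 hτ _).mpr ⟨ζ, rfl⟩)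
    obtain ⟨κ', hκ'⟩ := (mem_szD_iff σ τ hσ hσ2 hτ _).mp h1
    have hκ1 : κ' ≠ 1 := by
      rintro rfl
      rw [dG_one] at hκ'
      have h3 := conj_eq_one_iff.mp hκ'
      rw [← dG_one σ τ hσ hσ2 hτ] at h3
      exact hζ (dG_inj σ τ hσ hσ2 hτ _ _ h3)
    exact szD_ti σ τ hσ hσ2 hτ h2 n ζ κ' hκ1 hκ'
  · have key : ∀ n ∈ (szND (m := m) σ), ∀ t ∈ (szD σ τ hσ hσ2 hτ), n * t * n⁻¹ ∈ (szD σ τ hσ hσ2 hτ) := by
      intro n hn t ht
      obtain ⟨μ, rfl⟩ := (mem_szD_iff σ τ hσ hσ2 hτ _).mp ht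
      rcases (mem_szND_iff σ τ hσ hσ2 hτ h2 hm hF n).mp hn with ⟨κ, rfl⟩ | ⟨κ, rfl⟩
      · rw [← dG_mul, mul_comm, dG_mul, mul_inv_cancel_right]
        exact (mem_szD_iff σ τ hσ hσ2 hτ _).mpr ⟨μ, rfl⟩
      · have e : wG σ hσ hσ2 h2 * dG σ τ hσ hσ2 hτ κ * dG σ τ hσ hσ2 hτ μ * (wG σ hσ hσ2 h2 * dG σ τ hσ hσ2 hτ κ)⁻¹ = dG σ τ hσ hσ2 hτ μ⁻¹ := by
          rw [mul_inv_eq_iff_eq_mul, mul_assoc, ← dG_mul, mul_comm κ μ, dG_mul, ← mul_assoc,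
            ← mul_assoc, wG_dG]
        rw [e]
        exact (mem_szD_iff σ τ hσ hσ2 hτ _).mpr ⟨μ⁻¹, rfl⟩
    intro n hn
    exact mem_norm_of_conj _ n (key n hn) (fun t ht => by
      have := key n⁻¹ (Subgroup.inv_mem _ hn) t ht
      rwa [inv_inv] at this)

end torS

end

end Cfsg.Agent.Helper3
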