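import Mathlib
import Cfsg.Agent.Helper3.SuzukiSol2

set_option autoImplicit false
set_option linter.unusedSectionVars false
set_option linter.style.haveILetI false
set_option linter.unusedSimpArgs false
set_option linter.unusedVariables false
set_option linter.deprecated false

namespace Cfsg.Agent.Helper3

open scoped Classical Pointwise
open Cfsg Matrix

noncomputable section

section absCount

theorem card_filter_equiv {α β : Type*} [Fintype α] [Fintype β] (e : α ≃ β) (p : α → Prop)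
    (q : β → Prop) [DecidablePred p] [DecidablePred q] (h : ∀ a, p a ↔ q (e a)) :
    (Finset.univ.filter p).card = (Finset.univ.filter q).card := by
  apply Finset.card_bij' (fun a _ => e a) (fun b _ => e.symm b)
  · intro a ha
    rw [Finset.mem_filter] at ha ⊢
    exact ⟨Finset.mem_univ _, (h a).mp ha.2⟩
  · intro b hb
    rw [Finset.mem_filter] at hb ⊢
    exact ⟨Finset.mem_univ _, (h _).mpr (by rw [e.apply_symm_apply]; exact hb.2)⟩
  · intro a _
    exact e.symm_apply_apply a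
  · intro b _
    exact e.apply_symm_apply b

variable {G : Type*} [Group G] [Fintype G]

theorem card_filter_mem (H : Subgroup G) :
    (Finset.univ.filter (fun y : G => y ∈ H)).card = Nat.card H := by
  rw [← Fintype.card_subtype]
  exact Nat.card_eq_fintype_card.symm

/-- the number of elements conjugating `x` into `N`, by classes -/
theorem cnt_class (N : Subgroup G) (x : G) :
    (Finset.univ.filter (fun g : G => g⁻¹ * x * g ∈ N)).card =
      Nat.card (Subgroup.centralizer ({x} : Set G)) *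
        (Finset.univ.filter (fun v : G => v ∈ N ∧ ∃ g : G, g⁻¹ * x * g = v)).card := by
  rw [Finset.card_eq_sum_card_fiberwise (f := fun g : G => g⁻¹ * x * g)
    (t := Finset.univ.filter (fun v : G => v ∈ N ∧ ∃ g : G, g⁻¹ * x * g = v))]
  · rw [Finset.sum_const_nat (m := Nat.card (Subgroup.centralizer ({x} : Set G)))]
    · rw [mul_comm]
    · intro v hv
      rw [Finset.mem_filter] at hv
      obtain ⟨-, hvN, g₀, rfl⟩ := hv
      rw [← card_filter_mem, Finset.filter_filter]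
      apply card_filter_equiv (Equiv.mulRight g₀⁻¹)
      intro g
      show (g⁻¹ * x * g ∈ N ∧ g⁻¹ * x * g = g₀⁻¹ * x * g₀) ↔
        g * g₀⁻¹ ∈ Subgroup.centralizer ({x} : Set G)
      rw [Subgroup.mem_centralizer_singleton_iff]
      constructor
      · rintro ⟨-, hg⟩
        calc g * g₀⁻¹ * x = g * (g₀⁻¹ * x * g₀) * g₀⁻¹ := by group
          _ = g * (g⁻¹ * x * g) * g₀⁻¹ := by rw [hg]
          _ = x * (g * g₀⁻¹) := by group
      · intro hg
        have e : g⁻¹ * x * g = g₀⁻¹ * x * g₀ := by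
          calc g⁻¹ * x * g = g⁻¹ * (x * (g * g₀⁻¹)) * g₀ := by group
            _ = g⁻¹ * (g * g₀⁻¹ * x) * g₀ := by rw [hg]
            _ = g₀⁻¹ * x * g₀ := by group
        exact ⟨by rw [e]; exact hvN, e⟩
  · intro g hg
    rw [Finset.coe_filter, Set.mem_setOf_eq] at hg ⊢
    exact ⟨Finset.mem_univ _, hg.2, g, rfl⟩

end absCount

section fieldS

variable {F : Type*} [Field F] [Fintype F] (σ : F →+* F) (hσ2 : ∀ x, σ (σ x) = x ^ 2)
  (h2 : (2 : F) = 0)

include hσ2 in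
theorem sigma_fix (u : F) (h : σ u = u) : u = 0 ∨ u = 1 := by
  have h1 : u ^ 2 = u := by rw [← hσ2, h, h]
  have h3 : u * (u - 1) = 0 := by linear_combination h1
  rcases mul_eq_zero.mp h3 with h4 | h4
  · left; exact h4
  · right; exact sub_eq_zero.mp h4

include hσ2 h2 in
theorem tw_ker (a c : F) (ha : a ≠ 0) (h : σ c * a + σ a * c = 0) : c = 0 ∨ c = a := by
  have hσa : σ a ≠ 0 := (map_ne_zero σ).mpr ha
  have h1 : σ (c / a) = c / a := by
    rw [map_div₀, div_eq_div_iff hσa ha]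
    linear_combination h - c * σ a * h2
  rcases sigma_fix σ hσ2 _ h1 with h3 | h3
  · left
    exact (div_eq_zero_iff.mp h3).resolve_right ha
  · right
    exact (div_eq_one_iff_eq ha).mp h3

include hσ2 h2 in
theorem tw_not (a c : F) (ha : a ≠ 0) : σ c * a + σ a * c ≠ σ a * a := by
  intro h
  have hσa : σ a ≠ 0 := (map_ne_zero σ).mpr ha
  have h1 : σ (c / a) + c / a = 1 := by
    rw [map_div₀]
    field_simp
    linear_combination h
  have h3 : σ (σ (c / a)) + σ (c / a) = 1 := by rw [← map_add, h1, map_one]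
  rw [hσ2] at h3
  have h4 : (c / a) * (c / a - 1) = 0 := by linear_combination h3 - h1
  rcases mul_eq_zero.mp h4 with h5 | h5
  · rw [h5, map_zero, add_zero] at h1
    exact zero_ne_one h1
  · rw [sub_eq_zero.mp h5, map_one] at h1
    have : (1 : F) = 0 := by linear_combination h2 - h1
    exact one_ne_zero this

include hσ2 h2 in
/-- the twisted commutator map has image of index two, not containing `σ a * a` -/
theorem half_lemma (a : F) (ha : a ≠ 0) (e : F) :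
    (∃ c, σ c * a + σ a * c = e) ∨ (∃ c, σ c * a + σ a * c = e + σ a * a) := by
  let φ : F →+ F :=
    { toFun := fun c => σ c * a + σ a * c
      map_zero' := by simp
      map_add' := fun c d => by rw [map_add]; ring }
  have hφ : ∀ c, φ c = σ c * a + σ a * c := fun c => rfl
  have hker : Nat.card φ.ker = 2 := by
    rw [Nat.card_eq_two_iff]
    refine ⟨⟨0, by simp [AddMonoidHom.mem_ker]⟩, ⟨a, ?_⟩, ?_, ?_⟩
    · rw [AddMonoidHom.mem_ker, hφ]
      linear_combination σ a * a * h2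
    · intro h
      exact ha (congrArg Subtype.val h).symm
    · ext ⟨c, hc⟩
      simp only [Set.mem_insert_iff, Set.mem_singleton_iff, Set.mem_univ, iff_true]
      rcases tw_ker σ hσ2 h2 a c ha (AddMonoidHom.mem_ker.mp hc) with h | h
      · left
        exact Subtype.ext h
      · right
        exact Subtype.ext h
  have hidx : φ.range.index = 2 := by
    have h1 := AddSubgroup.card_mul_index φ.range
    have h3 := AddSubgroup.card_mul_index φ.ker
    rw [AddSubgroup.index_ker, hker] at h3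
    have hpos : 0 < Nat.card φ.range := Nat.card_pos
    have h4 : Nat.card φ.range * φ.range.index = Nat.card φ.range * 2 := by
      rw [h1, ← h3, mul_comm]
    exact Nat.eq_of_mul_eq_mul_left hpos h4
  obtain ⟨a₀, ha₀⟩ := AddSubgroup.index_eq_two_iff.mp hidx
  have hnot : σ a * a ∉ φ.range := by
    rintro ⟨c, hc⟩
    exact tw_not σ hσ2 h2 a c ha hc
  have h5 : σ a * a + a₀ ∈ φ.range := by
    rcases ha₀ (σ a * a) with ⟨h, -⟩ | ⟨h, -⟩
    · exact h
    · exact absurd h hnot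
  rcases ha₀ e with ⟨h, -⟩ | ⟨h, -⟩
  · right
    obtain ⟨c, hc⟩ := φ.range.add_mem h h5
    refine ⟨c, ?_⟩
    rw [← hφ, hc]
    linear_combination a₀ * h2
  · left
    obtain ⟨c, hc⟩ := h
    exact ⟨c, hc⟩

end fieldS

section classS

variable {F : Type*} [Field F] [Fintype F] {m : ℕ} (σ τ : F →+* F)
  (hσ : ∀ x, σ x = x ^ (2 ^ (m + 1)))
  (hσ2 : ∀ x, σ (σ x) = x ^ 2) (hτ : ∀ x, τ x ^ 2 = σ x) (h2 : (2 : F) = 0)

include hσ hσ2 hτ h2 in
theorem cent_invol (hm : 1 ≤ m) (hF : Fintype.card F = 2 ^ (2 * m + 1)) (b : F) (hb : b ≠ 0) : (Subgroup.centralizer ({uG σ hσ hσ2 h2 0 b} : Set (Sz F m))) = (szU σ hσ hσ2 h2) := by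
  ext g
  rw [Subgroup.mem_centralizer_singleton_iff, mem_szU_iff]
  constructor
  · intro hc
    obtain ⟨c, d, hcd⟩ := cent_tS σ τ hσ hσ2 hτ h2 hm hF 0 b (by simp [hb]) g.1 g.2
      (congrArg (fun y : (Sz F m) => y.1) hc)
    exact ⟨c, d, Subtype.ext hcd⟩
  · rintro ⟨c, d, rfl⟩
    rw [uG_mul, uG_mul]
    congr 1
    · ring
    · simp only [map_zero, zero_mul, mul_zero, add_zero]
      ring

include hσ hσ2 hτ h2 in
theorem card_cent_invol (hm : 1 ≤ m) (hF : Fintype.card F = 2 ^ (2 * m + 1)) (b : F) (hb : b ≠ 0) :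
    Nat.card (Subgroup.centralizer ({uG σ hσ hσ2 h2 0 b} : Set (Sz F m))) = 2 ^ (2 * m + 1) * 2 ^ (2 * m + 1) := by
  rw [cent_invol σ τ hσ hσ2 hτ h2 hm hF b hb, card_szU, hF]

include hσ hσ2 hτ h2 in
theorem card_cent_four (hm : 1 ≤ m) (hF : Fintype.card F = 2 ^ (2 * m + 1)) (a b : F) (ha : a ≠ 0) :
    Nat.card (Subgroup.centralizer ({uG σ hσ hσ2 h2 a b} : Set (Sz F m))) = 2 * 2 ^ (2 * m + 1) := by
  have hmem : ∀ (i : Bool) (d : F), uG σ hσ hσ2 h2 (if i then a else 0) d ∈ (Subgroup.centralizer ({uG σ hσ hσ2 h2 a b} : Set (Sz F m))) := by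
    intro i d
    rw [Subgroup.mem_centralizer_singleton_iff, uG_mul, uG_mul]
    congr 1
    · ring
    · cases i
      · simp only [Bool.false_eq_true, if_false, map_zero, zero_mul, mul_zero, add_zero]
        ring
      · simp only [if_true]
        ring
  let f : Bool × F → (Subgroup.centralizer ({uG σ hσ hσ2 h2 a b} : Set (Sz F m))) := fun p => ⟨_, hmem p.1 p.2⟩
  have hf : Function.Bijective f := by
    constructor
    · rintro ⟨i, d⟩ ⟨i', d'⟩ h
      have h1 : uG σ hσ hσ2 h2 (if i then a else 0) d = uG σ hσ hσ2 h2 (if i' then a else 0) d' :=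
        congrArg Subtype.val h
      obtain ⟨e1, e2⟩ := uG_inj σ hσ hσ2 h2 _ _ _ _ h1
      have hi : i = i' := by
        cases i <;> cases i' <;> simp at e1 ⊢
        · exact ha e1.symm
        · exact ha e1
      rw [hi, e2]
    · rintro ⟨g, hg⟩
      rw [Subgroup.mem_centralizer_singleton_iff] at hg
      obtain ⟨c, d, hcd⟩ := cent_tS σ τ hσ hσ2 hτ h2 hm hF a b (fun h => ha h.1) g.1 g.2
        (congrArg (fun y : (Sz F m) => y.1) hg)
      have hcd' : g = uG σ hσ hσ2 h2 c d := Subtype.ext hcd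
      subst hcd'
      rw [uG_mul, uG_mul] at hg
      have e2 := (uG_inj σ hσ hσ2 h2 _ _ _ _ hg).2
      have e3 : σ c * a + σ a * c = 0 := by linear_combination e2 + σ a * c * h2
      rcases tw_ker σ hσ2 h2 a c ha e3 with rfl | rfl
      · exact ⟨(false, d), Subtype.ext (by simp [f])⟩
      · exact ⟨(true, d), Subtype.ext (by simp [f])⟩
  rw [← Nat.card_eq_of_bijective f hf, Nat.card_prod, Nat.card_eq_fintype_card,
    Nat.card_eq_fintype_card, Fintype.card_bool, hF]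

include hσ hσ2 hτ h2 in
theorem two_elt_conj (hm : 1 ≤ m) (hF : Fintype.card F = 2 ^ (2 * m + 1)) (v : (Sz F m)) (n : ℕ) (hv : v ^ 2 ^ n = 1) :
    ∃ c : (Sz F m), c * v * c⁻¹ ∈ (szU σ hσ hσ2 h2) := by
  haveI := Sz_finite σ τ hσ hσ2 hτ h2 hm hF
  haveI : Fact (Nat.Prime 2) := ⟨Nat.prime_two⟩
  have hK : IsPGroup 2 (Subgroup.zpowers v) := by
    intro g
    obtain ⟨i, hi⟩ := Subgroup.mem_zpowers_iff.mp g.2
    refine ⟨n, Subtype.ext ?_⟩
    show (g.1) ^ 2 ^ n = 1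
    rw [← hi, ← zpow_natCast, ← _root_.zpow_mul, mul_comm, _root_.zpow_mul, zpow_natCast, hv,
      _root_.one_zpow]
  obtain ⟨P, hP⟩ := hK.exists_le_sylow
  obtain ⟨c, hc⟩ := (sylow2_conj σ τ hσ hσ2 hτ h2 hm hF).1 P
  exact ⟨c, (hc v).mp (hP (Subgroup.mem_zpowers v))⟩

include hσ hσ2 hτ h2 in
/-- all involutions are conjugate -/
theorem invol_conj_all (hm : 1 ≤ m) (hF : Fintype.card F = 2 ^ (2 * m + 1)) (b : F) (hb : b ≠ 0) (v : (Sz F m)) (hv : orderOf v = 2) :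
    ∃ g : (Sz F m), g⁻¹ * uG σ hσ hσ2 h2 0 b * g = v := by
  have hv2 : v ^ 2 = 1 := by
    have := pow_orderOf_eq_one v
    rwa [hv] at this
  have hv1 : v ≠ 1 := by
    rintro rfl
    rw [orderOf_one] at hv
    omega
  obtain ⟨c, hc⟩ := two_elt_conj σ τ hσ hσ2 hτ h2 hm hF v 1 (by rw [pow_one]; exact hv2)
  obtain ⟨a', b', hab⟩ := (mem_szU_iff σ hσ hσ2 h2 _).mp hc
  have hsq : uG σ hσ hσ2 h2 a' b' * uG σ hσ hσ2 h2 a' b' = 1 := by
    rw [← hab]
    calc c * v * c⁻¹ * (c * v * c⁻¹) = c * (v ^ 2) * c⁻¹ := by rw [pow_two]; group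
      _ = 1 := by rw [hv2]; group
  rw [uG_sq, ← uG_zero σ hσ hσ2 h2] at hsq
  have ha' : a' = 0 := by
    have h3 := (uG_inj σ hσ hσ2 h2 _ _ _ _ hsq).2
    rcases mul_eq_zero.mp h3 with h4 | h4
    · exact (map_eq_zero σ).mp h4
    · exact h4
  subst ha'
  have hb' : b' ≠ 0 := by
    rintro rfl
    rw [uG_zero] at hab
    exact hv1 (conj_eq_one_iff.mp hab)
  obtain ⟨l, hl⟩ := norm_surj σ hσ2 (b / b')
  have hl' : l * σ l = b / b' := hl
  have hl0 : l ≠ 0 := by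
    rintro rfl
    rw [zero_mul] at hl'
    exact hb ((div_eq_zero_iff.mp hl'.symm).resolve_right hb')
  have e := conj_dG_central σ τ hσ hσ2 hτ h2 b' (Units.mk0 l hl0)
  refine ⟨dG σ τ hσ hσ2 hτ (Units.mk0 l hl0) * c, ?_⟩
  have e2 : uG σ hσ hσ2 h2 0 b = dG σ τ hσ hσ2 hτ (Units.mk0 l hl0) * (c * v * c⁻¹) * (dG σ τ hσ hσ2 hτ (Units.mk0 l hl0))⁻¹ := by
    rw [hab, e]
    congr 1
    show b = l * σ l * b'
    rw [hl']
    field_simp
  rw [e2]
  group

include hσ hσ2 hτ h2 in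
/-- elements of order four fall into two classes, interchanged by inversion -/
theorem four_conj_all (hm : 1 ≤ m) (hF : Fintype.card F = 2 ^ (2 * m + 1)) (a b : F) (ha : a ≠ 0) (v : (Sz F m)) (hv : orderOf v = 4) :
    (∃ g : (Sz F m), g⁻¹ * uG σ hσ hσ2 h2 a b * g = v) ∨ (∃ g : (Sz F m), g⁻¹ * uG σ hσ hσ2 h2 a b * g = v⁻¹) := by
  have hv4 : v ^ 4 = 1 := by
    have := pow_orderOf_eq_one v
    rwa [hv] at this
  have hv2 : v ^ 2 ≠ 1 := by
    intro h
    have := orderOf_dvd_of_pow_eq_one h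
    rw [hv] at this
    omega
  obtain ⟨c, hc⟩ := two_elt_conj σ τ hσ hσ2 hτ h2 hm hF v 2 (by norm_num; exact hv4)
  obtain ⟨a', b', hab⟩ := (mem_szU_iff σ hσ hσ2 h2 _).mp hc
  have ha' : a' ≠ 0 := by
    rintro rfl
    apply hv2
    have hsq : uG σ hσ hσ2 h2 0 b' * uG σ hσ hσ2 h2 0 b' = 1 := by
      rw [uG_sq, map_zero, zero_mul, uG_zero]
    rw [← hab] at hsq
    have e : c * v * c⁻¹ * (c * v * c⁻¹) = c * (v ^ 2) * c⁻¹ := by rw [pow_two]; group
    rw [e] at hsq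
    exact conj_eq_one_iff.mp hsq
  -- scale `a'` to `a`
  have hκ0 : a / a' ≠ 0 := div_ne_zero ha ha'
  obtain ⟨b'', hb''⟩ : ∃ b'' : F, dG σ τ hσ hσ2 hτ (Units.mk0 _ hκ0) * (c * v * c⁻¹) *
      (dG σ τ hσ hσ2 hτ (Units.mk0 _ hκ0))⁻¹ = uG σ hσ hσ2 h2 a b'' := by
    refine ⟨a / a' * σ (a / a') * b', ?_⟩
    rw [hab, dG_uG, mul_inv_cancel_right]
    congr 1
    show a / a' * a' = a
    field_simp
  rcases half_lemma σ hσ2 h2 a ha (b + b'') with ⟨c', hc'⟩ | ⟨c', hc'⟩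
  · left
    have e3 : uG σ hσ hσ2 h2 c' 0 * uG σ hσ hσ2 h2 a b * (uG σ hσ hσ2 h2 c' 0)⁻¹ = uG σ hσ hσ2 h2 a b'' := by
      rw [mul_inv_eq_iff_eq_mul, uG_mul, uG_mul]
      congr 1
      · ring
      · linear_combination hc' + (b - σ a * c') * h2
    refine ⟨(uG σ hσ hσ2 h2 c' 0)⁻¹ * dG σ τ hσ hσ2 hτ (Units.mk0 _ hκ0) * c, ?_⟩
    have e4 : uG σ hσ hσ2 h2 a b = (uG σ hσ hσ2 h2 c' 0)⁻¹ * uG σ hσ hσ2 h2 a b'' * uG σ hσ hσ2 h2 c' 0 := by rw [← e3]; group
    rw [e4, ← hb'']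
    group
  · right
    have e3 : uG σ hσ hσ2 h2 c' 0 * uG σ hσ hσ2 h2 a b * (uG σ hσ hσ2 h2 c' 0)⁻¹ = (uG σ hσ hσ2 h2 a b'')⁻¹ := by
      rw [uG_inv σ hσ hσ2 h2 a b'', mul_inv_eq_iff_eq_mul, uG_mul, uG_mul]
      congr 1
      · ring
      · linear_combination hc' + (b - σ a * c') * h2
    refine ⟨(uG σ hσ hσ2 h2 c' 0)⁻¹ * dG σ τ hσ hσ2 hτ (Units.mk0 _ hκ0) * c, ?_⟩
    have e4 : uG σ hσ hσ2 h2 a b = (uG σ hσ hσ2 h2 c' 0)⁻¹ * (uG σ hσ hσ2 h2 a b'')⁻¹ * uG σ hσ hσ2 h2 c' 0 := by rw [← e3]; group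
    rw [e4, ← hb'']
    group

include hσ hσ2 hτ h2 in
theorem four_not_real (hm : 1 ≤ m) (hF : Fintype.card F = 2 ^ (2 * m + 1)) (a b : F) (ha : a ≠ 0) (g g' v : (Sz F m))
    (h1 : g⁻¹ * uG σ hσ hσ2 h2 a b * g = v) (h2' : g'⁻¹ * uG σ hσ hσ2 h2 a b * g' = v⁻¹) : False := by
  have e : (g * g'⁻¹) * uG σ hσ hσ2 h2 a b = (uG σ hσ hσ2 h2 a b)⁻¹ * (g * g'⁻¹) := by
    have e1 : uG σ hσ hσ2 h2 a b = g' * v⁻¹ * g'⁻¹ := by rw [← h2']; group
    have e2 : (uG σ hσ hσ2 h2 a b)⁻¹ = g * v⁻¹ * g⁻¹ := by rw [← h1]; group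
    rw [e2]
    nth_rewrite 1 [e1]
    group
  exact ha (real_tS σ τ hσ hσ2 hτ h2 hm hF a b (fun h => ha h.1) (g * g'⁻¹).1 (g * g'⁻¹).2
    (congrArg (fun y : (Sz F m) => y.1) e))

end classS

end

end Cfsg.Agent.Helper3
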