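import Mathlib
import Cfsg.Agent.Helper3.SuzukiSol3

set_option autoImplicit false
set_option linter.unusedSectionVars false
set_option linter.style.haveILetI false
set_option linter.unusedSimpArgs false
set_option linter.unusedVariables false
set_option linter.deprecated false

namespace Cfsg.Agent.Helper3

open scoped Classical Pointwise
open Cfsg Matrix

noncomputable section

section absNorm

variable {G : Type*} [Group G] [Fintype G]

theorem orderOf_conj' (g x : G) : orderOf (g⁻¹ * x * g) = orderOf x := by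
  have := (MulAut.conj g⁻¹).orderOf_eq x
  rwa [MulAut.conj_apply, inv_inv] at this

theorem orderOf_two_iff (v : G) : orderOf v = 2 ↔ v ^ 2 = 1 ∧ v ≠ 1 := by
  haveI : Fact (Nat.Prime 2) := ⟨Nat.prime_two⟩
  constructor
  · intro h
    refine ⟨by have := pow_orderOf_eq_one v; rwa [h] at this, ?_⟩
    rintro rfl
    rw [orderOf_one] at h
    omega
  · rintro ⟨h1, h2⟩
    exact orderOf_eq_prime h1 h2

/-- involutions and elements of order four in the normaliser of a self-centralising cyclic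
subgroup of odd order and index four -/
theorem norm4_counts (T : Subgroup G)
    (hTab : ∀ s ∈ T, ∀ t ∈ T, s * t = t * s) (hodd : Odd (Nat.card T))
    (hC : ∀ t ∈ T, t ≠ 1 → ∀ g : G, g * t = t * g → g ∈ T)
    (h4 : ∀ n ∈ Subgroup.normalizer (T : Set G), n ^ 4 ∈ T)
    (hN : Nat.card (Subgroup.normalizer (T : Set G)) = 4 * Nat.card T)
    (hT1 : ∃ t ∈ T, t ≠ 1) :
    (Finset.univ.filter (fun v : G => v ∈ Subgroup.normalizer (T : Set G) ∧
      orderOf v = 2)).card = Nat.card T ∧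
    (Finset.univ.filter (fun v : G => v ∈ Subgroup.normalizer (T : Set G) ∧
      orderOf v = 4)).card = 2 * Nat.card T := by
  haveI : Fact (Nat.Prime 2) := ⟨Nat.prime_two⟩
  obtain ⟨N, hNdef⟩ : ∃ N : Subgroup G, N = Subgroup.normalizer (T : Set G) := ⟨_, rfl⟩
  rw [← hNdef] at h4 hN ⊢
  have hTN : T ≤ N := by rw [hNdef]; exact Subgroup.le_normalizer
  have hconj : ∀ n ∈ N, ∀ t ∈ T, n * t * n⁻¹ ∈ T := by
    intro n hn t ht
    rw [hNdef] at hn
    exact (Subgroup.mem_normalizer_iff.mp hn t).mp ht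
  have hpowT : ∀ t ∈ T, t ^ Nat.card T = 1 := by
    intro t ht
    have := pow_card_eq_one' (G := T) (x := ⟨t, ht⟩)
    exact congrArg Subtype.val this
  have hinvT : ∀ v : G, v ^ 2 = 1 → v ∈ T → v = 1 := by
    intro v hv2 hvT
    have h4' : v ^ 4 = 1 := by
      rw [show 4 = 2 * 2 from rfl, pow_mul, hv2, one_pow]
    exact pow_four_odd v _ hodd h4' (hpowT v hvT)
  have hinv : ∀ v ∈ N, v ^ 2 = 1 → v ≠ 1 → ∀ t ∈ T, v * t * v⁻¹ = t⁻¹ := by
    intro v hvN hv2 hv1 t ht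
    have hs : t * (v * t * v⁻¹) ∈ T := T.mul_mem ht (hconj v hvN t ht)
    have hcomm : v * (t * (v * t * v⁻¹)) = (t * (v * t * v⁻¹)) * v := by
      have e1 : v * (t * (v * t * v⁻¹)) = (v * t * v⁻¹) * (v ^ 2 * t * (v ^ 2)⁻¹) * v := by
        rw [pow_two]
        group
      rw [e1, hv2, one_mul, inv_one, mul_one, hTab _ (hconj v hvN t ht) _ ht]
    by_contra hne
    have hs1 : t * (v * t * v⁻¹) ≠ 1 := by
      intro h
      exact hne (eq_inv_of_mul_eq_one_right h)
    exact hv1 (hinvT v hv2 (hC _ hs hs1 v hcomm))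
  obtain ⟨a, haN, ha2, ha1⟩ : ∃ a ∈ N, a ^ 2 = 1 ∧ a ≠ 1 := by
    have hdvd : 2 ∣ Nat.card N := by
      rw [hN]
      exact ⟨2 * Nat.card T, by ring⟩
    obtain ⟨a, ha⟩ := exists_prime_orderOf_dvd_card' (G := N) 2 hdvd
    refine ⟨a.1, a.2, ?_, ?_⟩
    · have := pow_orderOf_eq_one a
      rw [ha] at this
      exact congrArg Subtype.val this
    · intro h
      have h' : a = 1 := Subtype.ext h
      rw [h', orderOf_one] at ha
      omega
  have haT : a ∉ T := fun h => ha1 (hinvT a ha2 h)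
  have haa : ∀ v : G, v * a * a = v := by
    intro v
    rw [mul_assoc, ← pow_two, ha2, mul_one]
  obtain ⟨t₀, ht₀, ht₀1⟩ := hT1
  have hprod : ∀ v ∈ N, v ^ 2 = 1 → v ≠ 1 → v * a ∈ T := by
    intro v hvN hv2 hv1
    apply hC t₀ ht₀ ht₀1
    have e1 := hinv a haN ha2 ha1 t₀ ht₀
    have e2 := hinv v hvN hv2 hv1 t₀⁻¹ (T.inv_mem ht₀)
    calc v * a * t₀ = v * (a * t₀ * a⁻¹) * v⁻¹ * (v * a) := by group
      _ = t₀ * (v * a) := by rw [e1, e2, inv_inv]
  have hTa : ∀ t ∈ T, (t * a) ^ 2 = 1 ∧ t * a ≠ 1 := by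
    intro t ht
    constructor
    · have e1 := hinv a haN ha2 ha1 t ht
      calc (t * a) ^ 2 = t * (a * t * a⁻¹) * a ^ 2 := by
            rw [pow_two, pow_two]
            group
        _ = 1 := by
            rw [e1, ha2]
            group
    · intro h
      apply haT
      have h' : a = t⁻¹ := eq_inv_of_mul_eq_one_right h
      rw [h']
      exact T.inv_mem ht
  have cT : (Finset.univ.filter (fun v : G => v ∈ T)).card = Nat.card T := card_filter_mem T
  have cTa : (Finset.univ.filter (fun v : G => v * a ∈ T)).card = Nat.card T := by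
    rw [← cT]
    exact card_filter_equiv (Equiv.mulRight a) _ _ (fun v => Iff.rfl)
  have hNa : ∀ v : G, v * a ∈ T → v ∈ N := by
    intro v h
    have e : v = (v * a) * a⁻¹ := by group
    rw [e]
    exact N.mul_mem (hTN h) (N.inv_mem haN)
  have hsq : ∀ n ∈ N, n ^ 2 ∈ T → n ∈ T ∨ n * a ∈ T := by
    intro n hnN hn2
    obtain ⟨j, hj⟩ := id hodd
    by_cases hnk : n ^ Nat.card T = 1
    · left
      exact odd_pow_mem T n _ hodd hnk (h4 n hnN)
    · right
      have hk2 : (n ^ Nat.card T) ^ 2 = 1 := by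
        rw [← pow_mul, mul_comm, pow_mul]
        exact hpowT _ hn2
      have hmem := hprod _ (N.pow_mem hnN _) hk2 hnk
      have e1 : n ^ Nat.card T = n * (n ^ 2) ^ j := by
        rw [hj, pow_succ', ← pow_mul]
      rw [e1] at hmem
      have hs : (n ^ 2) ^ j ∈ T := T.pow_mem hn2 _
      have hs' : a⁻¹ * ((n ^ 2) ^ j)⁻¹ * a ∈ T := by
        have := hconj a⁻¹ (N.inv_mem haN) _ (T.inv_mem hs)
        rwa [inv_inv] at this
      have e2 : n * a = (n * (n ^ 2) ^ j * a) * (a⁻¹ * ((n ^ 2) ^ j)⁻¹ * a) := by group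
      rw [e2]
      exact T.mul_mem hmem hs'
  have hord4 : ∀ v ∈ N, (orderOf v = 4 ↔ v ∉ T ∧ v * a ∉ T) := by
    intro v hvN
    constructor
    · intro h
      have hv4 : v ^ 4 = 1 := by
        have := pow_orderOf_eq_one v
        rwa [h] at this
      have hv2 : v ^ 2 ≠ 1 := by
        intro h'
        have := orderOf_dvd_of_pow_eq_one h'
        rw [h] at this
        omega
      constructor
      · intro hvT
        have := pow_four_odd v _ hodd hv4 (hpowT v hvT)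
        exact hv2 (by rw [this, one_pow])
      · intro hvaT
        have := (hTa _ hvaT).1
        rw [haa] at this
        exact hv2 this
    · rintro ⟨hvT, hvaT⟩
      have hv2T : v ^ 2 ∉ T := by
        intro h
        rcases hsq v hvN h with h' | h'
        · exact hvT h'
        · exact hvaT h'
      have hv22 : (v ^ 2) ^ 2 ∈ T := by
        rw [← pow_mul]
        exact h4 v hvN
      have hv2a : v ^ 2 * a ∈ T := (hsq _ (N.pow_mem hvN 2) hv22).resolve_left hv2T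
      have h5 := (hTa _ hv2a).1
      rw [haa, ← pow_mul] at h5
      have h6 : ¬ v ^ 2 ^ 1 = 1 := by
        rw [pow_one]
        intro h
        exact hv2T (by rw [h]; exact T.one_mem)
      have h7 := orderOf_eq_prime_pow (p := 2) (n := 1) h6 (by norm_num; exact h5)
      norm_num at h7
      exact h7
  constructor
  · rw [← cTa]
    apply congrArg Finset.card
    apply Finset.filter_congr
    intro v _
    constructor
    · rintro ⟨hvN, hv⟩
      obtain ⟨hv2, hv1⟩ := (orderOf_two_iff v).mp hv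
      exact hprod v hvN hv2 hv1
    · intro h
      refine ⟨hNa v h, (orderOf_two_iff v).mpr ?_⟩
      have := hTa _ h
      rwa [haa] at this
  · have cN : (Finset.univ.filter (fun v : G => v ∈ N)).card = 4 * Nat.card T := by
      rw [card_filter_mem, hN]
    have hdisj : Disjoint (Finset.univ.filter (fun v : G => v ∈ T))
        (Finset.univ.filter (fun v : G => v * a ∈ T)) := by
      rw [Finset.disjoint_filter]
      intro v _ hvT hvaT
      apply haT
      have e : a = v⁻¹ * (v * a) := by group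
      rw [e]
      exact T.mul_mem (T.inv_mem hvT) hvaT
    have cU : (Finset.univ.filter (fun v : G => v ∈ T ∨ v * a ∈ T)).card = 2 * Nat.card T := by
      rw [Finset.filter_or, Finset.card_union_of_disjoint hdisj, cT, cTa]
      ring
    have hsplit := Finset.card_filter_add_card_filter_not
      (s := Finset.univ.filter (fun v : G => v ∈ N)) (fun v : G => v ∉ T ∧ v * a ∉ T)
    rw [Finset.filter_filter, Finset.filter_filter, cN] at hsplit
    have e1 : Finset.univ.filter (fun v : G => v ∈ N ∧ ¬(v ∉ T ∧ v * a ∉ T)) =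
        Finset.univ.filter (fun v : G => v ∈ T ∨ v * a ∈ T) := by
      apply Finset.filter_congr
      intro v _
      constructor
      · rintro ⟨-, h⟩
        by_cases hvT : v ∈ T
        · left
          exact hvT
        · right
          by_contra hva
          exact h ⟨hvT, hva⟩
      · rintro (h | h)
        · exact ⟨hTN h, fun hc => hc.1 h⟩
        · exact ⟨hNa v h, fun hc => hc.2 h⟩
    have e2 : Finset.univ.filter (fun v : G => v ∈ N ∧ orderOf v = 4) =
        Finset.univ.filter (fun v : G => v ∈ N ∧ (v ∉ T ∧ v * a ∉ T)) := by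
      apply Finset.filter_congr
      intro v _
      constructor
      · rintro ⟨h1, h2⟩
        exact ⟨h1, (hord4 v h1).mp h2⟩
      · rintro ⟨h1, h2⟩
        exact ⟨h1, (hord4 v h1).mpr h2⟩
    rw [e1, cU] at hsplit
    rw [e2]
    omega

/-- involutions and elements of order four in the normaliser of a self-centralising
subgroup of odd order and index two -/
theorem norm2_counts (T : Subgroup G) (hodd : Odd (Nat.card T))
    (hC : ∀ t ∈ T, t ≠ 1 → ∀ g : G, g * t = t * g → g ∈ T)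
    (hN : Nat.card (Subgroup.normalizer (T : Set G)) = 2 * Nat.card T) :
    (Finset.univ.filter (fun v : G => v ∈ Subgroup.normalizer (T : Set G) ∧
      orderOf v = 2)).card = Nat.card T ∧
    (Finset.univ.filter (fun v : G => v ∈ Subgroup.normalizer (T : Set G) ∧
      orderOf v = 4)).card = 0 := by
  have h2 : ∀ n ∈ Subgroup.normalizer (T : Set G), n ^ 2 ∈ T :=
    fun n hn => pow_mem_of_norm_index T 2 hN n hn
  obtain ⟨N, hNdef⟩ : ∃ N : Subgroup G, N = Subgroup.normalizer (T : Set G) := ⟨_, rfl⟩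
  rw [← hNdef] at h2 hN ⊢
  have hTN : T ≤ N := by rw [hNdef]; exact Subgroup.le_normalizer
  have hordT : ∀ v ∈ T, orderOf v ≠ 2 ∧ orderOf v ≠ 4 := by
    intro v hv
    have hd : orderOf v ∣ Nat.card T := Subgroup.orderOf_dvd_natCard T hv
    obtain ⟨j, hj⟩ := hodd
    constructor
    · intro h
      rw [h, hj] at hd
      omega
    · intro h
      rw [h, hj] at hd
      omega
  have hout : ∀ v ∈ N, v ∉ T → orderOf v = 2 := by
    intro v hvN hvT
    rw [orderOf_two_iff]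
    refine ⟨?_, fun h => hvT (by rw [h]; exact T.one_mem)⟩
    by_contra hne
    apply hvT
    apply hC _ (h2 v hvN) hne
    rw [pow_two]
    group
  have cN : (Finset.univ.filter (fun v : G => v ∈ N)).card = 2 * Nat.card T := by
    rw [card_filter_mem, hN]
  have cT : (Finset.univ.filter (fun v : G => v ∈ T)).card = Nat.card T := card_filter_mem T
  have hsplit := Finset.card_filter_add_card_filter_not
    (s := Finset.univ.filter (fun v : G => v ∈ N)) (fun v : G => v ∈ T)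
  rw [Finset.filter_filter, Finset.filter_filter, cN] at hsplit
  have e1 : Finset.univ.filter (fun v : G => v ∈ N ∧ v ∈ T) =
      Finset.univ.filter (fun v : G => v ∈ T) := by
    apply Finset.filter_congr
    intro v _
    exact ⟨fun h => h.2, fun h => ⟨hTN h, h⟩⟩
  have e2 : Finset.univ.filter (fun v : G => v ∈ N ∧ orderOf v = 2) =
      Finset.univ.filter (fun v : G => v ∈ N ∧ v ∉ T) := by
    apply Finset.filter_congr
    intro v _
    constructor
    · rintro ⟨h1, h3⟩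
      exact ⟨h1, fun h => (hordT v h).1 h3⟩
    · rintro ⟨h1, h3⟩
      exact ⟨h1, hout v h1 h3⟩
  rw [e1, cT] at hsplit
  constructor
  · rw [e2]
    omega
  · rw [Finset.card_eq_zero, Finset.filter_eq_empty_iff]
    rintro v - ⟨hvN, hv4⟩
    by_cases hvT : v ∈ T
    · exact (hordT v hvT).2 hv4
    · have := hout v hvN hvT
      omega

theorem card_filter_or_disj {α : Type*} [Fintype α] (p q : α → Prop) [DecidablePred p]
    [DecidablePred q] (h : ∀ a, p a → ¬ q a) :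
    (Finset.univ.filter (fun a => p a ∨ q a)).card =
      (Finset.univ.filter p).card + (Finset.univ.filter q).card := by
  rw [Finset.filter_or, Finset.card_union_of_disjoint]
  rw [Finset.disjoint_filter]
  intro a _
  exact h a

end absNorm

section countS

variable {F : Type*} [Field F] [Fintype F] {m : ℕ} (σ τ : F →+* F)
  (hσ : ∀ x, σ x = x ^ (2 ^ (m + 1)))
  (hσ2 : ∀ x, σ (σ x) = x ^ 2) (hτ : ∀ x, τ x ^ 2 = σ x) (h2 : (2 : F) = 0)

include hσ hσ2 hτ h2 in
/-- the double count: elements outside the Borel subgroup lying with `x` in a conjugate of the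
normaliser of a given torus -/
theorem Y_count (hm : 1 ≤ m) (hF : Fintype.card F = 2 ^ (2 * m + 1)) [Fintype (Sz F m)] (h₀ : (Sz F m)) (hh1 : h₀ ≠ 1) (hhU : h₀ ∉ tiSet (szU σ hσ hσ2 h2)) (j k : ℕ)
    (hk : Odd k) (hN : Nat.card (Subgroup.normalizer ((Subgroup.centralizer ({h₀} : Set (Sz F m)) : Subgroup (Sz F m)) : Set (Sz F m))) = 2 ^ j * k) (x : (Sz F m)) (hxU : x ∈ (szU σ hσ hσ2 h2)) (hx1 : x ≠ 1) :
    (Finset.univ.filter (fun y : (Sz F m) => y ∉ (szB (F := F) m) ∧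
      ∃ g : (Sz F m), g⁻¹ * x * g ∈ (Subgroup.normalizer ((Subgroup.centralizer ({h₀} : Set (Sz F m)) : Subgroup (Sz F m)) : Set (Sz F m))) ∧ g⁻¹ * y * g ∈ (Subgroup.normalizer ((Subgroup.centralizer ({h₀} : Set (Sz F m)) : Subgroup (Sz F m)) : Set (Sz F m))))).card * (2 ^ j * k) =
    (Finset.univ.filter (fun g : (Sz F m) => g⁻¹ * x * g ∈ (Subgroup.normalizer ((Subgroup.centralizer ({h₀} : Set (Sz F m)) : Subgroup (Sz F m)) : Set (Sz F m))))).card * (2 ^ j * k - 2 ^ j) := by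
  have hsw := sum_filter_swap' (Finset.univ : Finset (Sz F m)) (Finset.univ : Finset (Sz F m))
    (fun g y => g⁻¹ * x * g ∈ (Subgroup.normalizer ((Subgroup.centralizer ({h₀} : Set (Sz F m)) : Subgroup (Sz F m)) : Set (Sz F m))) ∧ g⁻¹ * y * g ∈ (Subgroup.normalizer ((Subgroup.centralizer ({h₀} : Set (Sz F m)) : Subgroup (Sz F m)) : Set (Sz F m))) ∧ y ∉ (szB (F := F) m))
  have hL : ∀ g : (Sz F m), (Finset.univ.filter (fun y : (Sz F m) =>
      g⁻¹ * x * g ∈ (Subgroup.normalizer ((Subgroup.centralizer ({h₀} : Set (Sz F m)) : Subgroup (Sz F m)) : Set (Sz F m))) ∧ g⁻¹ * y * g ∈ (Subgroup.normalizer ((Subgroup.centralizer ({h₀} : Set (Sz F m)) : Subgroup (Sz F m)) : Set (Sz F m))) ∧ y ∉ (szB (F := F) m))).card =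
      if g⁻¹ * x * g ∈ (Subgroup.normalizer ((Subgroup.centralizer ({h₀} : Set (Sz F m)) : Subgroup (Sz F m)) : Set (Sz F m))) then 2 ^ j * k - 2 ^ j else 0 := by
    intro g
    split_ifs with hg
    · obtain ⟨ht1, htU⟩ := tor_conj σ hσ hσ2 h2 h₀ g hh1 hhU
      have hmem : ∀ y : (Sz F m), y ∈ (Subgroup.normalizer ((Subgroup.centralizer ({g * h₀ * g⁻¹} : Set (Sz F m)) : Subgroup (Sz F m)) : Set (Sz F m))) ↔ g⁻¹ * y * g ∈ (Subgroup.normalizer ((Subgroup.centralizer ({h₀} : Set (Sz F m)) : Subgroup (Sz F m)) : Set (Sz F m))) :=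
        fun y => nc_conj_iff g h₀ y
      have hcard : Nat.card (Subgroup.normalizer ((Subgroup.centralizer ({g * h₀ * g⁻¹} : Set (Sz F m)) : Subgroup (Sz F m)) : Set (Sz F m))) = 2 ^ j * k := by
        rw [card_norm_cent_conj, hN]
      have hJ := norm_inter_B σ τ hσ hσ2 hτ h2 hm hF (g * h₀ * g⁻¹) ht1 htU j k hk hcard x hxU hx1
        ((hmem x).mpr hg)
      have c1 : (Finset.univ.filter (fun y : (Sz F m) => y ∈ (Subgroup.normalizer ((Subgroup.centralizer ({g * h₀ * g⁻¹} : Set (Sz F m)) : Subgroup (Sz F m)) : Set (Sz F m))))).card = 2 ^ j * k := by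
        rw [card_filter_mem, hcard]
      have c2 : (Finset.univ.filter (fun y : (Sz F m) =>
          y ∈ ((Subgroup.normalizer ((Subgroup.centralizer ({g * h₀ * g⁻¹} : Set (Sz F m)) : Subgroup (Sz F m)) : Set (Sz F m))) ⊓ (szB (F := F) m) : Subgroup (Sz F m)))).card = 2 ^ j := by
        rw [card_filter_mem, hJ]
      have hsplit := Finset.card_filter_add_card_filter_not
        (s := Finset.univ.filter (fun y : (Sz F m) => y ∈ (Subgroup.normalizer ((Subgroup.centralizer ({g * h₀ * g⁻¹} : Set (Sz F m)) : Subgroup (Sz F m)) : Set (Sz F m))))) (fun y : (Sz F m) => y ∈ (szB (F := F) m))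
      rw [Finset.filter_filter, Finset.filter_filter, c1] at hsplit
      have e1 : Finset.univ.filter (fun y : (Sz F m) => y ∈ (Subgroup.normalizer ((Subgroup.centralizer ({g * h₀ * g⁻¹} : Set (Sz F m)) : Subgroup (Sz F m)) : Set (Sz F m))) ∧ y ∈ (szB (F := F) m)) =
          Finset.univ.filter (fun y : (Sz F m) => y ∈ ((Subgroup.normalizer ((Subgroup.centralizer ({g * h₀ * g⁻¹} : Set (Sz F m)) : Subgroup (Sz F m)) : Set (Sz F m))) ⊓ (szB (F := F) m) : Subgroup (Sz F m))) := by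
        apply Finset.filter_congr
        intro y _
        exact Subgroup.mem_inf.symm
      have e2 : Finset.univ.filter (fun y : (Sz F m) =>
          g⁻¹ * x * g ∈ (Subgroup.normalizer ((Subgroup.centralizer ({h₀} : Set (Sz F m)) : Subgroup (Sz F m)) : Set (Sz F m))) ∧ g⁻¹ * y * g ∈ (Subgroup.normalizer ((Subgroup.centralizer ({h₀} : Set (Sz F m)) : Subgroup (Sz F m)) : Set (Sz F m))) ∧ y ∉ (szB (F := F) m)) =
          Finset.univ.filter (fun y : (Sz F m) => y ∈ (Subgroup.normalizer ((Subgroup.centralizer ({g * h₀ * g⁻¹} : Set (Sz F m)) : Subgroup (Sz F m)) : Set (Sz F m))) ∧ ¬ y ∈ (szB (F := F) m)) := by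
        apply Finset.filter_congr
        intro y _
        rw [hmem y]
        exact ⟨fun h => ⟨h.2.1, h.2.2⟩, fun h => ⟨hg, h.1, h.2⟩⟩
      rw [e1, c2] at hsplit
      rw [e2]
      omega
    · rw [Finset.card_eq_zero, Finset.filter_eq_empty_iff]
      intro y _ hy
      exact hg hy.1
  have hR : ∀ y : (Sz F m), (Finset.univ.filter (fun g : (Sz F m) =>
      g⁻¹ * x * g ∈ (Subgroup.normalizer ((Subgroup.centralizer ({h₀} : Set (Sz F m)) : Subgroup (Sz F m)) : Set (Sz F m))) ∧ g⁻¹ * y * g ∈ (Subgroup.normalizer ((Subgroup.centralizer ({h₀} : Set (Sz F m)) : Subgroup (Sz F m)) : Set (Sz F m))) ∧ y ∉ (szB (F := F) m))).card =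
      if (y ∉ (szB (F := F) m) ∧ ∃ g : (Sz F m), g⁻¹ * x * g ∈ (Subgroup.normalizer ((Subgroup.centralizer ({h₀} : Set (Sz F m)) : Subgroup (Sz F m)) : Set (Sz F m))) ∧ g⁻¹ * y * g ∈ (Subgroup.normalizer ((Subgroup.centralizer ({h₀} : Set (Sz F m)) : Subgroup (Sz F m)) : Set (Sz F m)))) then 2 ^ j * k
      else 0 := by
    intro y
    split_ifs with hy
    · obtain ⟨hyB, g₀, hg₀x, hg₀y⟩ := hy
      rw [← hN, ← card_filter_mem]
      apply card_filter_equiv (Equiv.mulLeft g₀⁻¹)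
      intro g
      show (g⁻¹ * x * g ∈ (Subgroup.normalizer ((Subgroup.centralizer ({h₀} : Set (Sz F m)) : Subgroup (Sz F m)) : Set (Sz F m))) ∧ g⁻¹ * y * g ∈ (Subgroup.normalizer ((Subgroup.centralizer ({h₀} : Set (Sz F m)) : Subgroup (Sz F m)) : Set (Sz F m))) ∧ y ∉ (szB (F := F) m)) ↔ g₀⁻¹ * g ∈ (Subgroup.normalizer ((Subgroup.centralizer ({h₀} : Set (Sz F m)) : Subgroup (Sz F m)) : Set (Sz F m)))
      constructor
      · rintro ⟨hgx, hgy, -⟩
        obtain ⟨ht1, htU⟩ := tor_conj σ hσ hσ2 h2 h₀ g₀ hh1 hhU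
        obtain ⟨ht1', htU'⟩ := tor_conj σ hσ hσ2 h2 h₀ g hh1 hhU
        have he := tor_unique σ τ hσ hσ2 hτ h2 hm hF (g₀ * h₀ * g₀⁻¹) (g * h₀ * g⁻¹) ht1 htU ht1' htU' x hxU hx1
          ((nc_conj_iff g₀ h₀ x).mpr hg₀x) ((nc_conj_iff g h₀ x).mpr hgx) y
          ((nc_conj_iff g₀ h₀ y).mpr hg₀y) ((nc_conj_iff g h₀ y).mpr hgy) hyB
        exact norm_of_cent_conj_eq h₀ g₀ g he
      · intro hn
        have e1 : g⁻¹ * x * g = (g₀⁻¹ * g)⁻¹ * (g₀⁻¹ * x * g₀) * (g₀⁻¹ * g) := by group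
        have e2 : g⁻¹ * y * g = (g₀⁻¹ * g)⁻¹ * (g₀⁻¹ * y * g₀) * (g₀⁻¹ * g) := by group
        refine ⟨?_, ?_, hyB⟩
        · rw [e1]
          exact Subgroup.mul_mem _ (Subgroup.mul_mem _ (Subgroup.inv_mem _ hn) hg₀x) hn
        · rw [e2]
          exact Subgroup.mul_mem _ (Subgroup.mul_mem _ (Subgroup.inv_mem _ hn) hg₀y) hn
    · rw [Finset.card_eq_zero, Finset.filter_eq_empty_iff]
      intro g _ hg
      exact hy ⟨hg.2.2, g, hg.1, hg.2.1⟩
  have hsumL : ∑ g : (Sz F m), (Finset.univ.filter (fun y : (Sz F m) =>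
      g⁻¹ * x * g ∈ (Subgroup.normalizer ((Subgroup.centralizer ({h₀} : Set (Sz F m)) : Subgroup (Sz F m)) : Set (Sz F m))) ∧ g⁻¹ * y * g ∈ (Subgroup.normalizer ((Subgroup.centralizer ({h₀} : Set (Sz F m)) : Subgroup (Sz F m)) : Set (Sz F m))) ∧ y ∉ (szB (F := F) m))).card =
      (Finset.univ.filter (fun g : (Sz F m) => g⁻¹ * x * g ∈ (Subgroup.normalizer ((Subgroup.centralizer ({h₀} : Set (Sz F m)) : Subgroup (Sz F m)) : Set (Sz F m))))).card * (2 ^ j * k - 2 ^ j) := by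
    rw [Finset.sum_congr rfl (fun g _ => hL g), Finset.sum_ite, Finset.sum_const,
      Finset.sum_const_zero, add_zero, smul_eq_mul]
  have hsumR : ∑ y : (Sz F m), (Finset.univ.filter (fun g : (Sz F m) =>
      g⁻¹ * x * g ∈ (Subgroup.normalizer ((Subgroup.centralizer ({h₀} : Set (Sz F m)) : Subgroup (Sz F m)) : Set (Sz F m))) ∧ g⁻¹ * y * g ∈ (Subgroup.normalizer ((Subgroup.centralizer ({h₀} : Set (Sz F m)) : Subgroup (Sz F m)) : Set (Sz F m))) ∧ y ∉ (szB (F := F) m))).card =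
      (Finset.univ.filter (fun y : (Sz F m) => y ∉ (szB (F := F) m) ∧
        ∃ g : (Sz F m), g⁻¹ * x * g ∈ (Subgroup.normalizer ((Subgroup.centralizer ({h₀} : Set (Sz F m)) : Subgroup (Sz F m)) : Set (Sz F m))) ∧ g⁻¹ * y * g ∈ (Subgroup.normalizer ((Subgroup.centralizer ({h₀} : Set (Sz F m)) : Subgroup (Sz F m)) : Set (Sz F m))))).card * (2 ^ j * k) := by
    rw [Finset.sum_congr rfl (fun y _ => hR y), Finset.sum_ite, Finset.sum_const,
      Finset.sum_const_zero, add_zero, smul_eq_mul]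
  rw [hsumL, hsumR] at hsw
  exact hsw.symm

include hσ hσ2 hτ h2 in
/-- tori of different orders give disjoint contributions -/
theorem Y_disj (hm : 1 ≤ m) (hF : Fintype.card F = 2 ^ (2 * m + 1)) (h h' : (Sz F m)) (hh1 : h ≠ 1) (hhU : h ∉ tiSet (szU σ hσ hσ2 h2)) (hh1' : h' ≠ 1)
    (hhU' : h' ∉ tiSet (szU σ hσ hσ2 h2)) (hne : Nat.card (Subgroup.centralizer ({h} : Set (Sz F m))) ≠ Nat.card (Subgroup.centralizer ({h'} : Set (Sz F m)))) (x : (Sz F m)) (hxU : x ∈ (szU σ hσ hσ2 h2))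
    (hx1 : x ≠ 1) (y : (Sz F m))
    (hy : y ∉ (szB (F := F) m) ∧ ∃ g : (Sz F m), g⁻¹ * x * g ∈ (Subgroup.normalizer ((Subgroup.centralizer ({h} : Set (Sz F m)) : Subgroup (Sz F m)) : Set (Sz F m))) ∧ g⁻¹ * y * g ∈ (Subgroup.normalizer ((Subgroup.centralizer ({h} : Set (Sz F m)) : Subgroup (Sz F m)) : Set (Sz F m)))) :
    ¬ (y ∉ (szB (F := F) m) ∧ ∃ g : (Sz F m), g⁻¹ * x * g ∈ (Subgroup.normalizer ((Subgroup.centralizer ({h'} : Set (Sz F m)) : Subgroup (Sz F m)) : Set (Sz F m))) ∧ g⁻¹ * y * g ∈ (Subgroup.normalizer ((Subgroup.centralizer ({h'} : Set (Sz F m)) : Subgroup (Sz F m)) : Set (Sz F m)))) := by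
  rintro ⟨-, g', hgx', hgy'⟩
  obtain ⟨hyB, g, hgx, hgy⟩ := hy
  obtain ⟨ht1, htU⟩ := tor_conj σ hσ hσ2 h2 h g hh1 hhU
  obtain ⟨ht1', htU'⟩ := tor_conj σ hσ hσ2 h2 h' g' hh1' hhU'
  have he := tor_unique σ τ hσ hσ2 hτ h2 hm hF (g * h * g⁻¹) (g' * h' * g'⁻¹) ht1 htU ht1' htU' x hxU hx1
    ((nc_conj_iff g h x).mpr hgx) ((nc_conj_iff g' h' x).mpr hgx') y
    ((nc_conj_iff g h y).mpr hgy) ((nc_conj_iff g' h' y).mpr hgy') hyB
  apply hne
  rw [Nat.card_congr (centConj g h).toEquiv, Nat.card_congr (centConj g' h').toEquiv, he]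

include hσ hσ2 hτ h2 in
/-- solvability of `⟨x, y⟩` for a nonidentity `2`-element `x` of `szU` -/
theorem sol_U_iff (hm : 1 ≤ m) (hF : Fintype.card F = 2 ^ (2 * m + 1)) (hp : (2 * m + 1).Prime) (h₁ h₂ h₃ : (Sz F m))
    (t₁ : h₁ ≠ 1 ∧ h₁ ∉ tiSet (szU σ hσ hσ2 h2)) (t₂ : h₂ ≠ 1 ∧ h₂ ∉ tiSet (szU σ hσ hσ2 h2)) (t₃ : h₃ ≠ 1 ∧ h₃ ∉ tiSet (szU σ hσ hσ2 h2))
    (hcls : ∀ h : (Sz F m), h ≠ 1 → h ∉ tiSet (szU σ hσ hσ2 h2) → ∃ c : (Sz F m), (Subgroup.centralizer ({c * h * c⁻¹} : Set (Sz F m))) = (Subgroup.centralizer ({h₁} : Set (Sz F m))) ∨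
      (Subgroup.centralizer ({c * h * c⁻¹} : Set (Sz F m))) = (Subgroup.centralizer ({h₂} : Set (Sz F m))) ∨ (Subgroup.centralizer ({c * h * c⁻¹} : Set (Sz F m))) = (Subgroup.centralizer ({h₃} : Set (Sz F m))))
    (x : (Sz F m)) (hxU : x ∈ (szU σ hσ hσ2 h2)) (hx1 : x ≠ 1) (y : (Sz F m)) :
    Group.IsSolvable (Subgroup.closure ({x, y} : Set (Sz F m))) ↔
      (y ∈ (szB (F := F) m) ∨ ((y ∉ (szB (F := F) m) ∧ ∃ g : (Sz F m), g⁻¹ * x * g ∈ (Subgroup.normalizer ((Subgroup.centralizer ({h₁} : Set (Sz F m)) : Subgroup (Sz F m)) : Set (Sz F m))) ∧ g⁻¹ * y * g ∈ (Subgroup.normalizer ((Subgroup.centralizer ({h₁} : Set (Sz F m)) : Subgroup (Sz F m)) : Set (Sz F m)))) ∨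
        ((y ∉ (szB (F := F) m) ∧ ∃ g : (Sz F m), g⁻¹ * x * g ∈ (Subgroup.normalizer ((Subgroup.centralizer ({h₂} : Set (Sz F m)) : Subgroup (Sz F m)) : Set (Sz F m))) ∧ g⁻¹ * y * g ∈ (Subgroup.normalizer ((Subgroup.centralizer ({h₂} : Set (Sz F m)) : Subgroup (Sz F m)) : Set (Sz F m)))) ∨
          (y ∉ (szB (F := F) m) ∧ ∃ g : (Sz F m), g⁻¹ * x * g ∈ (Subgroup.normalizer ((Subgroup.centralizer ({h₃} : Set (Sz F m)) : Subgroup (Sz F m)) : Set (Sz F m))) ∧ g⁻¹ * y * g ∈ (Subgroup.normalizer ((Subgroup.centralizer ({h₃} : Set (Sz F m)) : Subgroup (Sz F m)) : Set (Sz F m))))))) := by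
  obtain ⟨a, b, rfl⟩ := (mem_szU_iff σ hσ hσ2 h2 _).mp hxU
  have hab : ¬ (a = 0 ∧ b = 0) := by
    rintro ⟨rfl, rfl⟩
    exact hx1 (uG_zero σ hσ hσ2 h2)
  have hxinf : sact σ hσ (uG σ hσ hσ2 h2 a b) none = none := sact_uG_none σ hσ hσ2 h2 a b
  have hback : ∀ h₀ : (Sz F m), h₀ ≠ 1 → h₀ ∉ tiSet (szU σ hσ hσ2 h2) →
      (∃ g : (Sz F m), g⁻¹ * uG σ hσ hσ2 h2 a b * g ∈ (Subgroup.normalizer ((Subgroup.centralizer ({h₀} : Set (Sz F m)) : Subgroup (Sz F m)) : Set (Sz F m))) ∧ g⁻¹ * y * g ∈ (Subgroup.normalizer ((Subgroup.centralizer ({h₀} : Set (Sz F m)) : Subgroup (Sz F m)) : Set (Sz F m)))) →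
      Group.IsSolvable (Subgroup.closure ({uG σ hσ hσ2 h2 a b, y} : Set (Sz F m))) := by
    rintro h₀ hh1 hhU ⟨g, hgx, hgy⟩
    obtain ⟨ht1, htU⟩ := tor_conj σ hσ hσ2 h2 h₀ g hh1 hhU
    exact sol_of_tor σ τ hσ hσ2 hτ h2 hm hF _ _ (g * h₀ * g⁻¹) ht1 htU ((nc_conj_iff g h₀ _).mpr hgx)
      ((nc_conj_iff g h₀ _).mpr hgy)
  constructor
  · intro hsol
    by_cases hyB : y ∈ (szB (F := F) m)
    · left
      exact hyB
    · right
      rcases (sol_iff σ τ hσ hσ2 hτ h2 hm hp hF (uG σ hσ hσ2 h2 a b) y).mp hsol with ⟨o, hxo, hyo⟩ | ⟨h, hh1, hhU, hxN, hyN⟩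
      · exfalso
        have ho := sact_uG_fix σ hσ hσ2 h2 a b hab o hxo
        rw [ho] at hyo
        exact hyB ((mem_szB_sact σ hσ y).mpr hyo)
      · obtain ⟨c, hc⟩ := hcls h hh1 hhU
        have hx' : c⁻¹⁻¹ * uG σ hσ hσ2 h2 a b * c⁻¹ ∈ (Subgroup.normalizer ((Subgroup.centralizer ({c * h * c⁻¹} : Set (Sz F m)) : Subgroup (Sz F m)) : Set (Sz F m))) := by
          rw [nc_conj_iff]
          have e : c⁻¹ * (c⁻¹⁻¹ * uG σ hσ hσ2 h2 a b * c⁻¹) * c = uG σ hσ hσ2 h2 a b := by group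
          rw [e]
          exact hxN
        have hy' : c⁻¹⁻¹ * y * c⁻¹ ∈ (Subgroup.normalizer ((Subgroup.centralizer ({c * h * c⁻¹} : Set (Sz F m)) : Subgroup (Sz F m)) : Set (Sz F m))) := by
          rw [nc_conj_iff]
          have e : c⁻¹ * (c⁻¹⁻¹ * y * c⁻¹) * c = y := by group
          rw [e]
          exact hyN
        rcases hc with hc | hc | hc
        · left
          rw [hc] at hx' hy'
          exact ⟨hyB, c⁻¹, hx', hy'⟩
        · right; left
          rw [hc] at hx' hy'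
          exact ⟨hyB, c⁻¹, hx', hy'⟩
        · right; right
          rw [hc] at hx' hy'
          exact ⟨hyB, c⁻¹, hx', hy'⟩
  · rintro (hyB | ⟨-, hg⟩ | ⟨-, hg⟩ | ⟨-, hg⟩)
    · exact sol_of_fix σ τ hσ hσ2 hτ h2 hm hF _ _ none hxinf ((mem_szB_sact σ hσ y).mp hyB)
    · exact hback h₁ t₁.1 t₁.2 hg
    · exact hback h₂ t₂.1 t₂.2 hg
    · exact hback h₃ t₃.1 t₃.2 hg

end countS

end

end Cfsg.Agent.Helper3
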