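import Mathlib
import Cfsg.Agent.Helper3.SuzukiSol4

set_option autoImplicit false
set_option linter.unusedSectionVars false
set_option linter.style.haveILetI false
set_option linter.unusedSimpArgs false
set_option linter.unusedVariables false
set_option linter.deprecated false

namespace Cfsg.Agent.Helper3

open scoped Classical Pointwise
open Cfsg Matrix

noncomputable section

section numS

theorem Y_solve (Y cq cl j k : ℕ) (h : Y * (2 ^ j * k) = cq * cl * (2 ^ j * k - 2 ^ j))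
    (hcl : cl = k) (hk : 0 < k) : Y = cq * (k - 1) := by
  subst hcl
  obtain ⟨k', rfl⟩ : ∃ k', cl = k' + 1 := ⟨cl - 1, by omega⟩
  have e1 : 2 ^ j * (k' + 1) - 2 ^ j = 2 ^ j * k' := by
    rw [Nat.mul_succ]
    omega
  rw [e1] at h
  have h' : Y * (2 ^ j * (k' + 1)) = cq * k' * (2 ^ j * (k' + 1)) := by
    rw [h]
    ring
  have h3 := Nat.eq_of_mul_eq_mul_right (by positivity) h'
  rw [h3]
  simp

theorem Y_zero (Y cq cl j k : ℕ) (h : Y * (2 ^ j * k) = cq * cl * (2 ^ j * k - 2 ^ j))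
    (hcl : cl = 0) (hk : 0 < k) : Y = 0 := by
  subst hcl
  rw [mul_zero, zero_mul] at h
  rcases Nat.mul_eq_zero.mp h with h | h
  · exact h
  · exfalso
    have : 0 < 2 ^ j * k := by positivity
    omega

theorem natcard_subtype_filter {α : Type*} [Fintype α] (p : α → Prop) :
    Nat.card {y : α // p y} = (Finset.univ.filter p).card := by
  rw [← Fintype.card_subtype]
  exact Nat.card_eq_fintype_card

/-- arithmetic of the three torus orders -/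
theorem tor_arith (m : ℕ) (hm : 1 ≤ m) :
    Nat.Coprime (2 ^ (2 * m + 1) + 2 ^ (m + 1) + 1) (2 ^ (2 * m + 1) - 1) ∧
    Nat.Coprime (2 ^ (2 * m + 1) - 2 ^ (m + 1) + 1) (2 ^ (2 * m + 1) - 1) ∧
    Odd (2 ^ (2 * m + 1) - 1) ∧ Odd (2 ^ (2 * m + 1) + 2 ^ (m + 1) + 1) ∧
    Odd (2 ^ (2 * m + 1) - 2 ^ (m + 1) + 1) ∧ 4 ≤ 2 ^ (m + 1) ∧
    2 ^ (m + 1) ≤ 2 ^ (2 * m + 1) ∧ 8 ≤ 2 ^ (2 * m + 1) := by
  have hq : 2 ^ (2 * m + 1) = 2 * 2 ^ (2 * m) := by ring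
  have hr : 2 ^ (m + 1) = 2 * 2 ^ m := by ring
  have hqr : 2 ^ (m + 1) * 2 ^ (m + 1) = 2 * 2 ^ (2 * m + 1) := by ring
  have hr4 : 4 ≤ 2 ^ (m + 1) := by
    calc 4 = 2 ^ 2 := by norm_num
      _ ≤ 2 ^ (m + 1) := Nat.pow_le_pow_right (by norm_num) (by omega)
  have hrq : 2 ^ (m + 1) ≤ 2 ^ (2 * m + 1) := Nat.pow_le_pow_right (by norm_num) (by omega)
  have hq8 : 8 ≤ 2 ^ (2 * m + 1) := by
    calc 8 = 2 ^ 3 := by norm_num
      _ ≤ 2 ^ (2 * m + 1) := Nat.pow_le_pow_right (by norm_num) (by omega)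
  obtain ⟨q, hqd⟩ : ∃ q, 2 ^ (2 * m + 1) = q := ⟨_, rfl⟩
  obtain ⟨r, hrd⟩ : ∃ r, 2 ^ (m + 1) = r := ⟨_, rfl⟩
  obtain ⟨q', hq'⟩ : ∃ q', 2 ^ (2 * m) = q' := ⟨_, rfl⟩
  obtain ⟨r', hr'⟩ : ∃ r', 2 ^ m = r' := ⟨_, rfl⟩
  rw [hqd, hq'] at hq
  rw [hrd, hr'] at hr
  rw [hqd, hrd] at hqr hrq
  rw [hrd] at hr4
  rw [hqd] at hq8
  have hodd1 : Odd (q - 1) := by rw [Nat.odd_iff]; omega
  have hodd2 : Odd (q + r + 1) := by rw [Nat.odd_iff]; omega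
  have hodd3 : Odd (q - r + 1) := by rw [Nat.odd_iff]; omega
  have hprod : (q + r + 1) * (q - r + 1) = (q - 1 + 1) ^ 2 + 1 := by
    obtain ⟨s, hs⟩ : ∃ s, q = s + r := ⟨q - r, by omega⟩
    subst hs
    have e1 : s + r - r + 1 = s + 1 := by omega
    have e2 : s + r - 1 + 1 = s + r := by omega
    rw [e1, e2]
    nlinarith
  rw [hqd, hrd]
  refine ⟨coprime_qm1 (q - 1) _ hodd1 ⟨_, hprod.symm⟩,
    coprime_qm1 (q - 1) _ hodd1 ⟨q + r + 1, by rw [← hprod, mul_comm]⟩, hodd1, hodd2, hodd3,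
    hr4, hrq, hq8⟩

end numS

section finalS

variable {F : Type*} [Field F] [Fintype F] {m : ℕ} (σ τ : F →+* F)
  (hσ : ∀ x, σ x = x ^ (2 ^ (m + 1)))
  (hσ2 : ∀ x, σ (σ x) = x ^ 2) (hτ : ∀ x, τ x ^ 2 = σ x) (h2 : (2 : F) = 0)

include hσ hσ2 hτ h2 in
theorem std_data (hm : 1 ≤ m) (hF : Fintype.card F = 2 ^ (2 * m + 1)) : ∃ h₁ h₂ h₃ : (Sz F m),
    (h₁ ≠ 1 ∧ h₁ ∉ tiSet (szU σ hσ hσ2 h2)) ∧ (h₂ ≠ 1 ∧ h₂ ∉ tiSet (szU σ hσ hσ2 h2)) ∧ (h₃ ≠ 1 ∧ h₃ ∉ tiSet (szU σ hσ hσ2 h2)) ∧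
    Nat.card (Subgroup.centralizer ({h₁} : Set (Sz F m))) = 2 ^ (2 * m + 1) - 1 ∧ Nat.card (Subgroup.normalizer ((Subgroup.centralizer ({h₁} : Set (Sz F m)) : Subgroup (Sz F m)) : Set (Sz F m))) = 2 * Nat.card (Subgroup.centralizer ({h₁} : Set (Sz F m))) ∧
    Nat.card (Subgroup.centralizer ({h₂} : Set (Sz F m))) = 2 ^ (2 * m + 1) + 2 ^ (m + 1) + 1 ∧
    Nat.card (Subgroup.normalizer ((Subgroup.centralizer ({h₂} : Set (Sz F m)) : Subgroup (Sz F m)) : Set (Sz F m))) = 4 * Nat.card (Subgroup.centralizer ({h₂} : Set (Sz F m))) ∧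
    Nat.card (Subgroup.centralizer ({h₃} : Set (Sz F m))) = 2 ^ (2 * m + 1) - 2 ^ (m + 1) + 1 ∧
    Nat.card (Subgroup.normalizer ((Subgroup.centralizer ({h₃} : Set (Sz F m)) : Subgroup (Sz F m)) : Set (Sz F m))) = 4 * Nat.card (Subgroup.centralizer ({h₃} : Set (Sz F m))) ∧
    (∀ h : (Sz F m), h ≠ 1 → h ∉ tiSet (szU σ hσ hσ2 h2) → ∃ c : (Sz F m), (Subgroup.centralizer ({c * h * c⁻¹} : Set (Sz F m))) = (Subgroup.centralizer ({h₁} : Set (Sz F m))) ∨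
      (Subgroup.centralizer ({c * h * c⁻¹} : Set (Sz F m))) = (Subgroup.centralizer ({h₂} : Set (Sz F m))) ∨ (Subgroup.centralizer ({c * h * c⁻¹} : Set (Sz F m))) = (Subgroup.centralizer ({h₃} : Set (Sz F m)))) := by
  haveI := Sz_finite σ τ hσ hσ2 hτ h2 hm hF
  obtain ⟨z₁, z₂, hz₁, hz₂, hn₁, hn₂, hN₁, hN₂, hcop, hunion⟩ := Sz_tori σ τ hσ hσ2 hτ h2 hm hF
  obtain ⟨ζ, hζ⟩ := exists_unit_ne_one (F := F) hm hF
  obtain ⟨-, -, hodd1, -⟩ := tor_arith m hm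
  have hS0 : ∀ z : (Sz F m), z ∈ szS0 F m → z ≠ 1 ∧ z ∉ tiSet (szU σ hσ hσ2 h2) := by
    intro z hz
    refine ⟨S0_ne_one σ hσ z hz, fun h => ?_⟩
    rw [szS0_eq σ τ hσ hσ2 hτ h2 hm hF] at hz
    exact hz (Or.inl (Or.inr h))
  have hd1 : dG σ τ hσ hσ2 hτ ζ ≠ 1 := by
    intro h
    rw [← dG_one σ τ hσ hσ2 hτ] at h
    exact hζ (dG_inj σ τ hσ hσ2 hτ _ _ h)
  have hdU : dG σ τ hσ hσ2 hτ ζ ∉ tiSet (szU σ hσ hσ2 h2) := by
    apply not_tiU_of_odd σ τ hσ hσ2 hτ h2 hm hF (szD σ τ hσ hσ2 hτ) _ _ ((mem_szD_iff σ τ hσ hσ2 hτ _).mpr ⟨ζ, rfl⟩) hd1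
    rw [card_szD, hF]
    exact hodd1
  refine ⟨dG σ τ hσ hσ2 hτ ζ, z₁, z₂, ⟨hd1, hdU⟩, hS0 z₁ hz₁, hS0 z₂ hz₂, ?_, ?_, hn₁, hN₁, hn₂, hN₂,
    tor_class σ τ hσ hσ2 hτ h2 hm hF ζ hζ z₁ z₂ hz₁ hz₂ hunion⟩
  · rw [cent_dG σ τ hσ hσ2 hτ h2 hm hF ζ hζ, card_szD, hF]
  · rw [cent_dG σ τ hσ hσ2 hτ h2 hm hF ζ hζ, norm_szD σ τ hσ hσ2 hτ h2 hm hF, card_szND σ τ hσ hσ2 hτ h2 hm hF, card_szD]

include hσ hσ2 hτ h2 in
theorem invol_class_count (hm : 1 ≤ m) (hF : Fintype.card F = 2 ^ (2 * m + 1)) [Fintype (Sz F m)] (b : F) (hb : b ≠ 0) (N : Subgroup (Sz F m)) :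
    (Finset.univ.filter (fun v : (Sz F m) => v ∈ N ∧ ∃ g : (Sz F m), g⁻¹ * uG σ hσ hσ2 h2 0 b * g = v)).card =
    (Finset.univ.filter (fun v : (Sz F m) => v ∈ N ∧ orderOf v = 2)).card := by
  apply congrArg Finset.card
  apply Finset.filter_congr
  intro v _
  have hord : orderOf (uG σ hσ hσ2 h2 0 b) = 2 := by
    rw [orderOf_two_iff]
    refine ⟨by rw [pow_two, uG_sq, map_zero, zero_mul, uG_zero], ?_⟩
    intro h
    rw [← uG_zero σ hσ hσ2 h2] at h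
    exact hb (uG_inj σ hσ hσ2 h2 _ _ _ _ h).2
  constructor
  · rintro ⟨hvN, g, rfl⟩
    exact ⟨hvN, by rw [orderOf_conj', hord]⟩
  · rintro ⟨hvN, hv⟩
    exact ⟨hvN, invol_conj_all σ τ hσ hσ2 hτ h2 hm hF b hb v hv⟩

include hσ hσ2 hτ h2 in
theorem four_class_count (hm : 1 ≤ m) (hF : Fintype.card F = 2 ^ (2 * m + 1)) [Fintype (Sz F m)] (a b : F) (ha : a ≠ 0) (N : Subgroup (Sz F m)) :
    2 * (Finset.univ.filter (fun v : (Sz F m) => v ∈ N ∧ ∃ g : (Sz F m), g⁻¹ * uG σ hσ hσ2 h2 a b * g = v)).card =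
    (Finset.univ.filter (fun v : (Sz F m) => v ∈ N ∧ orderOf v = 4)).card := by
  have hord : orderOf (uG σ hσ hσ2 h2 a b) = 4 := by
    haveI : Fact (Nat.Prime 2) := ⟨Nat.prime_two⟩
    have hsq : (uG σ hσ hσ2 h2 a b) ^ 2 = uG σ hσ hσ2 h2 0 (σ a * a) := by rw [pow_two, uG_sq]
    have h6 : ¬ (uG σ hσ hσ2 h2 a b) ^ 2 ^ 1 = 1 := by
      rw [pow_one, hsq, ← uG_zero σ hσ hσ2 h2]
      intro h
      have h3 := (uG_inj σ hσ hσ2 h2 _ _ _ _ h).2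
      rcases mul_eq_zero.mp h3 with h' | h'
      · exact ha ((map_eq_zero σ).mp h')
      · exact ha h'
    have h7 : (uG σ hσ hσ2 h2 a b) ^ 2 ^ (1 + 1) = 1 := by
      have e : (2 : ℕ) ^ (1 + 1) = 2 * 2 := by norm_num
      rw [e, pow_mul, hsq, pow_two, uG_sq, map_zero, zero_mul, uG_zero]
    have h8 := orderOf_eq_prime_pow h6 h7
    norm_num at h8
    exact h8
  have e1 : Finset.univ.filter (fun v : (Sz F m) => v ∈ N ∧ orderOf v = 4) =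
      Finset.univ.filter (fun v : (Sz F m) => (v ∈ N ∧ ∃ g : (Sz F m), g⁻¹ * uG σ hσ hσ2 h2 a b * g = v) ∨
        (v ∈ N ∧ ∃ g : (Sz F m), g⁻¹ * uG σ hσ hσ2 h2 a b * g = v⁻¹)) := by
    apply Finset.filter_congr
    intro v _
    constructor
    · rintro ⟨hvN, hv⟩
      rcases four_conj_all σ τ hσ hσ2 hτ h2 hm hF a b ha v hv with h | h
      · left
        exact ⟨hvN, h⟩
      · right
        exact ⟨hvN, h⟩
    · rintro (⟨hvN, g, rfl⟩ | ⟨hvN, g, hg⟩)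
      · exact ⟨hvN, by rw [orderOf_conj', hord]⟩
      · refine ⟨hvN, ?_⟩
        rw [← orderOf_inv, ← hg, orderOf_conj', hord]
  rw [e1, card_filter_or_disj]
  · have e2 : (Finset.univ.filter (fun v : (Sz F m) =>
        v ∈ N ∧ ∃ g : (Sz F m), g⁻¹ * uG σ hσ hσ2 h2 a b * g = v⁻¹)).card =
        (Finset.univ.filter (fun v : (Sz F m) => v ∈ N ∧ ∃ g : (Sz F m), g⁻¹ * uG σ hσ hσ2 h2 a b * g = v)).card := by
      apply card_filter_equiv (Equiv.inv (Sz F m))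
      intro v
      show (v ∈ N ∧ ∃ g : (Sz F m), g⁻¹ * uG σ hσ hσ2 h2 a b * g = v⁻¹) ↔
        (v⁻¹ ∈ N ∧ ∃ g : (Sz F m), g⁻¹ * uG σ hσ hσ2 h2 a b * g = v⁻¹)
      rw [inv_mem_iff]
    rw [e2]
    ring
  · rintro v ⟨-, g, hg⟩ ⟨-, g', hg'⟩
    exact four_not_real σ τ hσ hσ2 hτ h2 hm hF a b ha g g' v hg hg'

include hσ hσ2 hτ h2 in
theorem tor_counts4 (hm : 1 ≤ m) (hF : Fintype.card F = 2 ^ (2 * m + 1)) [Fintype (Sz F m)] (h : (Sz F m)) (hh1 : h ≠ 1) (hhU : h ∉ tiSet (szU σ hσ hσ2 h2))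
    (hN : Nat.card (Subgroup.normalizer ((Subgroup.centralizer ({h} : Set (Sz F m)) : Subgroup (Sz F m)) : Set (Sz F m))) = 4 * Nat.card (Subgroup.centralizer ({h} : Set (Sz F m)))) :
    (Finset.univ.filter (fun v : (Sz F m) => v ∈ (Subgroup.normalizer ((Subgroup.centralizer ({h} : Set (Sz F m)) : Subgroup (Sz F m)) : Set (Sz F m))) ∧ orderOf v = 2)).card = Nat.card (Subgroup.centralizer ({h} : Set (Sz F m))) ∧
    (Finset.univ.filter (fun v : (Sz F m) => v ∈ (Subgroup.normalizer ((Subgroup.centralizer ({h} : Set (Sz F m)) : Subgroup (Sz F m)) : Set (Sz F m))) ∧ orderOf v = 4)).card =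
      2 * Nat.card (Subgroup.centralizer ({h} : Set (Sz F m))) := by
  obtain ⟨hcyc, -, hC, h4⟩ := toral σ τ hσ hσ2 hτ h2 hm hF h hh1 hhU
  apply norm4_counts (Subgroup.centralizer ({h} : Set (Sz F m)))
  · intro s hs t ht
    letI := IsCyclic.commGroup (α := (Subgroup.centralizer ({h} : Set (Sz F m))))
    exact congrArg Subtype.val (mul_comm (⟨s, hs⟩ : (Subgroup.centralizer ({h} : Set (Sz F m)))) ⟨t, ht⟩)
  · exact tor_card_odd σ τ hσ hσ2 hτ h2 hm hF h hh1 hhU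
  · intro t ht ht1 g hg
    rw [← hC t ht ht1]
    exact Subgroup.mem_centralizer_singleton_iff.mpr hg
  · exact h4
  · exact hN
  · exact ⟨h, Subgroup.mem_centralizer_singleton_iff.mpr rfl, hh1⟩

include hσ hσ2 hτ h2 in
theorem tor_counts2 (hm : 1 ≤ m) (hF : Fintype.card F = 2 ^ (2 * m + 1)) [Fintype (Sz F m)] (h : (Sz F m)) (hh1 : h ≠ 1) (hhU : h ∉ tiSet (szU σ hσ hσ2 h2))
    (hN : Nat.card (Subgroup.normalizer ((Subgroup.centralizer ({h} : Set (Sz F m)) : Subgroup (Sz F m)) : Set (Sz F m))) = 2 * Nat.card (Subgroup.centralizer ({h} : Set (Sz F m)))) :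
    (Finset.univ.filter (fun v : (Sz F m) => v ∈ (Subgroup.normalizer ((Subgroup.centralizer ({h} : Set (Sz F m)) : Subgroup (Sz F m)) : Set (Sz F m))) ∧ orderOf v = 2)).card = Nat.card (Subgroup.centralizer ({h} : Set (Sz F m))) ∧
    (Finset.univ.filter (fun v : (Sz F m) => v ∈ (Subgroup.normalizer ((Subgroup.centralizer ({h} : Set (Sz F m)) : Subgroup (Sz F m)) : Set (Sz F m))) ∧ orderOf v = 4)).card = 0 := by
  obtain ⟨hcyc, -, hC, h4⟩ := toral σ τ hσ hσ2 hτ h2 hm hF h hh1 hhU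
  apply norm2_counts (Subgroup.centralizer ({h} : Set (Sz F m)))
  · exact tor_card_odd σ τ hσ hσ2 hτ h2 hm hF h hh1 hhU
  · intro t ht ht1 g hg
    rw [← hC t ht ht1]
    exact Subgroup.mem_centralizer_singleton_iff.mpr hg
  · exact hN

end finalS

end

end Cfsg.Agent.Helper3
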