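import Mathlib
import Cfsg.Agent.Helper3.SuzukiSol5

set_option autoImplicit false
set_option linter.unusedSectionVars false
set_option linter.style.haveILetI false
set_option linter.unusedSimpArgs false
set_option linter.unusedVariables false
set_option linter.deprecated false

namespace Cfsg.Agent.Helper3

open scoped Classical Pointwise
open Cfsg Matrix

noncomputable section

theorem dvd_coprime_absurd (d a b : ℕ) (hd : d ≠ 1) (ha : d ∣ a) (hb : d ∣ b)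
    (hc : Nat.Coprime a b) : False :=
  hd (Nat.Coprime.eq_one_of_dvd (Nat.Coprime.coprime_dvd_left ha hc) hb)

section mainS

variable {F : Type*} [Field F] [Fintype F] {m : ℕ} (σ τ : F →+* F)
  (hσ : ∀ x, σ x = x ^ (2 ^ (m + 1)))
  (hσ2 : ∀ x, σ (σ x) = x ^ 2) (hτ : ∀ x, τ x ^ 2 = σ x) (h2 : (2 : F) = 0)

include hσ hσ2 hτ h2 in
theorem sol_split (hm : 1 ≤ m) (hF : Fintype.card F = 2 ^ (2 * m + 1)) (hp : (2 * m + 1).Prime) [Fintype (Sz F m)] (h₁ h₂ h₃ : (Sz F m))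
    (t₁ : h₁ ≠ 1 ∧ h₁ ∉ tiSet (szU σ hσ hσ2 h2)) (t₂ : h₂ ≠ 1 ∧ h₂ ∉ tiSet (szU σ hσ hσ2 h2)) (t₃ : h₃ ≠ 1 ∧ h₃ ∉ tiSet (szU σ hσ hσ2 h2))
    (hcls : ∀ h : (Sz F m), h ≠ 1 → h ∉ tiSet (szU σ hσ hσ2 h2) → ∃ c : (Sz F m), (Subgroup.centralizer ({c * h * c⁻¹} : Set (Sz F m))) = (Subgroup.centralizer ({h₁} : Set (Sz F m))) ∨
      (Subgroup.centralizer ({c * h * c⁻¹} : Set (Sz F m))) = (Subgroup.centralizer ({h₂} : Set (Sz F m))) ∨ (Subgroup.centralizer ({c * h * c⁻¹} : Set (Sz F m))) = (Subgroup.centralizer ({h₃} : Set (Sz F m))))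
    (hne12 : Nat.card (Subgroup.centralizer ({h₁} : Set (Sz F m))) ≠ Nat.card (Subgroup.centralizer ({h₂} : Set (Sz F m)))) (hne13 : Nat.card (Subgroup.centralizer ({h₁} : Set (Sz F m))) ≠ Nat.card (Subgroup.centralizer ({h₃} : Set (Sz F m))))
    (hne23 : Nat.card (Subgroup.centralizer ({h₂} : Set (Sz F m))) ≠ Nat.card (Subgroup.centralizer ({h₃} : Set (Sz F m))))
    (x : (Sz F m)) (hxU : x ∈ (szU σ hσ hσ2 h2)) (hx1 : x ≠ 1) :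
    (Finset.univ.filter (fun y : (Sz F m) =>
      Group.IsSolvable (Subgroup.closure ({x, y} : Set (Sz F m))))).card =
      Nat.card (szB (F := F) m) + ((Finset.univ.filter (fun y : (Sz F m) => (y ∉ (szB (F := F) m) ∧ ∃ g : (Sz F m), g⁻¹ * x * g ∈ (Subgroup.normalizer ((Subgroup.centralizer ({h₁} : Set (Sz F m)) : Subgroup (Sz F m)) : Set (Sz F m))) ∧ g⁻¹ * y * g ∈ (Subgroup.normalizer ((Subgroup.centralizer ({h₁} : Set (Sz F m)) : Subgroup (Sz F m)) : Set (Sz F m)))))).card +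
        ((Finset.univ.filter (fun y : (Sz F m) => (y ∉ (szB (F := F) m) ∧ ∃ g : (Sz F m), g⁻¹ * x * g ∈ (Subgroup.normalizer ((Subgroup.centralizer ({h₂} : Set (Sz F m)) : Subgroup (Sz F m)) : Set (Sz F m))) ∧ g⁻¹ * y * g ∈ (Subgroup.normalizer ((Subgroup.centralizer ({h₂} : Set (Sz F m)) : Subgroup (Sz F m)) : Set (Sz F m)))))).card +
          (Finset.univ.filter (fun y : (Sz F m) => (y ∉ (szB (F := F) m) ∧ ∃ g : (Sz F m), g⁻¹ * x * g ∈ (Subgroup.normalizer ((Subgroup.centralizer ({h₃} : Set (Sz F m)) : Subgroup (Sz F m)) : Set (Sz F m))) ∧ g⁻¹ * y * g ∈ (Subgroup.normalizer ((Subgroup.centralizer ({h₃} : Set (Sz F m)) : Subgroup (Sz F m)) : Set (Sz F m)))))).card)) := by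
  have d1 : ∀ y : (Sz F m), y ∈ (szB (F := F) m) → ¬ ((y ∉ (szB (F := F) m) ∧ ∃ g : (Sz F m), g⁻¹ * x * g ∈ (Subgroup.normalizer ((Subgroup.centralizer ({h₁} : Set (Sz F m)) : Subgroup (Sz F m)) : Set (Sz F m))) ∧ g⁻¹ * y * g ∈ (Subgroup.normalizer ((Subgroup.centralizer ({h₁} : Set (Sz F m)) : Subgroup (Sz F m)) : Set (Sz F m)))) ∨ ((y ∉ (szB (F := F) m) ∧ ∃ g : (Sz F m), g⁻¹ * x * g ∈ (Subgroup.normalizer ((Subgroup.centralizer ({h₂} : Set (Sz F m)) : Subgroup (Sz F m)) : Set (Sz F m))) ∧ g⁻¹ * y * g ∈ (Subgroup.normalizer ((Subgroup.centralizer ({h₂} : Set (Sz F m)) : Subgroup (Sz F m)) : Set (Sz F m)))) ∨ (y ∉ (szB (F := F) m) ∧ ∃ g : (Sz F m), g⁻¹ * x * g ∈ (Subgroup.normalizer ((Subgroup.centralizer ({h₃} : Set (Sz F m)) : Subgroup (Sz F m)) : Set (Sz F m))) ∧ g⁻¹ * y * g ∈ (Subgroup.normalizer ((Subgroup.centralizer ({h₃} : Set (Sz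 F m)) : Subgroup (Sz F m)) : Set (Sz F m)))))) := by
    rintro y hyB (h | h | h) <;> exact h.1 hyB
  have d2 : ∀ y : (Sz F m), (y ∉ (szB (F := F) m) ∧ ∃ g : (Sz F m), g⁻¹ * x * g ∈ (Subgroup.normalizer ((Subgroup.centralizer ({h₁} : Set (Sz F m)) : Subgroup (Sz F m)) : Set (Sz F m))) ∧ g⁻¹ * y * g ∈ (Subgroup.normalizer ((Subgroup.centralizer ({h₁} : Set (Sz F m)) : Subgroup (Sz F m)) : Set (Sz F m)))) → ¬ ((y ∉ (szB (F := F) m) ∧ ∃ g : (Sz F m), g⁻¹ * x * g ∈ (Subgroup.normalizer ((Subgroup.centralizer ({h₂} : Set (Sz F m)) : Subgroup (Sz F m)) : Set (Sz F m))) ∧ g⁻¹ * y * g ∈ (Subgroup.normalizer ((Subgroup.centralizer ({h₂} : Set (Sz F m)) : Subgroup (Sz F m)) : Set (Sz F m)))) ∨ (y ∉ (szB (F := F) m) ∧ ∃ g : (Sz F m), g⁻¹ * x * g ∈ (Subgroup.normalizer ((Subgroup.centralizer ({h₃} : Set (Sz F m)) : Subgroup (Sz F m)) : Set (Sz F m)))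 ∧ g⁻¹ * y * g ∈ (Subgroup.normalizer ((Subgroup.centralizer ({h₃} : Set (Sz F m)) : Subgroup (Sz F m)) : Set (Sz F m))))) := by
    rintro y hy (h | h)
    · exact Y_disj σ τ hσ hσ2 hτ h2 hm hF h₁ h₂ t₁.1 t₁.2 t₂.1 t₂.2 hne12 x hxU hx1 y hy h
    · exact Y_disj σ τ hσ hσ2 hτ h2 hm hF h₁ h₃ t₁.1 t₁.2 t₃.1 t₃.2 hne13 x hxU hx1 y hy h
  have d3 : ∀ y : (Sz F m), (y ∉ (szB (F := F) m) ∧ ∃ g : (Sz F m), g⁻¹ * x * g ∈ (Subgroup.normalizer ((Subgroup.centralizer ({h₂} : Set (Sz F m)) : Subgroup (Sz F m)) : Set (Sz F m))) ∧ g⁻¹ * y * g ∈ (Subgroup.normalizer ((Subgroup.centralizer ({h₂} : Set (Sz F m)) : Subgroup (Sz F m)) : Set (Sz F m)))) → ¬ (y ∉ (szB (F := F) m) ∧ ∃ g : (Sz F m), g⁻¹ * x * g ∈ (Subgroup.normalizer ((Subgroup.centralizer ({h₃} : Set (Sz F m)) : Subgroup (Sz F m)) : Set (Sz F m))) ∧ g⁻¹ * y * g ∈ (Subgroup.normalizer ((Subgroup.centralizer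 ({h₃} : Set (Sz F m)) : Subgroup (Sz F m)) : Set (Sz F m)))) := fun y hy h =>
    Y_disj σ τ hσ hσ2 hτ h2 hm hF h₂ h₃ t₂.1 t₂.2 t₃.1 t₃.2 hne23 x hxU hx1 y hy h
  rw [Finset.filter_congr (fun y _ => sol_U_iff σ τ hσ hσ2 hτ h2 hm hF hp h₁ h₂ h₃ t₁ t₂ t₃ hcls x hxU hx1 y),
    card_filter_or_disj _ _ d1, card_filter_or_disj _ _ d2, card_filter_or_disj _ _ d3,
    card_filter_mem]

include hσ hσ2 hτ h2 in
/-- the solubilizer of an involution -/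
theorem sol_card_invol (hm : 1 ≤ m) (hF : Fintype.card F = 2 ^ (2 * m + 1)) (hp : (2 * m + 1).Prime) [Fintype (Sz F m)] (b : F) (hb : b ≠ 0) :
    (Finset.univ.filter (fun y : (Sz F m) =>
      Group.IsSolvable (Subgroup.closure ({uG σ hσ hσ2 h2 0 b, y} : Set (Sz F m))))).card =
      (2 ^ (2 * m + 1)) ^ 2 * (4 * 2 ^ (2 * m + 1) - 3) := by
  obtain ⟨h₁, h₂, h₃, t₁, t₂, t₃, hc₁, hn₁, hc₂, hn₂, hc₃, hn₃, hcls⟩ := std_data σ τ hσ hσ2 hτ h2 hm hF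
  obtain ⟨-, -, hodd1, hodd2, hodd3, hr4, hrq, hq8⟩ := tor_arith m hm
  have hxU : uG σ hσ hσ2 h2 0 b ∈ (szU σ hσ hσ2 h2) := (mem_szU_iff σ hσ hσ2 h2 _).mpr ⟨0, b, rfl⟩
  have hx1 : uG σ hσ hσ2 h2 0 b ≠ 1 := by
    intro h
    rw [← uG_zero σ hσ hσ2 h2] at h
    exact hb (uG_inj σ hσ hσ2 h2 _ _ _ _ h).2
  have hB : Nat.card (szB (F := F) m) = (2 ^ (2 * m + 1)) ^ 2 * (2 ^ (2 * m + 1) - 1) := by
    have := card_Sz_inf σ τ hσ hσ2 hτ h2 hm hF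
    rw [hF] at this
    exact this
  have hCx := card_cent_invol σ τ hσ hσ2 hτ h2 hm hF b hb
  have hne12 : Nat.card (Subgroup.centralizer ({h₁} : Set (Sz F m))) ≠ Nat.card (Subgroup.centralizer ({h₂} : Set (Sz F m))) := by rw [hc₁, hc₂]; omega
  have hne13 : Nat.card (Subgroup.centralizer ({h₁} : Set (Sz F m))) ≠ Nat.card (Subgroup.centralizer ({h₃} : Set (Sz F m))) := by rw [hc₁, hc₃]; omega
  have hne23 : Nat.card (Subgroup.centralizer ({h₂} : Set (Sz F m))) ≠ Nat.card (Subgroup.centralizer ({h₃} : Set (Sz F m))) := by rw [hc₂, hc₃]; omega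
  have hsplit := sol_split σ τ hσ hσ2 hτ h2 hm hF hp h₁ h₂ h₃ t₁ t₂ t₃ hcls hne12 hne13 hne23 _ hxU hx1
  have y1 := Y_count σ τ hσ hσ2 hτ h2 hm hF h₁ t₁.1 t₁.2 1 (Nat.card (Subgroup.centralizer ({h₁} : Set (Sz F m)))) (tor_card_odd σ τ hσ hσ2 hτ h2 hm hF h₁ t₁.1 t₁.2)
    (by rw [hn₁, pow_one]) _ hxU hx1
  rw [cnt_class] at y1
  have Y1 := Y_solve _ _ _ _ _ y1 (by
    convert (invol_class_count σ τ hσ hσ2 hτ h2 hm hF b hb (Subgroup.normalizer ((Subgroup.centralizer ({h₁} : Set (Sz F m)) : Subgroup (Sz F m)) : Set (Sz F m)))).trans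
      (tor_counts2 σ τ hσ hσ2 hτ h2 hm hF h₁ t₁.1 t₁.2 hn₁).1) Nat.card_pos
  have y2 := Y_count σ τ hσ hσ2 hτ h2 hm hF h₂ t₂.1 t₂.2 2 (Nat.card (Subgroup.centralizer ({h₂} : Set (Sz F m)))) (tor_card_odd σ τ hσ hσ2 hτ h2 hm hF h₂ t₂.1 t₂.2)
    (by rw [hn₂]; norm_num) _ hxU hx1
  rw [cnt_class] at y2
  have Y2 := Y_solve _ _ _ _ _ y2 (by
    convert (invol_class_count σ τ hσ hσ2 hτ h2 hm hF b hb (Subgroup.normalizer ((Subgroup.centralizer ({h₂} : Set (Sz F m)) : Subgroup (Sz F m)) : Set (Sz F m)))).trans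
      (tor_counts4 σ τ hσ hσ2 hτ h2 hm hF h₂ t₂.1 t₂.2 hn₂).1) Nat.card_pos
  have y3 := Y_count σ τ hσ hσ2 hτ h2 hm hF h₃ t₃.1 t₃.2 2 (Nat.card (Subgroup.centralizer ({h₃} : Set (Sz F m)))) (tor_card_odd σ τ hσ hσ2 hτ h2 hm hF h₃ t₃.1 t₃.2)
    (by rw [hn₃]; norm_num) _ hxU hx1
  rw [cnt_class] at y3
  have Y3 := Y_solve _ _ _ _ _ y3 (by
    convert (invol_class_count σ τ hσ hσ2 hτ h2 hm hF b hb (Subgroup.normalizer ((Subgroup.centralizer ({h₃} : Set (Sz F m)) : Subgroup (Sz F m)) : Set (Sz F m)))).trans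
      (tor_counts4 σ τ hσ hσ2 hτ h2 hm hF h₃ t₃.1 t₃.2 hn₃).1) Nat.card_pos
  rw [hsplit, Y1, Y2, Y3, hB, hCx, hc₁, hc₂, hc₃]
  obtain ⟨q, hq⟩ : ∃ q, 2 ^ (2 * m + 1) = q := ⟨_, rfl⟩
  obtain ⟨r, hr⟩ : ∃ r, 2 ^ (m + 1) = r := ⟨_, rfl⟩
  rw [hr] at hr4
  rw [hq, hr] at hrq
  rw [hq] at hq8
  rw [hq, hr]
  have key : ∀ A₁ A₂ A₃ A₄ A₅ : ℕ, A₁ + A₂ + A₃ + A₄ = A₅ →
      q ^ 2 * A₁ + (q * q * A₂ + (q * q * A₃ + q * q * A₄)) = q ^ 2 * A₅ := by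
    intro A₁ A₂ A₃ A₄ A₅ h
    rw [← h]
    ring
  exact key _ _ _ _ _ (by omega)

include hσ hσ2 hτ h2 in
/-- the solubilizer of an element of order four -/
theorem sol_card_four (hm : 1 ≤ m) (hF : Fintype.card F = 2 ^ (2 * m + 1)) (hp : (2 * m + 1).Prime) [Fintype (Sz F m)] (a b : F) (ha : a ≠ 0) :
    (Finset.univ.filter (fun y : (Sz F m) =>
      Group.IsSolvable (Subgroup.closure ({uG σ hσ hσ2 h2 a b, y} : Set (Sz F m))))).card =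
      (2 ^ (2 * m + 1)) ^ 2 * (2 ^ (2 * m + 1) + 3) := by
  obtain ⟨h₁, h₂, h₃, t₁, t₂, t₃, hc₁, hn₁, hc₂, hn₂, hc₃, hn₃, hcls⟩ := std_data σ τ hσ hσ2 hτ h2 hm hF
  obtain ⟨-, -, hodd1, hodd2, hodd3, hr4, hrq, hq8⟩ := tor_arith m hm
  have hxU : uG σ hσ hσ2 h2 a b ∈ (szU σ hσ hσ2 h2) := (mem_szU_iff σ hσ hσ2 h2 _).mpr ⟨a, b, rfl⟩
  have hx1 : uG σ hσ hσ2 h2 a b ≠ 1 := by
    intro h
    rw [← uG_zero σ hσ hσ2 h2] at h
    exact ha (uG_inj σ hσ hσ2 h2 _ _ _ _ h).1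
  have hB : Nat.card (szB (F := F) m) = (2 ^ (2 * m + 1)) ^ 2 * (2 ^ (2 * m + 1) - 1) := by
    have := card_Sz_inf σ τ hσ hσ2 hτ h2 hm hF
    rw [hF] at this
    exact this
  have hCx := card_cent_four σ τ hσ hσ2 hτ h2 hm hF a b ha
  have hne12 : Nat.card (Subgroup.centralizer ({h₁} : Set (Sz F m))) ≠ Nat.card (Subgroup.centralizer ({h₂} : Set (Sz F m))) := by rw [hc₁, hc₂]; omega
  have hne13 : Nat.card (Subgroup.centralizer ({h₁} : Set (Sz F m))) ≠ Nat.card (Subgroup.centralizer ({h₃} : Set (Sz F m))) := by rw [hc₁, hc₃]; omega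
  have hne23 : Nat.card (Subgroup.centralizer ({h₂} : Set (Sz F m))) ≠ Nat.card (Subgroup.centralizer ({h₃} : Set (Sz F m))) := by rw [hc₂, hc₃]; omega
  have hsplit := sol_split σ τ hσ hσ2 hτ h2 hm hF hp h₁ h₂ h₃ t₁ t₂ t₃ hcls hne12 hne13 hne23 _ hxU hx1
  have cl1 := four_class_count σ τ hσ hσ2 hτ h2 hm hF a b ha (Subgroup.normalizer ((Subgroup.centralizer ({h₁} : Set (Sz F m)) : Subgroup (Sz F m)) : Set (Sz F m)))
  rw [(tor_counts2 σ τ hσ hσ2 hτ h2 hm hF h₁ t₁.1 t₁.2 hn₁).2] at cl1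
  have cl1' : (Finset.univ.filter (fun v : (Sz F m) => v ∈ (Subgroup.normalizer ((Subgroup.centralizer ({h₁} : Set (Sz F m)) : Subgroup (Sz F m)) : Set (Sz F m))) ∧
      ∃ g : (Sz F m), g⁻¹ * uG σ hσ hσ2 h2 a b * g = v)).card = 0 := by omega
  have cl2 := four_class_count σ τ hσ hσ2 hτ h2 hm hF a b ha (Subgroup.normalizer ((Subgroup.centralizer ({h₂} : Set (Sz F m)) : Subgroup (Sz F m)) : Set (Sz F m)))
  rw [(tor_counts4 σ τ hσ hσ2 hτ h2 hm hF h₂ t₂.1 t₂.2 hn₂).2] at cl2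
  have cl2' : (Finset.univ.filter (fun v : (Sz F m) => v ∈ (Subgroup.normalizer ((Subgroup.centralizer ({h₂} : Set (Sz F m)) : Subgroup (Sz F m)) : Set (Sz F m))) ∧
      ∃ g : (Sz F m), g⁻¹ * uG σ hσ hσ2 h2 a b * g = v)).card = Nat.card (Subgroup.centralizer ({h₂} : Set (Sz F m))) := by omega
  have cl3 := four_class_count σ τ hσ hσ2 hτ h2 hm hF a b ha (Subgroup.normalizer ((Subgroup.centralizer ({h₃} : Set (Sz F m)) : Subgroup (Sz F m)) : Set (Sz F m)))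
  rw [(tor_counts4 σ τ hσ hσ2 hτ h2 hm hF h₃ t₃.1 t₃.2 hn₃).2] at cl3
  have cl3' : (Finset.univ.filter (fun v : (Sz F m) => v ∈ (Subgroup.normalizer ((Subgroup.centralizer ({h₃} : Set (Sz F m)) : Subgroup (Sz F m)) : Set (Sz F m))) ∧
      ∃ g : (Sz F m), g⁻¹ * uG σ hσ hσ2 h2 a b * g = v)).card = Nat.card (Subgroup.centralizer ({h₃} : Set (Sz F m))) := by omega
  have y1 := Y_count σ τ hσ hσ2 hτ h2 hm hF h₁ t₁.1 t₁.2 1 (Nat.card (Subgroup.centralizer ({h₁} : Set (Sz F m)))) (tor_card_odd σ τ hσ hσ2 hτ h2 hm hF h₁ t₁.1 t₁.2)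
    (by rw [hn₁, pow_one]) _ hxU hx1
  rw [cnt_class] at y1
  have Y1 := Y_zero _ _ _ _ _ y1 (by convert cl1') Nat.card_pos
  have y2 := Y_count σ τ hσ hσ2 hτ h2 hm hF h₂ t₂.1 t₂.2 2 (Nat.card (Subgroup.centralizer ({h₂} : Set (Sz F m)))) (tor_card_odd σ τ hσ hσ2 hτ h2 hm hF h₂ t₂.1 t₂.2)
    (by rw [hn₂]; norm_num) _ hxU hx1
  rw [cnt_class] at y2
  have Y2 := Y_solve _ _ _ _ _ y2 (by convert cl2') Nat.card_pos
  have y3 := Y_count σ τ hσ hσ2 hτ h2 hm hF h₃ t₃.1 t₃.2 2 (Nat.card (Subgroup.centralizer ({h₃} : Set (Sz F m)))) (tor_card_odd σ τ hσ hσ2 hτ h2 hm hF h₃ t₃.1 t₃.2)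
    (by rw [hn₃]; norm_num) _ hxU hx1
  rw [cnt_class] at y3
  have Y3 := Y_solve _ _ _ _ _ y3 (by convert cl3') Nat.card_pos
  rw [hsplit, Y1, Y2, Y3, hB, hCx, hc₂, hc₃]
  obtain ⟨q, hq⟩ : ∃ q, 2 ^ (2 * m + 1) = q := ⟨_, rfl⟩
  obtain ⟨r, hr⟩ : ∃ r, 2 ^ (m + 1) = r := ⟨_, rfl⟩
  rw [hr] at hr4
  rw [hq, hr] at hrq
  rw [hq] at hq8
  rw [hq, hr]
  have key : ∀ A₁ A₃ A₄ : ℕ, A₃ + A₄ = 2 * q → A₁ + 4 = q + 3 →
      q ^ 2 * A₁ + (0 + (2 * q * A₃ + 2 * q * A₄)) = q ^ 2 * (q + 3) := by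
    intro A₁ A₃ A₄ h h'
    have e2 : 2 * q * A₃ + 2 * q * A₄ = 2 * q * (A₃ + A₄) := by ring
    rw [zero_add, e2, h, ← h']
    ring
  exact key _ _ _ (by omega) (by omega)

end mainS

end

end Cfsg.Agent.Helper3
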