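import Mathlib
import Cfsg.Agent.Helper3.SuzukiSol6

set_option autoImplicit false
set_option linter.unusedSectionVars false
set_option linter.style.haveILetI false
set_option linter.unusedSimpArgs false
set_option linter.unusedVariables false
set_option linter.deprecated false

namespace Cfsg.Agent.Helper3

open scoped Classical Pointwise
open Cfsg Matrix

noncomputable section

section torusS

variable {F : Type*} [Field F] [Fintype F] {m : ℕ} (σ τ : F →+* F)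
  (hσ : ∀ x, σ x = x ^ (2 ^ (m + 1)))
  (hσ2 : ∀ x, σ (σ x) = x ^ 2) (hτ : ∀ x, τ x ^ 2 = σ x) (h2 : (2 : F) = 0)

include hσ hσ2 hτ h2 in
/-- the solubilizer of a nonidentity element of the split torus -/
theorem sol_card_D (hm : 1 ≤ m) (hF : Fintype.card F = 2 ^ (2 * m + 1)) (hp : (2 * m + 1).Prime) [Fintype (Sz F m)] (κ : Fˣ) (hκ : κ ≠ 1) :
    (Finset.univ.filter (fun y : (Sz F m) =>
      Group.IsSolvable (Subgroup.closure ({dG σ τ hσ hσ2 hτ κ, y} : Set (Sz F m))))).card =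
      2 * (2 ^ (2 * m + 1)) ^ 2 * (2 ^ (2 * m + 1) - 1) := by
  haveI := Sz_finite σ τ hσ hσ2 hτ h2 hm hF
  obtain ⟨-, -, hodd1, -, -, hr4, hrq, hq8⟩ := tor_arith m hm
  have hx1 : dG σ τ hσ hσ2 hτ κ ≠ 1 := by
    intro h
    rw [← dG_one σ τ hσ hσ2 hτ] at h
    exact hκ (dG_inj σ τ hσ hσ2 hτ _ _ h)
  have hxD : dG σ τ hσ hσ2 hτ κ ∈ (szD σ τ hσ hσ2 hτ) := (mem_szD_iff σ τ hσ hσ2 hτ _).mpr ⟨κ, rfl⟩
  have hDodd : Odd (Nat.card (szD σ τ hσ hσ2 hτ)) := by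
    rw [card_szD, hF]
    exact hodd1
  have hxU : dG σ τ hσ hσ2 hτ κ ∉ tiSet (szU σ hσ hσ2 h2) := not_tiU_of_odd σ τ hσ hσ2 hτ h2 hm hF (szD σ τ hσ hσ2 hτ) hDodd _ hxD hx1
  have hxodd : Odd (orderOf (dG σ τ hσ hσ2 hτ κ)) :=
    Odd.of_dvd_nat hDodd (Subgroup.orderOf_dvd_natCard _ hxD)
  have hNC : (Subgroup.normalizer ((Subgroup.centralizer ({dG σ τ hσ hσ2 hτ κ} : Set (Sz F m)) : Subgroup (Sz F m)) : Set (Sz F m))) = (szND (m := m) σ) := by rw [cent_dG σ τ hσ hσ2 hτ h2 hm hF κ hκ, norm_szD σ τ hσ hσ2 hτ h2 hm hF]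
  have hw0 : sact σ hσ (wG σ hσ hσ2 h2)⁻¹ none = some (0, 0) :=
    (sact_inv σ hσ _ none (some (0, 0))).mpr (sact_wG_zero σ hσ hσ2 h2)
  have hchar : ∀ y : (Sz F m), Group.IsSolvable (Subgroup.closure ({dG σ τ hσ hσ2 hτ κ, y} : Set (Sz F m))) ↔
      (y ∈ (szB (F := F) m) ∨ ((y ∉ (szB (F := F) m) ∧ sact σ hσ y (some (0, 0)) = some (0, 0)) ∨
        (∃ μ : Fˣ, y = wG σ hσ hσ2 h2 * dG σ τ hσ hσ2 hτ μ))) := by
    intro y
    rw [sol_iff σ τ hσ hσ2 hτ h2 hm hp hF]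
    constructor
    · rintro (⟨o, hxo, hyo⟩ | ⟨h, hh1, hhU, hxN, hyN⟩)
      · rcases sact_dG_fix σ τ hσ hσ2 hτ κ hκ o hxo with rfl | rfl
        · left
          exact (mem_szB_sact σ hσ y).mpr hyo
        · by_cases hyB : y ∈ (szB (F := F) m)
          · left
            exact hyB
          · right; left
            exact ⟨hyB, hyo⟩
      · obtain ⟨-, -, hC', h4'⟩ := toral σ τ hσ hσ2 hτ h2 hm hF h hh1 hhU
        have hxCh : dG σ τ hσ hσ2 hτ κ ∈ (Subgroup.centralizer ({h} : Set (Sz F m))) :=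
          odd_pow_mem _ _ _ hxodd (pow_orderOf_eq_one _) (h4' _ hxN)
        rw [← hC' _ hxCh hx1, hNC] at hyN
        rcases (mem_szND_iff σ τ hσ hσ2 hτ h2 hm hF y).mp hyN with ⟨μ, rfl⟩ | ⟨μ, rfl⟩
        · left
          exact dG_mem_szB σ τ hσ hσ2 hτ μ
        · right; right
          exact ⟨μ, rfl⟩
    · rintro (hyB | ⟨-, hy0⟩ | ⟨μ, rfl⟩)
      · left
        exact ⟨none, sact_dG_none σ τ hσ hσ2 hτ κ, (mem_szB_sact σ hσ y).mp hyB⟩
      · left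
        refine ⟨some (0, 0), ?_, hy0⟩
        rw [sact_dG_some]
        simp
      · right
        refine ⟨dG σ τ hσ hσ2 hτ κ, hx1, hxU,
          Subgroup.le_normalizer (Subgroup.mem_centralizer_singleton_iff.mpr rfl), ?_⟩
        rw [hNC, mem_szND_iff σ τ hσ hσ2 hτ h2 hm hF]
        right
        exact ⟨μ, rfl⟩
  have d1 : ∀ y : (Sz F m), y ∈ (szB (F := F) m) → ¬ ((y ∉ (szB (F := F) m) ∧ sact σ hσ y (some (0, 0)) = some (0, 0)) ∨
      (∃ μ : Fˣ, y = wG σ hσ hσ2 h2 * dG σ τ hσ hσ2 hτ μ)) := by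
    rintro y hyB (h | ⟨μ, rfl⟩)
    · exact h.1 hyB
    · rw [mem_szB_sact σ hσ, sact_mul, sact_dG_none, sact_wG_none] at hyB
      exact absurd hyB (by simp)
  have d2 : ∀ y : (Sz F m), (y ∉ (szB (F := F) m) ∧ sact σ hσ y (some (0, 0)) = some (0, 0)) →
      ¬ (∃ μ : Fˣ, y = wG σ hσ hσ2 h2 * dG σ τ hσ hσ2 hτ μ) := by
    rintro y ⟨-, hy0⟩ ⟨μ, rfl⟩
    rw [sact_mul, sact_dG_some, mul_zero, mul_zero, sact_wG_zero] at hy0
    exact absurd hy0 (by simp)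
  rw [Finset.filter_congr (fun y _ => hchar y), card_filter_or_disj _ _ d1,
    card_filter_or_disj _ _ d2, card_filter_mem]
  -- the stabiliser of the point `0`
  have c0 : (Finset.univ.filter (fun y : (Sz F m) => sact σ hσ y (some (0, 0)) = some (0, 0))).card =
      Nat.card (szB (F := F) m) := by
    rw [← card_filter_mem]
    apply card_filter_equiv (MulAut.conj (wG σ hσ hσ2 h2)).toEquiv
    intro y
    show sact σ hσ y (some (0, 0)) = some (0, 0) ↔ (MulAut.conj (wG σ hσ hσ2 h2)) y ∈ (szB (F := F) m)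
    rw [MulAut.conj_apply, mem_szB_sact σ hσ, sact_conj_fix, hw0]
  have c1 : (Finset.univ.filter (fun y : (Sz F m) =>
      sact σ hσ y (some (0, 0)) = some (0, 0) ∧ y ∈ (szB (F := F) m))).card = 2 ^ (2 * m + 1) - 1 := by
    rw [← hF, ← card_szD σ τ hσ hσ2 hτ, ← card_filter_mem]
    apply congrArg Finset.card
    apply Finset.filter_congr
    intro y _
    constructor
    · rintro ⟨hy0, hyB⟩
      obtain ⟨μ, rfl⟩ := fix_two_dG σ τ hσ hσ2 hτ h2 hm hF y ((mem_szB_sact σ hσ y).mp hyB) hy0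
      exact (mem_szD_iff σ τ hσ hσ2 hτ _).mpr ⟨μ, rfl⟩
    · intro hy
      obtain ⟨μ, rfl⟩ := (mem_szD_iff σ τ hσ hσ2 hτ _).mp hy
      refine ⟨?_, dG_mem_szB σ τ hσ hσ2 hτ μ⟩
      rw [sact_dG_some]
      simp
  have c2 : (Finset.univ.filter (fun y : (Sz F m) => ∃ μ : Fˣ, y = wG σ hσ hσ2 h2 * dG σ τ hσ hσ2 hτ μ)).card =
      2 ^ (2 * m + 1) - 1 := by
    rw [← hF, ← card_szD σ τ hσ hσ2 hτ, ← card_filter_mem]
    apply card_filter_equiv (Equiv.mulLeft (wG σ hσ hσ2 h2)⁻¹)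
    intro y
    show (∃ μ : Fˣ, y = wG σ hσ hσ2 h2 * dG σ τ hσ hσ2 hτ μ) ↔ (wG σ hσ hσ2 h2)⁻¹ * y ∈ (szD σ τ hσ hσ2 hτ)
    rw [mem_szD_iff]
    constructor
    · rintro ⟨μ, rfl⟩
      exact ⟨μ, by rw [inv_mul_cancel_left]⟩
    · rintro ⟨μ, hμ⟩
      exact ⟨μ, eq_mul_of_inv_mul_eq hμ⟩
  have hsplit := Finset.card_filter_add_card_filter_not
    (s := Finset.univ.filter (fun y : (Sz F m) => sact σ hσ y (some (0, 0)) = some (0, 0)))
    (fun y : (Sz F m) => y ∈ (szB (F := F) m))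
  rw [Finset.filter_filter, Finset.filter_filter, c0, c1] at hsplit
  have e3 : (Finset.univ.filter (fun y : (Sz F m) =>
      y ∉ (szB (F := F) m) ∧ sact σ hσ y (some (0, 0)) = some (0, 0))).card =
      (Finset.univ.filter (fun y : (Sz F m) =>
        sact σ hσ y (some (0, 0)) = some (0, 0) ∧ ¬ y ∈ (szB (F := F) m))).card := by
    apply congrArg Finset.card
    apply Finset.filter_congr
    intro y _
    exact And.comm
  have hB : Nat.card (szB (F := F) m) = (2 ^ (2 * m + 1)) ^ 2 * (2 ^ (2 * m + 1) - 1) := by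
    have := card_Sz_inf σ τ hσ hσ2 hτ h2 hm hF
    rw [hF] at this
    exact this
  rw [e3, c2]
  have e4 : Nat.card (szB (F := F) m) + ((Finset.univ.filter (fun y : (Sz F m) =>
      sact σ hσ y (some (0, 0)) = some (0, 0) ∧ ¬ y ∈ (szB (F := F) m))).card + (2 ^ (2 * m + 1) - 1)) =
      2 * Nat.card (szB (F := F) m) := by omega
  rw [e4, hB]
  ring

include hσ hσ2 hτ h2 in
theorem sol_card_Dgen (hm : 1 ≤ m) (hF : Fintype.card F = 2 ^ (2 * m + 1)) (hp : (2 * m + 1).Prime) [Fintype (Sz F m)] (x : (Sz F m)) (hx1 : x ≠ 1)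
    (hord : orderOf x ∣ 2 ^ (2 * m + 1) - 1) :
    Nat.card {y : (Sz F m) // Group.IsSolvable (Subgroup.closure ({x, y} : Set (Sz F m)))} =
      2 * (2 ^ (2 * m + 1)) ^ 2 * (2 ^ (2 * m + 1) - 1) := by
  haveI := Sz_finite σ τ hσ hσ2 hτ h2 hm hF
  obtain ⟨hcop2, hcop3, hodd1, hodd2, hodd3, hr4, hrq, hq8⟩ := tor_arith m hm
  have hxodd : Odd (orderOf x) := Odd.of_dvd_nat hodd1 hord
  have hxU : x ∉ tiSet (szU σ hσ hσ2 h2) :=
    not_tiU_of_odd σ τ hσ hσ2 hτ h2 hm hF (Subgroup.zpowers x) (by rw [Nat.card_zpowers]; exact hxodd) x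
      (Subgroup.mem_zpowers x) hx1
  have hxD : x ∈ tiSet (szD σ τ hσ hσ2 hτ) := by
    by_contra hnD
    have hxS : x ∈ szS0 F m := by
      rw [szS0_eq σ τ hσ hσ2 hτ h2 hm hF]
      rintro ((h | h) | h)
      · exact hx1 h
      · exact hxU h
      · exact hnD h
    have hdvd := (S0_card σ τ hσ hσ2 hτ h2 hm hF x hxS).1
    have hxC : orderOf x ∣ Nat.card (Subgroup.centralizer ({x} : Set (Sz F m))) :=
      Subgroup.orderOf_dvd_natCard _ (Subgroup.mem_centralizer_singleton_iff.mpr rfl)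
    have h3 : orderOf x ∣ (2 ^ (2 * m + 1) - 1 + 1) ^ 2 + 1 := by
      have e : 2 ^ (2 * m + 1) - 1 + 1 = 2 ^ (2 * m + 1) := by omega
      rw [e, ← hF]
      exact dvd_trans hxC hdvd
    have h4 := coprime_qm1 (2 ^ (2 * m + 1) - 1) (orderOf x) hodd1 h3
    have h5 := Nat.Coprime.eq_one_of_dvd h4 hord
    exact hx1 (orderOf_eq_one_iff.mp h5)
  obtain ⟨-, c, hc⟩ := hxD
  obtain ⟨κ, hκ⟩ := (mem_szD_iff σ τ hσ hσ2 hτ _).mp hc
  have hκ1 : κ ≠ 1 := by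
    rintro rfl
    rw [dG_one] at hκ
    exact hx1 (conj_eq_one_iff.mp hκ)
  have e := card_sol_equiv (MulAut.conj c) x
  rw [MulAut.conj_apply, hκ] at e
  rw [← e, natcard_subtype_filter]
  exact sol_card_D σ τ hσ hσ2 hτ h2 hm hF hp κ hκ1

include hσ hσ2 hτ h2 in
/-- the solubilizer of a nonidentity element of a nonsplit torus -/
theorem sol_card_S0 (hm : 1 ≤ m) (hF : Fintype.card F = 2 ^ (2 * m + 1)) (hp : (2 * m + 1).Prime) (x : (Sz F m)) (hx1 : x ≠ 1) (k : ℕ)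
    (hk : k = 2 ^ (2 * m + 1) + 2 ^ (m + 1) + 1 ∨ k = 2 ^ (2 * m + 1) - 2 ^ (m + 1) + 1)
    (hord : orderOf x ∣ k) :
    Nat.card {y : (Sz F m) // Group.IsSolvable (Subgroup.closure ({x, y} : Set (Sz F m)))} = 4 * k := by
  haveI := Sz_finite σ τ hσ hσ2 hτ h2 hm hF
  obtain ⟨hcop2, hcop3, hodd1, hodd2, hodd3, hr4, hrq, hq8⟩ := tor_arith m hm
  obtain ⟨z₁, z₂, hz₁, hz₂, hn₁, hn₂, hN₁, hN₂, hcop, hunion⟩ := Sz_tori σ τ hσ hσ2 hτ h2 hm hF
  rw [hn₁, hn₂] at hcop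
  have hd1 : orderOf x ≠ 1 := fun h => hx1 (orderOf_eq_one_iff.mp h)
  have hkodd : Odd k := by
    rcases hk with rfl | rfl
    · exact hodd2
    · exact hodd3
  have hkcop : Nat.Coprime k (2 ^ (2 * m + 1) - 1) := by
    rcases hk with rfl | rfl
    · exact hcop2
    · exact hcop3
  have hxodd : Odd (orderOf x) := Odd.of_dvd_nat hkodd hord
  have hxU : x ∉ tiSet (szU σ hσ hσ2 h2) :=
    not_tiU_of_odd σ τ hσ hσ2 hτ h2 hm hF (Subgroup.zpowers x) (by rw [Nat.card_zpowers]; exact hxodd) x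
      (Subgroup.mem_zpowers x) hx1
  obtain ⟨hcyc, hcard, hC, h4⟩ := toral σ τ hσ hσ2 hτ h2 hm hF x hx1 hxU
  have hxC : x ∈ (Subgroup.centralizer ({x} : Set (Sz F m))) := Subgroup.mem_centralizer_singleton_iff.mpr rfl
  have hdvd : orderOf x ∣ Nat.card (Subgroup.centralizer ({x} : Set (Sz F m))) := Subgroup.orderOf_dvd_natCard _ hxC
  have hcardk : Nat.card (Subgroup.centralizer ({x} : Set (Sz F m))) = k := by
    simp only [Set.mem_insert_iff, Set.mem_singleton_iff] at hcard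
    rcases hcard with hc | hc | hc
    · exfalso
      rw [hc] at hdvd
      exact dvd_coprime_absurd _ _ _ hd1 hord hdvd hkcop
    · rcases hk with rfl | rfl
      · exact hc
      · exfalso
        rw [hc] at hdvd
        exact dvd_coprime_absurd _ _ _ hd1 hdvd hord hcop
    · rcases hk with rfl | rfl
      · exfalso
        rw [hc] at hdvd
        exact dvd_coprime_absurd _ _ _ hd1 hord hdvd hcop
      · exact hc
  have hxS : x ∈ szS0 F m := by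
    rw [szS0_eq σ τ hσ hσ2 hτ h2 hm hF]
    rintro ((h | h) | ⟨-, c, hc⟩)
    · exact hx1 h
    · exact hxU h
    · have h3 : orderOf (c * x * c⁻¹) ∣ Nat.card (szD σ τ hσ hσ2 hτ) := Subgroup.orderOf_dvd_natCard _ hc
      have h5 : orderOf (c * x * c⁻¹) = orderOf x := by
        have := (MulAut.conj c).orderOf_eq x
        rwa [MulAut.conj_apply] at this
      rw [h5, card_szD, hF] at h3
      exact dvd_coprime_absurd _ _ _ hd1 hord h3 hkcop
  have hN4 := S0_norm4 σ τ hσ hσ2 hτ h2 hm hF x hxS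
  have hset : ∀ y : (Sz F m), Group.IsSolvable (Subgroup.closure ({x, y} : Set (Sz F m))) ↔
      y ∈ (Subgroup.normalizer ((Subgroup.centralizer ({x} : Set (Sz F m)) : Subgroup (Sz F m)) : Set (Sz F m))) := by
    intro y
    rw [sol_iff σ τ hσ hσ2 hτ h2 hm hp hF]
    constructor
    · rintro (⟨o, hxo, -⟩ | ⟨h, hh1, hhU, hxN, hyN⟩)
      · exfalso
        exact (mem_szS0 σ hσ x).mp hxS o ((sact_eq_iff σ hσ x o o).mp hxo)
      · obtain ⟨-, -, hC', h4'⟩ := toral σ τ hσ hσ2 hτ h2 hm hF h hh1 hhU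
        have hxCh : x ∈ (Subgroup.centralizer ({h} : Set (Sz F m))) :=
          odd_pow_mem _ x (orderOf x) hxodd (pow_orderOf_eq_one x) (h4' x hxN)
        rw [hC' x hxCh hx1]
        exact hyN
    · intro hy
      right
      exact ⟨x, hx1, hxU, Subgroup.le_normalizer hxC, hy⟩
  rw [Nat.card_congr (Equiv.subtypeEquivRight hset)]
  show Nat.card (Subgroup.normalizer ((Subgroup.centralizer ({x} : Set (Sz F m)) : Subgroup (Sz F m)) : Set (Sz F m))) = 4 * k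
  rw [hN4, hcardk]

include hσ hσ2 hτ h2 in
/-- the sizes of the solubilizers in the Suzuki group `Sz F m`, `2 * m + 1` prime -/
theorem Sz_sol_card (hm : 1 ≤ m) (hF : Fintype.card F = 2 ^ (2 * m + 1)) (hp : (2 * m + 1).Prime) (x : (Sz F m)) :
    (orderOf x = 2 →
      Nat.card {y : (Sz F m) // Group.IsSolvable (Subgroup.closure ({x, y} : Set (Sz F m)))} =
        (2 ^ (2 * m + 1)) ^ 2 * (4 * 2 ^ (2 * m + 1) - 3)) ∧
    (orderOf x = 4 →
      Nat.card {y : (Sz F m) // Group.IsSolvable (Subgroup.closure ({x, y} : Set (Sz F m)))} =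
        (2 ^ (2 * m + 1)) ^ 2 * (2 ^ (2 * m + 1) + 3)) ∧
    (x ≠ 1 → orderOf x ∣ 2 ^ (2 * m + 1) - 1 →
      Nat.card {y : (Sz F m) // Group.IsSolvable (Subgroup.closure ({x, y} : Set (Sz F m)))} =
        2 * (2 ^ (2 * m + 1)) ^ 2 * (2 ^ (2 * m + 1) - 1)) ∧
    (x ≠ 1 → orderOf x ∣ 2 ^ (2 * m + 1) + 2 ^ (m + 1) + 1 →
      Nat.card {y : (Sz F m) // Group.IsSolvable (Subgroup.closure ({x, y} : Set (Sz F m)))} =
        4 * (2 ^ (2 * m + 1) + 2 ^ (m + 1) + 1)) ∧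
    (x ≠ 1 → orderOf x ∣ 2 ^ (2 * m + 1) - 2 ^ (m + 1) + 1 →
      Nat.card {y : (Sz F m) // Group.IsSolvable (Subgroup.closure ({x, y} : Set (Sz F m)))} =
        4 * (2 ^ (2 * m + 1) - 2 ^ (m + 1) + 1)) := by
  haveI := Sz_finite σ τ hσ hσ2 hτ h2 hm hF
  haveI : Fintype (Sz F m) := Fintype.ofFinite _
  refine ⟨?_, ?_, ?_, ?_, ?_⟩
  · intro hx
    obtain ⟨hx2, hx1⟩ := (orderOf_two_iff x).mp hx
    obtain ⟨c, hc⟩ := two_elt_conj σ τ hσ hσ2 hτ h2 hm hF x 1 (by rw [pow_one]; exact hx2)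
    obtain ⟨a, b, hab⟩ := (mem_szU_iff σ hσ hσ2 h2 _).mp hc
    have hsq : uG σ hσ hσ2 h2 a b * uG σ hσ hσ2 h2 a b = 1 := by
      rw [← hab]
      calc c * x * c⁻¹ * (c * x * c⁻¹) = c * (x ^ 2) * c⁻¹ := by rw [pow_two]; group
        _ = 1 := by rw [hx2]; group
    rw [uG_sq, ← uG_zero σ hσ hσ2 h2] at hsq
    have ha : a = 0 := by
      have h3 := (uG_inj σ hσ hσ2 h2 _ _ _ _ hsq).2
      rcases mul_eq_zero.mp h3 with h4 | h4
      · exact (map_eq_zero σ).mp h4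
      · exact h4
    subst ha
    have hb : b ≠ 0 := by
      rintro rfl
      rw [uG_zero] at hab
      exact hx1 (conj_eq_one_iff.mp hab)
    have e := card_sol_equiv (MulAut.conj c) x
    rw [MulAut.conj_apply, hab] at e
    rw [← e, natcard_subtype_filter]
    exact sol_card_invol σ τ hσ hσ2 hτ h2 hm hF hp b hb
  · intro hx
    have hx4 : x ^ 4 = 1 := by
      have := pow_orderOf_eq_one x
      rwa [hx] at this
    have hx2 : x ^ 2 ≠ 1 := by
      intro h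
      have := orderOf_dvd_of_pow_eq_one h
      rw [hx] at this
      omega
    obtain ⟨c, hc⟩ := two_elt_conj σ τ hσ hσ2 hτ h2 hm hF x 2 (by norm_num; exact hx4)
    obtain ⟨a, b, hab⟩ := (mem_szU_iff σ hσ hσ2 h2 _).mp hc
    have ha : a ≠ 0 := by
      rintro rfl
      apply hx2
      have hsq : uG σ hσ hσ2 h2 0 b * uG σ hσ hσ2 h2 0 b = 1 := by
        rw [uG_sq, map_zero, zero_mul, uG_zero]
      rw [← hab] at hsq
      have e : c * x * c⁻¹ * (c * x * c⁻¹) = c * (x ^ 2) * c⁻¹ := by rw [pow_two]; group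
      rw [e] at hsq
      exact conj_eq_one_iff.mp hsq
    have e := card_sol_equiv (MulAut.conj c) x
    rw [MulAut.conj_apply, hab] at e
    rw [← e, natcard_subtype_filter]
    exact sol_card_four σ τ hσ hσ2 hτ h2 hm hF hp a b ha
  · intro hx1 hord
    exact sol_card_Dgen σ τ hσ hσ2 hτ h2 hm hF hp x hx1 hord
  · intro hx1 hord
    exact sol_card_S0 σ τ hσ hσ2 hτ h2 hm hF hp x hx1 _ (Or.inl rfl) hord
  · intro hx1 hord
    exact sol_card_S0 σ τ hσ hσ2 hτ h2 hm hF hp x hx1 _ (Or.inr rfl) hord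

end torusS

/-- the sizes of the solubilizers in the Suzuki groups `Lie.Sz F (2 ^ (m + 1))`, `2 * m + 1`
prime -/
theorem lieSz_sol_card {F : Type*} [Field F] [Fintype F] {m : ℕ} (hm : 1 ≤ m)
    (hp : (2 * m + 1).Prime) (hF : Fintype.card F = 2 ^ (2 * m + 1))
    (x : ↥(Cfsg.Lie.Sz F (2 ^ (m + 1)))) :
    (orderOf x = 2 → Nat.card {y : ↥(Cfsg.Lie.Sz F (2 ^ (m + 1))) //
      Group.IsSolvable ↥(Subgroup.closure ({x, y} : Set (↥(Cfsg.Lie.Sz F (2 ^ (m + 1))))))} =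
        (2 ^ (2 * m + 1)) ^ 2 * (4 * 2 ^ (2 * m + 1) - 3)) ∧
    (orderOf x = 4 → Nat.card {y : ↥(Cfsg.Lie.Sz F (2 ^ (m + 1))) //
      Group.IsSolvable ↥(Subgroup.closure ({x, y} : Set (↥(Cfsg.Lie.Sz F (2 ^ (m + 1))))))} =
        (2 ^ (2 * m + 1)) ^ 2 * (2 ^ (2 * m + 1) + 3)) ∧
    (x ≠ 1 → orderOf x ∣ 2 ^ (2 * m + 1) - 1 →
      Nat.card {y : ↥(Cfsg.Lie.Sz F (2 ^ (m + 1))) //
        Group.IsSolvable ↥(Subgroup.closure ({x, y} : Set (↥(Cfsg.Lie.Sz F (2 ^ (m + 1))))))} =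
        2 * (2 ^ (2 * m + 1)) ^ 2 * (2 ^ (2 * m + 1) - 1)) ∧
    (x ≠ 1 → orderOf x ∣ 2 ^ (2 * m + 1) + 2 ^ (m + 1) + 1 →
      Nat.card {y : ↥(Cfsg.Lie.Sz F (2 ^ (m + 1))) //
        Group.IsSolvable ↥(Subgroup.closure ({x, y} : Set (↥(Cfsg.Lie.Sz F (2 ^ (m + 1))))))} =
        4 * (2 ^ (2 * m + 1) + 2 ^ (m + 1) + 1)) ∧
    (x ≠ 1 → orderOf x ∣ 2 ^ (2 * m + 1) - 2 ^ (m + 1) + 1 →
      Nat.card {y : ↥(Cfsg.Lie.Sz F (2 ^ (m + 1))) //
        Group.IsSolvable ↥(Subgroup.closure ({x, y} : Set (↥(Cfsg.Lie.Sz F (2 ^ (m + 1))))))} =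
        4 * (2 ^ (2 * m + 1) - 2 ^ (m + 1) + 1)) := by
  obtain ⟨σ, τ, hσ, hσ2, hτ, h2⟩ := sz_ctx hF
  obtain ⟨e⟩ := Sz_lie_iso' (F := F) hm hF
  have hmain := Sz_sol_card σ τ hσ hσ2 hτ h2 hm hF hp (e.symm x)
  have hcard := card_sol_equiv e (e.symm x)
  rw [e.apply_symm_apply] at hcard
  have hord : orderOf (e.symm x) = orderOf x := e.symm.orderOf_eq x
  have hne : x ≠ 1 → e.symm x ≠ 1 := by
    intro h h'
    apply h
    have := congrArg e h'
    rwa [e.apply_symm_apply, map_one] at this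
  rw [hcard, ← hord]
  obtain ⟨h1, h2', h3, h4, h5⟩ := hmain
  exact ⟨h1, h2', fun hx => h3 (hne hx), fun hx => h4 (hne hx), fun hx => h5 (hne hx)⟩

end

end Cfsg.Agent.Helper3
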